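import Mathlib

/-!
# Arithmetic of three strongly self-centralizing subgroups with indices 2, 4, 4

`n1` is the order of the first subgroup, `P` the product of the orders of the other two, `c` the order
of the centraliser of an involution, `c * w` the part of the group order prime to `n1 * P`, and `D`, `T`
the signed degree and involution value of the non-exceptional character belonging to the first subgroup.
-/

set_option autoImplicit false
set_option maxHeartbeats 800000

namespace Cfsg.Agent.SSCSuzuki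

/-- The data of the main case. -/
structure MainData (n1 m1 P : ℕ) (D T : ℤ) (c w : ℕ) : Prop where
  hn1 : 5 ≤ n1
  hm1 : n1 = 2 * m1 + 1
  hP : 117 ≤ P
  hPo : Odd P
  hD1 : (n1 : ℤ) ∣ D - 1
  hDP : (P : ℤ) ∣ D + 1
  hD0 : D ≠ 0
  hD2 : D + 1 ≠ 0
  key : (w : ℤ) * P * (D - T) ^ 2 = c * D * (D + 1)
  hw : Odd w
  hc : 2 ∣ c
  hc0 : 0 < c
  hcop : (c * w).Coprime (n1 * P)
  hdD : D ∣ ((c * w : ℕ) : ℤ)
  hdF : D + 1 ∣ ((n1 * P * (c * w) : ℕ) : ℤ)
  hle : c * w ≤ 3 * n1 * P
  hgt : n1 * P < c * w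
  hlb : 1 + T ^ 2 + (m1 : ℤ) * (1 + T) ^ 2 ≤ c
  hsyl : (n1 : ℤ) ∣ ((c * w * P : ℕ) : ℤ) - 2

theorem int_coprime_succ (D : ℤ) : IsCoprime D (D + 1) := ⟨-1, 1, by ring⟩

theorem main_case {n1 m1 P : ℕ} {D T : ℤ} {c w : ℕ} (h : MainData n1 m1 P D T c w) :
    1 < w ∧ c.Coprime w ∧ T = 0 ∧ (c : ℤ) = |D| ∧ |D + 1| = (w : ℤ) * P := by
  obtain ⟨K, hK⟩ := h.hDP
  have hK0 : K ≠ 0 := by rintro rfl; exact h.hD2 (by rw [hK, mul_zero])
  have hP0 : (P : ℤ) ≠ 0 := by have := h.hP; positivity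
  have hn10 : (0 : ℤ) < n1 := by have := h.hn1; positivity
  have hm : (n1 : ℤ) = 2 * m1 + 1 := by exact_mod_cast h.hm1
  have hn15 : (5 : ℤ) ≤ n1 := by exact_mod_cast h.hn1
  have hP117 : (117 : ℤ) ≤ P := by exact_mod_cast h.hP
  have key : (w : ℤ) * (D - T) ^ 2 = c * D * K := by
    apply mul_left_cancel₀ hP0
    linear_combination h.key + (c : ℤ) * D * hK
  have hw0 : 0 < w := h.hw.pos
  have hcne : (c : ℤ) ≠ 0 := by have := h.hc0; positivity
  -- `K` divides the prime-to-`n1 P` part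
  have hKn1 : IsCoprime K (n1 : ℤ) := by
    obtain ⟨q, hq⟩ := h.hD1
    -- `K P = 2 + n1 q`
    refine ⟨(P : ℤ) * (-(m1 : ℤ)), 1 + q * m1, ?_⟩
    have e : (P : ℤ) * K = 2 + n1 * q := by rw [← hK, ← hq]; ring
    linear_combination (-(m1 : ℤ)) * e + hm
  have hKM : K ∣ ((c * w : ℕ) : ℤ) := by
    have h1 := h.hdF
    rw [hK] at h1
    push_cast at h1
    have h2 : K ∣ (n1 : ℤ) * ((c * w : ℕ) : ℤ) := by
      rcases h1 with ⟨q, hq⟩
      refine ⟨q, mul_left_cancel₀ hP0 ?_⟩
      push_cast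
      linear_combination hq
    exact hKn1.dvd_of_dvd_mul_left h2
  have hDK : IsCoprime D K := IsCoprime.of_mul_right_right (hK ▸ int_coprime_succ D : IsCoprime D (P * K))
  obtain ⟨J, hJ⟩ := hDK.mul_dvd h.hdD hKM
  push_cast at hJ
  have hJsq : J * (D - T) ^ 2 = (c : ℤ) ^ 2 := by
    apply mul_left_cancel₀ (mul_ne_zero h.hD0 hK0)
    linear_combination (c : ℤ) * key - (D - T) ^ 2 * hJ
  have hT : D - T ≠ 0 := by
    intro e; rw [e] at hJsq
    exact pow_ne_zero 2 hcne (by rw [← hJsq]; ring)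
  have hJpos : 0 < J := by
    have : 0 < J * (D - T) ^ 2 := hJsq ▸ by positivity
    exact pos_of_mul_pos_left this (sq_nonneg _)
  have hDKpos : 0 < D * K := by
    have : 0 < D * K * J := hJ ▸ by have := h.hc0; positivity
    exact pos_of_mul_pos_left this hJpos.le
  have hDKabs : D * K = |D| * |K| := by rw [← abs_mul, abs_of_pos hDKpos]
  have hMle : D * K * J ≤ 3 * n1 * P := by rw [← hJ]; exact_mod_cast h.hle
  have hJ1 : (n1 : ℤ) ∣ J - 1 := by
    obtain ⟨q, hq⟩ := h.hD1
    obtain ⟨r, hr⟩ := h.hsyl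
    push_cast at hr
    have e : (2 : ℤ) * (J - 1) = (n1 : ℤ) * (r - q * J * (D + 2)) := by
      linear_combination hr - (J * (D + 2)) * hq - (P : ℤ) * hJ + (D * J) * hK
    exact (show IsCoprime (n1 : ℤ) 2 from ⟨1, -(m1 : ℤ), by rw [hm]; ring⟩).dvd_of_dvd_mul_left
      ⟨_, e⟩
  have hDabs : |K| * P - 1 ≤ |D| := by
    have h1 : |D + 1| ≤ |D| + 1 := (abs_add_le D 1).trans (by simp)
    rw [hK, abs_mul, abs_of_nonneg (show (0 : ℤ) ≤ P by positivity)] at h1
    linarith
  have hkpos : 1 ≤ |K| := Int.one_le_abs hK0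
  have hlb := h.hlb
  rcases eq_or_lt_of_le hkpos with hk1 | hk2
  · -- `|K| = 1` is impossible
    exfalso
    have hDlo : (P : ℤ) - 1 ≤ |D| := by rw [← hk1] at hDabs; linarith
    have hDhi : |D| ≤ (P : ℤ) + 1 := by
      have h1 : |D| ≤ |D + 1| + 1 := by
        have := abs_add_le (D + 1) (-1)
        simpa using this
      rw [hK, abs_mul, ← hk1, abs_of_nonneg (show (0 : ℤ) ≤ P by positivity)] at h1
      linarith
    have hM : ((c : ℤ) * w) = |D| * J := by
      rw [hJ, hDKabs, ← hk1, mul_one]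
    have hgt : (n1 : ℤ) * P < |D| * J := by rw [← hM]; exact_mod_cast h.hgt
    have hJn : (n1 : ℤ) + 1 ≤ J := by
      obtain ⟨q, hq⟩ := hJ1
      have hq1 : 1 ≤ q := by
        by_contra hq'
        have : J = 1 := by
          have : q = 0 := by
            by_contra hq0
            have h1 : (n1 : ℤ) * q ≤ n1 * (-1) := mul_le_mul_of_nonneg_left (by omega) hn10.le
            linarith
          rw [this, mul_zero] at hq; linarith
        rw [this, mul_one] at hgt
        have h1 : (5 : ℤ) * P ≤ n1 * P := mul_le_mul_of_nonneg_right hn15 (by positivity)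
        linarith
      have h1 : (n1 : ℤ) * 1 ≤ n1 * q := mul_le_mul_of_nonneg_left hq1 hn10.le
      linarith
    obtain ⟨v, hv⟩ : (D - T) ∣ (c : ℤ) :=
      (Int.pow_dvd_pow_iff two_ne_zero).1 ⟨J, by linear_combination -hJsq⟩
    obtain ⟨u, hu⟩ : ∃ u : ℤ, u = |v| := ⟨_, rfl⟩
    have hu0 : 0 ≤ u := hu ▸ abs_nonneg v
    have hcu : (c : ℤ) = u * |D - T| := by
      rw [hu, ← abs_mul, mul_comm, ← hv, abs_of_nonneg (by positivity)]
    have hJu : J = u ^ 2 := by
      apply mul_right_cancel₀ (pow_ne_zero 2 hT)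
      rw [hJsq, hcu, ← sq_abs (D - T)]; ring
    have hu1 : 1 ≤ u := by
      rcases eq_or_lt_of_le hu0 with e | e
      · rw [← e] at hJu; nlinarith
      · omega
    have hwu : (w : ℤ) * |D - T| = u * |D| := by
      apply mul_left_cancel₀ (show u ≠ 0 by omega)
      rw [hJu] at hM
      rw [hcu] at hM
      linear_combination hM
    have hJle : u ^ 2 * |D| ≤ 3 * n1 * P := by
      have e := hMle
      rw [hDKabs, ← hk1, mul_one, hJu] at e
      linarith
    have hu2 : 116 * u ^ 2 ≤ 351 * n1 := by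
      have h1 : u ^ 2 * ((P : ℤ) - 1) ≤ 3 * n1 * P :=
        (mul_le_mul_of_nonneg_left hDlo (sq_nonneg u)).trans hJle
      nlinarith
    have hPodd : (P : ℤ) % 2 = 1 := by
      obtain ⟨q, hq⟩ := h.hPo; omega
    have hDeven : D % 2 = 0 := by
      rcases (abs_eq (show (0:ℤ) ≤ 1 by norm_num)).1 hk1.symm with e | e <;> rw [e] at hK <;> omega
    have hueven : Even u := by
      rcases Int.even_or_odd u with e | e
      · exact e
      · exfalso
        obtain ⟨q, rfl⟩ := e
        obtain ⟨r, hr⟩ := hJ1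
        rw [hJu] at hr
        obtain ⟨s, hs⟩ := Int.even_mul_succ_self q
        have h8 : (8 : ℤ) ∣ r := by
          refine (show IsCoprime (8 : ℤ) n1 from ?_).dvd_of_dvd_mul_left ⟨s, by linear_combination 4 * hs - hr⟩
          have h2' : IsCoprime (2 : ℤ) n1 := ⟨-(m1 : ℤ), 1, by rw [hm]; ring⟩
          exact (show (8 : ℤ) = 2 ^ 3 by norm_num) ▸ h2'.pow_left
        obtain ⟨r', rfl⟩ := h8
        have hr' : 1 ≤ r' := by
          by_contra hc'
          have h1 : (n1 : ℤ) * r' ≤ 0 := mul_nonpos_iff.2 (Or.inl ⟨hn10.le, by omega⟩)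
          rw [hJu] at hJn
          linarith
        have h1 : (n1 : ℤ) * 1 ≤ n1 * r' := mul_le_mul_of_nonneg_left hr' hn10.le
        linarith
    obtain ⟨u', rfl⟩ := hueven
    have hDabs2 : |D| % 2 = 0 := by
      rcases abs_choice D with e | e <;> rw [e] <;> omega
    have hwodd : (w : ℤ) % 2 = 1 := by
      obtain ⟨q, hq⟩ := h.hw; omega
    have h4 : (4 : ℤ) ∣ |D - T| := by
      have e : (4 : ℤ) ∣ (w : ℤ) * |D - T| := by
        rw [hwu]
        exact ⟨u' * (|D| / 2), by
          have : |D| = 2 * (|D| / 2) := by omega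
          linear_combination (u' + u') * this⟩
      refine (show IsCoprime (4 : ℤ) w from ?_).dvd_of_dvd_mul_left e
      obtain ⟨q, hq⟩ := h.hw
      have h2' : IsCoprime (2 : ℤ) w := ⟨-(q : ℤ), 1, by push_cast [hq]; ring⟩
      exact (show (4 : ℤ) = 2 ^ 2 by norm_num) ▸ h2'.pow_left
    have hTeven : T % 2 = 0 := by
      rcases abs_choice (D - T) with e | e <;> rw [e] at h4 <;> omega
    have hT0 : T ≠ 0 := by
      rintro rfl
      rw [sub_zero] at hwu
      have := mul_right_cancel₀ (abs_ne_zero.2 h.hD0) hwu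
      omega
    have hdvd : (D - T) ∣ (u' + u') * T := by
      have e : (D - T) ∣ (u' + u') * D := by
        rw [← abs_dvd, ← dvd_abs, abs_mul, abs_of_nonneg hu0]
        exact ⟨(w : ℤ), by linear_combination -hwu⟩
      obtain ⟨q, hq⟩ := e
      exact ⟨q - (u' + u'), by linear_combination hq⟩
    have hTle : |D - T| ≤ (u' + u') * |T| := by
      have := Int.le_of_dvd (abs_pos.2 (mul_ne_zero (by omega) hT0)) ((abs_dvd_abs _ _).2 hdvd)
      rwa [abs_mul, abs_of_nonneg hu0] at this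
    have hm2 : (2 : ℤ) ≤ m1 := by linarith
    have hc1 : (c : ℤ) ≤ (u' + u') ^ 2 * |T| := by
      rw [hcu, sq, mul_assoc]
      exact mul_le_mul_of_nonneg_left hTle hu0
    have hTb : |T| ≤ 6 := by
      have h1 : 116 * (1 + T ^ 2 + (m1 : ℤ) * (1 + T) ^ 2) ≤ 351 * (2 * m1 + 1) * |T| := by
        rw [← hm]
        nlinarith [abs_nonneg T]
      have h7 : -7 ≤ T ∧ T ≤ 7 := by
        constructor
        · by_contra hc'
          have : T ≤ -8 := by omega
          rw [abs_of_neg (by omega : T < 0)] at h1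
          have h2 : 0 ≤ (T + 8) * (116 * T + 6) :=
            mul_nonneg_of_nonpos_of_nonpos (by linarith) (by linarith)
          have h3 : 0 ≤ (m1 : ℤ) * ((T + 8) * (116 * T + 6)) := mul_nonneg (by linarith) h2
          nlinarith
        · by_contra hc'
          have : 8 ≤ T := by omega
          rw [abs_of_pos (by omega : 0 < T)] at h1
          have h2 : 0 ≤ (T - 8) * (116 * T + 458) := mul_nonneg (by linarith) (by linarith)
          have h3 : 0 ≤ (m1 : ℤ) * ((T - 8) * (116 * T + 458)) := mul_nonneg (by linarith) h2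
          nlinarith
      rw [abs_le]; omega
    have hDb : |D| ≤ (u' + u') * 6 + 6 := by
      have h1 : |D| ≤ |D - T| + |T| := by
        have := abs_add_le (D - T) T
        simpa using this
      have h2 : (u' + u') * |T| ≤ (u' + u') * 6 := mul_le_mul_of_nonneg_left hTb hu0
      linarith
    have hn1D : (n1 : ℤ) ≤ |D| + 1 := by
      have hne : D - 1 ≠ 0 := by omega
      have := Int.le_of_dvd (abs_pos.2 hne) ((dvd_abs _ _).2 h.hD1)
      have h2 : |D - 1| ≤ |D| + 1 := (abs_sub D 1).trans (by simp)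
      linarith
    have : 10 ≤ u' := by omega
    have h1 : (0 : ℤ) ≤ u' * (u' - 10) := mul_nonneg (by linarith) (by linarith)
    linarith [show (u' + u') ^ 2 = 4 * (u' * (u' - 10)) + 40 * u' by ring]
  · -- `|K| ≥ 2`
    have hkP : 2 * (P : ℤ) ≤ |K| * P := mul_le_mul_of_nonneg_right (by omega) (by positivity)
    have hJeq : J = 1 := by
      by_contra hne
      obtain ⟨q, hq⟩ := hJ1
      have hq1 : 1 ≤ q := by
        by_contra hq'
        rcases (show q = 0 ∨ q ≤ -1 by omega) with rfl | hq''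
        · exact hne (by linarith)
        · nlinarith
      have hJn : (n1 : ℤ) + 1 ≤ J := by nlinarith
      rw [hDKabs] at hMle
      have h1 : (2 * (P : ℤ) - 1) * 2 ≤ |D| * |K| :=
        mul_le_mul (by linarith) (by omega) (by norm_num) (abs_nonneg D)
      have h2 : (2 * (P : ℤ) - 1) * 2 * ((n1 : ℤ) + 1) ≤ |D| * |K| * J :=
        mul_le_mul h1 hJn (by positivity) (by positivity)
      nlinarith
    rw [hJeq, one_mul] at hJsq
    rw [hJeq, mul_one] at hMle hJ
    have hcabs : (c : ℤ) = |D - T| := by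
      have := (sq_eq_sq_iff_abs_eq_abs _ _).1 hJsq
      rw [abs_of_nonneg (show (0 : ℤ) ≤ c by positivity)] at this
      exact this.symm
    have hTne : T ≠ -1 := by
      rintro rfl
      have e : (c : ℤ) = |K| * P := by
        rw [hcabs, show D - -1 = D + 1 by ring, hK, abs_mul, mul_comm,
          abs_of_nonneg (show (0 : ℤ) ≤ P by positivity)]
      have h1 : (P : ℤ) ∣ c := ⟨|K|, by rw [e]; ring⟩
      have h2 : P ∣ c := Int.natCast_dvd_natCast.1 h1
      have := Nat.Coprime.coprime_dvd_left h2 (h.hcop.coprime_mul_right.coprime_mul_left_right)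
      have hP1 : P = 1 := (Nat.coprime_self P).1 this
      have := h.hP
      omega
    by_cases hT0 : T = 0
    · subst hT0
      rw [sub_zero] at hcabs
      have hwK : (w : ℤ) = |K| := by
        apply mul_left_cancel₀ (abs_ne_zero.2 h.hD0)
        rw [← hDKabs, ← hJ, ← hcabs]
      refine ⟨by have := hk2; omega, ?_, rfl, hcabs, ?_⟩
      · have e1 : c = D.natAbs := by
          have := hcabs; rw [← Int.natCast_natAbs] at this; exact_mod_cast this
        have e2 : w = K.natAbs := by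
          have := hwK; rw [← Int.natCast_natAbs] at this; exact_mod_cast this
        rw [e1, e2]
        exact Int.isCoprime_iff_gcd_eq_one.1 hDK
      · rw [hK, abs_mul, abs_of_nonneg (show (0 : ℤ) ≤ P by positivity), hwK, mul_comm]
    exfalso
    have hdvd : (D - T) ∣ T * K := by
      have e : (D - T) ∣ D * K := by
        rw [← hJ, ← abs_dvd, ← hcabs]; exact dvd_mul_right _ _
      obtain ⟨q, hq⟩ := e
      exact ⟨q - K, by linear_combination hq⟩
    have hck : (c : ℤ) ≤ |T| * |K| := by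
      have := Int.le_of_dvd (abs_pos.2 (mul_ne_zero hT0 hK0)) ((abs_dvd_abs _ _).2 hdvd)
      rwa [abs_mul, ← hcabs] at this
    have hsqT : T ^ 2 = |T| ^ 2 := (sq_abs T).symm
    have hTpos : 1 ≤ |T| := Int.one_le_abs hT0
    have hTk : |T| < |K| := by
      have : 0 ≤ (m1 : ℤ) * (1 + T) ^ 2 := by positivity
      nlinarith
    have hm1k : (m1 : ℤ) * (1 + T) ^ 2 < |T| * |K| := by nlinarith
    have hT2 : |T| ≤ 2 * (1 + T) ^ 2 := by
      rcases le_or_gt 1 T with e | e
      · rw [abs_of_pos (by omega)]; nlinarith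
      · rw [abs_of_neg (by omega)]; nlinarith [show T ≤ -2 by omega]
    have hm2k : (m1 : ℤ) < 2 * |K| := by
      by_contra hc'
      have h1 : 2 * |K| * (1 + T) ^ 2 ≤ m1 * (1 + T) ^ 2 :=
        mul_le_mul_of_nonneg_right (by omega) (sq_nonneg _)
      have h2 : |K| * |T| ≤ |K| * (2 * (1 + T) ^ 2) := mul_le_mul_of_nonneg_left hT2 (abs_nonneg K)
      linarith
    have hDk : |D| < |K| ^ 2 + |K| := by
      have h1 : |D| ≤ |D - T| + |T| := by
        have := abs_add_le (D - T) T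
        simpa using this
      rw [← hcabs] at h1
      have h2 : |T| * (|K| + 1) ≤ (|K| - 1) * (|K| + 1) :=
        mul_le_mul_of_nonneg_right (by omega) (by linarith)
      linarith [show (|K| - 1) * (|K| + 1) = |K| ^ 2 - 1 by ring,
        show |T| * (|K| + 1) = |T| * |K| + |T| by ring]
    have hPk : (P : ℤ) ≤ |K| + 1 := by
      refine le_of_mul_le_mul_left ?_ (show (0 : ℤ) < |K| by linarith)
      linarith [show |K| * (|K| + 1) = |K| ^ 2 + |K| by ring]
    rw [hDKabs] at hMle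
    have h5 : (|K| * P - 1) * |K| ≤ 3 * n1 * P :=
      (mul_le_mul_of_nonneg_right hDabs (abs_nonneg K)).trans hMle
    have h6 : (n1 : ℤ) * P ≤ (4 * |K| - 1) * P :=
      mul_le_mul_of_nonneg_right (by omega) (by positivity)
    have h7 : (104 : ℤ) * (P * |K|) ≤ (|K| - 12) * (P * |K|) :=
      mul_le_mul_of_nonneg_right (by linarith) (by positivity)
    have h8 : (117 : ℤ) * |K| ≤ P * |K| := mul_le_mul_of_nonneg_right hP117 (abs_nonneg K)
    linarith [show (|K| - 12) * (P * |K|) = |K| * P * |K| - 12 * (P * |K|) by ring]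

/-- Two characters of degree divisible by `n1 * P` do not fit. -/
theorem main_case_degrees {n1 m1 P : ℕ} {D T : ℤ} {c w : ℕ} (h : MainData n1 m1 P D T c w)
    (hsum : 2 * ((n1 : ℤ) * P) ^ 2 + D ^ 2 + m1 * (D + 1) ^ 2 ≤ (n1 : ℤ) * P * (c * w)) : False := by
  obtain ⟨hw1, -, -, hc, hDw⟩ := main_case h
  have hm : (n1 : ℤ) = 2 * m1 + 1 := by exact_mod_cast h.hm1
  have hP117 : (117 : ℤ) ≤ P := by exact_mod_cast h.hP
  have hn15 : (5 : ℤ) ≤ n1 := by exact_mod_cast h.hn1
  have hle : (c : ℤ) * w ≤ 3 * n1 * P := by exact_mod_cast h.hle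
  have hd : |D + 1| ≤ |D| + 1 := (abs_add_le D 1).trans (by simp)
  have hd' : |D| - 1 ≤ |D + 1| := by
    have := abs_add_le (D + 1) (-1)
    simp only [add_neg_cancel_right, abs_neg, abs_one] at this
    linarith
  have hd2 : |D| ≤ (w : ℤ) * P + 1 := by linarith
  obtain ⟨d, hdd⟩ : ∃ d, d = |D| := ⟨_, rfl⟩
  obtain ⟨e, hee⟩ : ∃ e, e = |D + 1| := ⟨_, rfl⟩
  rw [← hdd] at hc hd hd' hd2
  rw [← hee] at hDw hd hd'
  rw [show D ^ 2 = d ^ 2 by rw [hdd, sq_abs], show (D + 1) ^ 2 = e ^ 2 by rw [hee, sq_abs]] at hsum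
  have hd1 : 1 ≤ d := hdd ▸ Int.one_le_abs h.hD0
  -- `n1 P (c w) = n1 d e`
  have h1 : (n1 : ℤ) * P * (c * w) = n1 * (d * e) := by rw [hc, hDw]; ring
  rw [h1] at hsum
  have h2 : (n1 : ℤ) * (d * e) ≤ n1 * (d * (d + 1)) :=
    mul_le_mul_of_nonneg_left (mul_le_mul_of_nonneg_left hd (by linarith)) (by positivity)
  have h3 : (m1 : ℤ) * (d - 1) ^ 2 ≤ m1 * e ^ 2 :=
    mul_le_mul_of_nonneg_left (pow_le_pow_left₀ (by linarith) hd' 2) (by positivity)
  -- `d ^ 2 ≤ d (w P + 1) ≤ 3 n1 P ^ 2 + d`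
  have hde : d * ((w : ℤ) * P) ≤ 3 * n1 * P * P := by
    rw [hc] at hle
    calc d * ((w : ℤ) * P) = d * w * P := by ring
      _ ≤ _ := mul_le_mul_of_nonneg_right hle (by positivity)
  have hd3 : d ^ 2 ≤ 3 * n1 * P * P + d := by nlinarith
  have hdP : d ≤ 3 * n1 * P := by
    rw [hc] at hle; nlinarith
  have hm0 : (0 : ℤ) ≤ m1 := by positivity
  have key : (n1 : ℤ) * (d * (d + 1)) = d ^ 2 + m1 * (d - 1) ^ 2 + m1 * d ^ 2 + (4 * m1 + 1) * d - m1 := by
    rw [hm]; ring
  have h4 : (m1 : ℤ) * d ^ 2 ≤ m1 * (3 * n1 * P * P + d) := mul_le_mul_of_nonneg_left hd3 hm0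
  have h5 : (5 * (m1 : ℤ) + 1) * d ≤ (5 * (m1 : ℤ) + 1) * (3 * n1 * P) :=
    mul_le_mul_of_nonneg_left hdP (by positivity)
  have h6 : (2 * ((n1 : ℤ) * P) ^ 2) ≤ m1 * (3 * n1 * P * P) + (5 * m1 + 1) * (3 * n1 * P) - m1 := by
    linarith
  have h7 : (n1 : ℤ) * P * (3 * m1 * P + 3 * (5 * m1 + 1)) < n1 * P * (2 * n1 * P) := by
    refine mul_lt_mul_of_pos_left ?_ (by positivity)
    rw [hm]; nlinarith
  linarith

end Cfsg.Agent.SSCSuzuki
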