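import Mathlib

/-!
# The second character case of the three-subgroup configuration is impossible

Here the non-exceptional character of the first subgroup vanishes on the second subgroup, which forces
`n1 ∈ {5, 7}`; a short finite search finishes the argument.
-/

set_option autoImplicit false
set_option maxHeartbeats 800000
set_option maxRecDepth 4000

namespace Cfsg.Agent.SSCSuzuki

/-- The data of the second case. -/
structure TwoData (n1 m1 n2 m2 n3 m3 : ℕ) (D T : ℤ) (c w : ℕ) : Prop where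
  hn1 : n1 = 2 * m1 + 1
  hm1 : m1 = 2 ∨ m1 = 3
  hn2 : n2 = 4 * m2 + 1
  hm2 : 2 ≤ m2
  hn3 : n3 = 4 * m3 + 1
  hm3 : 2 ≤ m3
  hD1 : (n1 : ℤ) ∣ D - 1
  hD2 : (n2 : ℤ) ∣ D
  hD3 : (n3 : ℤ) ∣ D + 1
  hD0 : D ≠ 0
  hDn : D + 1 ≠ 0
  key : (w : ℤ) * ((n2 : ℤ) * n3) * (D - T) ^ 2 = c * D * (D + 1)
  hw : Odd w
  hc0 : 0 < c
  hcop : (c * w).Coprime (n1 * (n2 * n3))
  hle : c * w ≤ 3 * n1 * (n2 * n3)
  hsq : c ^ 2 * (m1 + m2 + m3) ≤ n1 * (n2 * n3) * (c * w)
  hlb : 2 * (1 + (m1 : ℤ) * (1 + T)) ^ 2 ≤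
    (2 * (3 - (m1 : ℤ)) + 1) * ((c : ℤ) - 1 - T ^ 2 - m1 * (1 + T) ^ 2)

/-- The candidate at `(n2, n3, D, T)` is excluded. -/
def excluded (n1 m1 k : ℕ) (lb : ℤ → ℤ) (n2 n3 : ℕ) (D T : ℤ) : Bool :=
  let X := (D * (D + 1)).natAbs
  let A := n2 * n3 * (D - T).natAbs ^ 2
  let g := Nat.gcd A X
  !(decide ((m1 + (n2 - 1) / 4 + (n3 - 1) / 4) * (D - T).natAbs ^ 2 ≤ n1 * X) &&
    decide ((lb T).natAbs ^ 2 * X ≤ k ^ 2 * (3 * n1 * (n2 * n3) * A)) &&
    decide (Nat.gcd (A / g * (X / g)) (n1 * (n2 * n3)) = 1) &&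
    decide ((X / g) % 2 = 1))

/-- The finite search. -/
def search (n1 m1 k : ℕ) (lb : ℤ → ℤ) (Tb Jb : ℕ) : Bool :=
  (List.range 14).all fun i =>
    (List.range (2 * Jb + 1)).all fun j =>
      let n2 := 9 + 4 * i
      let D : ℤ := (n2 : ℤ) * ((j : ℤ) - Jb)
      if (D - 1) % (n1 : ℤ) = 0 ∧ D ≠ 0 then
        (List.range 14).all fun i' =>
          let n3 := 9 + 4 * i'
          if (D + 1) % (n3 : ℤ) = 0 ∧ m1 + (2 + i) + (2 + i') ≤ 19 then
            (List.range (2 * Tb + 1)).all fun t => excluded n1 m1 k lb n2 n3 D ((t : ℤ) - Tb)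
          else true
      else true

theorem search_five :
    search 5 2 3 (fun T => 17 * T ^ 2 + 36 * T + 27) 27 20 = true := by
  decide +kernel

theorem search_seven :
    search 7 3 1 (fun T => 22 * T ^ 2 + 54 * T + 36) 15 27 = true := by
  decide +kernel

theorem TwoData.diff {n1 m1 n2 m2 n3 m3 : ℕ} {D T : ℤ} {c w : ℕ}
    (h : TwoData n1 m1 n2 m2 n3 m3 D T c w) :
    ((m1 : ℤ) + m2 + m3) * (D - T) ^ 2 ≤ n1 * (D * (D + 1)) := by
  have h1 : (c : ℤ) ^ 2 * ((m1 : ℤ) + m2 + m3) ≤ (n1 : ℤ) * ((n2 : ℤ) * n3) * (c * w) := by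
    exact_mod_cast h.hsq
  have h2 := mul_le_mul_of_nonneg_right h1 (sq_nonneg (D - T))
  have hc : (0 : ℤ) < (c : ℤ) ^ 2 := by have := h.hc0; positivity
  refine le_of_mul_le_mul_left ?_ hc
  calc (c : ℤ) ^ 2 * (((m1 : ℤ) + m2 + m3) * (D - T) ^ 2)
      = (c : ℤ) ^ 2 * ((m1 : ℤ) + m2 + m3) * (D - T) ^ 2 := by ring
    _ ≤ _ := h2
    _ = _ := by linear_combination (n1 : ℤ) * c * h.key

theorem TwoData.csq {n1 m1 n2 m2 n3 m3 : ℕ} {D T : ℤ} {c w : ℕ}
    (h : TwoData n1 m1 n2 m2 n3 m3 D T c w) :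
    (c : ℤ) ^ 2 * ((m1 : ℤ) + m2 + m3) ≤ 3 * (n1 : ℤ) ^ 2 * ((n2 : ℤ) * n3) ^ 2 := by
  have h1 : (c : ℤ) ^ 2 * ((m1 : ℤ) + m2 + m3) ≤ (n1 : ℤ) * ((n2 : ℤ) * n3) * (c * w) := by
    exact_mod_cast h.hsq
  have h2 : (c : ℤ) * w ≤ 3 * n1 * ((n2 : ℤ) * n3) := by exact_mod_cast h.hle
  have h3 := mul_le_mul_of_nonneg_left h2 (show (0 : ℤ) ≤ (n1 : ℤ) * ((n2 : ℤ) * n3) by positivity)
  linarith [show (n1 : ℤ) * ((n2 : ℤ) * n3) * (3 * n1 * ((n2 : ℤ) * n3)) =
    3 * (n1 : ℤ) ^ 2 * ((n2 : ℤ) * n3) ^ 2 by ring]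

theorem TwoData.prod_dvd {n1 m1 n2 m2 n3 m3 : ℕ} {D T : ℤ} {c w : ℕ}
    (h : TwoData n1 m1 n2 m2 n3 m3 D T c w) : ((n2 : ℤ) * n3) ∣ D * (D + 1) :=
  mul_dvd_mul h.hD2 h.hD3

/-- A value of the `T`-polynomial that is too large for the search. -/
theorem excluded_false {n1 m1 n2 m2 n3 m3 : ℕ} {D T : ℤ} {c w : ℕ}
    (h : TwoData n1 m1 n2 m2 n3 m3 D T c w) (k : ℕ) (lb : ℤ → ℤ) (hk : 0 ≤ lb T)
    (hlb : lb T ≤ (k : ℤ) * c) : excluded n1 m1 k lb n2 n3 D T = false := by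
  have hX0 : (D * (D + 1)).natAbs ≠ 0 := Int.natAbs_ne_zero.2 (mul_ne_zero h.hD0 h.hDn)
  obtain ⟨X, hX⟩ : ∃ X, X = (D * (D + 1)).natAbs := ⟨_, rfl⟩
  obtain ⟨e, he⟩ : ∃ e, e = (D - T).natAbs := ⟨_, rfl⟩
  have hkey : w * (n2 * n3 * e ^ 2) = c * X := by
    have := congrArg Int.natAbs h.key
    rw [mul_assoc (c : ℤ)] at this
    simp only [Int.natAbs_mul, Int.natAbs_pow, Int.natAbs_natCast] at this
    rw [hX, he, Int.natAbs_mul]; linarith
  have hS : (m1 + (n2 - 1) / 4 + (n3 - 1) / 4) = m1 + m2 + m3 := by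
    rw [h.hn2, h.hn3]; omega
  have hd : (m1 + m2 + m3) * e ^ 2 ≤ n1 * X := by
    have h1 : ((m1 + m2 + m3) * e ^ 2 : ℤ) ≤ n1 * X := by
      rw [hX, he, Int.natCast_natAbs, Int.natCast_natAbs, sq_abs,
        abs_of_nonneg (by rcases le_or_gt 0 D with hh | hh <;> nlinarith : (0 : ℤ) ≤ D * (D + 1))]
      exact h.diff
    exact_mod_cast h1
  have hl : (lb T).natAbs ^ 2 * X ≤ k ^ 2 * (3 * n1 * (n2 * n3) * (n2 * n3 * e ^ 2)) := by
    have h1 : (lb T).natAbs ≤ k * c := by omega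
    calc (lb T).natAbs ^ 2 * X ≤ (k * c) ^ 2 * X := Nat.mul_le_mul_right _ (Nat.pow_le_pow_left h1 2)
      _ = k ^ 2 * ((c * w) * (n2 * n3 * e ^ 2)) := by rw [mul_assoc c w, hkey]; ring
      _ ≤ _ := Nat.mul_le_mul_left _ (Nat.mul_le_mul_right _ h.hle)
  obtain ⟨g, hg⟩ : ∃ g, g = Nat.gcd (n2 * n3 * e ^ 2) X := ⟨_, rfl⟩
  have hg0 : 0 < g := hg ▸ Nat.gcd_pos_of_pos_right _ (Nat.pos_of_ne_zero (hX ▸ hX0))
  obtain ⟨a, ha⟩ : g ∣ n2 * n3 * e ^ 2 := hg ▸ Nat.gcd_dvd_left _ _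
  obtain ⟨b, hb⟩ : g ∣ X := hg ▸ Nat.gcd_dvd_right _ _
  have hab : a.Coprime b := by
    have := Nat.coprime_div_gcd_div_gcd (hg ▸ hg0)
    rwa [← hg, ha, hb, Nat.mul_div_cancel_left _ hg0, Nat.mul_div_cancel_left _ hg0] at this
  have e1 : w * a = c * b := by
    apply Nat.eq_of_mul_eq_mul_left hg0
    rw [ha, hb] at hkey; linarith
  have hbw : b ∣ w := (Nat.Coprime.dvd_of_dvd_mul_right hab.symm ⟨c, by rw [e1]; ring⟩)
  have hac : a ∣ c := (Nat.Coprime.dvd_of_dvd_mul_right hab ⟨w, by rw [← e1]; ring⟩)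
  have hgcd : Nat.gcd (a * b) (n1 * (n2 * n3)) = 1 :=
    (Nat.Coprime.coprime_dvd_left (mul_dvd_mul hac hbw) h.hcop)
  have hodd : b % 2 = 1 := Nat.odd_iff.1 (h.hw.of_dvd_nat hbw)
  simp only [excluded, ← hX, ← he, ← hg, hS]
  rw [ha] at hl ⊢
  rw [hb] at hl hd ⊢
  rw [Nat.mul_div_cancel_left _ hg0, Nat.mul_div_cancel_left _ hg0]
  simp [hd, hl, hgcd, hodd]

theorem search_false {n1 m1 n2 m2 n3 m3 : ℕ} {D T : ℤ} {c w : ℕ}
    (h : TwoData n1 m1 n2 m2 n3 m3 D T c w) (k : ℕ) (lb : ℤ → ℤ) (hk : 0 ≤ lb T)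
    (hlb : lb T ≤ (k : ℤ) * c) (Tb Jb : ℕ) (hS : m1 + m2 + m3 ≤ 19) (hT : |T| ≤ Tb)
    (hD : |D| < ((Jb : ℤ) + 1) * 9) : search n1 m1 k lb Tb Jb = false := by
  have hm := h.hm1
  have hn2 := h.hn2
  have hn3 := h.hn3
  have hm2 := h.hm2
  have hm3 := h.hm3
  obtain ⟨q, hq⟩ := h.hD2
  have hqb : |q| ≤ Jb := by
    by_contra hc
    have h9 : (9 : ℤ) ≤ n2 := by omega
    have : (9 : ℤ) * ((Jb : ℤ) + 1) ≤ (n2 : ℤ) * |q| :=
      mul_le_mul h9 (by omega) (by positivity) (by positivity)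
    rw [hq, abs_mul, abs_of_nonneg (show (0 : ℤ) ≤ n2 by positivity)] at hD
    linarith
  obtain ⟨hq1, hq2⟩ := abs_le.1 hqb
  obtain ⟨hT1, hT2⟩ := abs_le.1 hT
  by_contra hs
  rw [Bool.not_eq_false, search] at hs
  simp only [List.all_eq_true, List.mem_range] at hs
  have := hs (m2 - 2) (by omega) (q + Jb).toNat (by omega)
  have en2 : 9 + 4 * (m2 - 2) = n2 := by omega
  have ej : ((q + Jb).toNat : ℤ) - Jb = q := by omega
  have en3 : 9 + 4 * (m3 - 2) = n3 := by omega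
  have et : ((T + Tb).toNat : ℤ) - Tb = T := by omega
  rw [en2, ej, ← hq, if_pos ⟨Int.emod_eq_zero_of_dvd h.hD1, h.hD0⟩] at this
  simp only [List.all_eq_true, List.mem_range] at this
  have := this (m3 - 2) (by omega)
  rw [en3, if_pos ⟨Int.emod_eq_zero_of_dvd h.hD3, by omega⟩] at this
  simp only [List.all_eq_true, List.mem_range] at this
  have := this (T + Tb).toNat (by omega)
  rw [et, excluded_false h k lb hk hlb] at this
  simp at this

theorem case_two {n1 m1 n2 m2 n3 m3 : ℕ} {D T : ℤ} {c w : ℕ}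
    (h : TwoData n1 m1 n2 m2 n3 m3 D T c w) : False := by
  have hsq := h.csq
  have hdiff := h.diff
  have hlb := h.hlb
  have hm2 : (2 : ℤ) ≤ m2 := by exact_mod_cast h.hm2
  have hm3 : (2 : ℤ) ≤ m3 := by exact_mod_cast h.hm3
  have en2 : (n2 : ℤ) = 4 * m2 + 1 := by exact_mod_cast h.hn2
  have en3 : (n3 : ℤ) = 4 * m3 + 1 := by exact_mod_cast h.hn3
  have hX0 : D * (D + 1) ≠ 0 := mul_ne_zero h.hD0 h.hDn
  have hXp : 0 < D * (D + 1) := by
    rcases le_or_gt 0 D with hh | hh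
    · have := h.hD0; exact lt_of_le_of_ne (by nlinarith) hX0.symm
    · exact lt_of_le_of_ne (mul_nonneg_of_nonpos_of_nonpos hh.le (by linarith)) hX0.symm
  have hDT : D - T ≠ 0 := by
    intro e
    have := h.key
    rw [e] at this
    have hc := h.hc0
    simp at this
    rcases this with (h1 | h1) | h1
    · omega
    · exact h.hD0 h1
    · exact h.hDn h1
  obtain ⟨d, hd⟩ : ∃ d, d = |D| := ⟨_, rfl⟩
  obtain ⟨t, ht⟩ : ∃ t, t = |T| := ⟨_, rfl⟩
  obtain ⟨u, hu⟩ : ∃ u, u = |D - T| := ⟨_, rfl⟩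
  have hXd : D * (D + 1) ≤ d * (d + 1) := by
    rw [hd]; nlinarith [le_abs_self D, sq_abs D]
  have hTt : -t ≤ T ∧ T ≤ t := ht ▸ ⟨neg_abs_le T, le_abs_self T⟩
  have hdt : d ≤ u + t := by
    rw [hd, hu, ht]; simpa using abs_add_le (D - T) T
  have hu0 : 0 ≤ u := hu ▸ abs_nonneg _
  have ht0 : 0 ≤ t := ht ▸ abs_nonneg _
  have hd0 : 0 ≤ d := hd ▸ abs_nonneg _
  have hu2 : (D - T) ^ 2 = u ^ 2 := by rw [hu, sq_abs]
  have ht2 : T ^ 2 = t ^ 2 := by rw [ht, sq_abs]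
  have hc0 : (0 : ℤ) ≤ c := by positivity
  have hne : m2 ≠ m3 := by
    intro e
    have e' : (n2 : ℤ) = n3 := by rw [en2, en3, e]
    have := dvd_sub h.hD3 (e' ▸ h.hD2)
    rw [show D + 1 - D = 1 by ring] at this
    have := Int.le_of_dvd one_pos this
    omega
  have hm23 : (5 : ℤ) ≤ m2 + m3 := by omega
  by_cases hS : m1 + m2 + m3 ≤ 19
  · have hS' : (m1 : ℤ) + m2 + m3 ≤ 19 := by exact_mod_cast hS
    have hP0 : (0 : ℤ) ≤ (n2 : ℤ) * n3 := by positivity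
    rcases h.hm1 with rfl | rfl
    · have e1 : n1 = 5 := h.hn1
      subst e1
      have hP : ((n2 : ℤ) * n3) ≤ 1225 := by
        nlinarith [sq_nonneg ((n2 : ℤ) - n3), mul_le_mul (show (n2 : ℤ) + n3 ≤ 70 by linarith)
          (show (n2 : ℤ) + n3 ≤ 70 by linarith) (by positivity) (by norm_num : (0 : ℤ) ≤ 70)]
      have hcb : (c : ℤ) ≤ 4010 := by
        have h2 := pow_le_pow_left₀ hP0 hP 2
        by_contra hc'
        have h4 := mul_le_mul_of_nonneg_left (show (7 : ℤ) ≤ (2 : ℕ) + m2 + m3 by push_cast; linarith)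
          (sq_nonneg (c : ℤ))
        have h5 := pow_le_pow_left₀ (by norm_num : (0 : ℤ) ≤ 4011) (show (4011 : ℤ) ≤ c by omega) 2
        push_cast at hsq h4
        linarith
      have hlb' : 17 * T ^ 2 + 36 * T + 27 ≤ 3 * (c : ℤ) := by push_cast at hlb; linarith
      have hTb : t ≤ 27 := by
        by_contra hc'
        nlinarith [mul_le_mul_of_nonneg_right (show (28 : ℤ) ≤ t by omega) ht0]
      have hDb : d < 21 * 9 := by
        by_contra hc'
        have h1 : d - 27 ≤ u := by linarith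
        have h2 := pow_le_pow_left₀ (by omega) h1 2
        have h3 := mul_le_mul_of_nonneg_right (show (7 : ℤ) ≤ (2 : ℕ) + m2 + m3 by push_cast; linarith)
          (sq_nonneg (D - T))
        push_cast at hdiff h3
        nlinarith [mul_le_mul_of_nonneg_right (show (189 : ℤ) ≤ d by omega) hd0]
      have := search_false h 3 (fun T => 17 * T ^ 2 + 36 * T + 27)
        (by nlinarith [sq_nonneg (17 * T + 18)]) (by push_cast; linarith) 27 20 hS
        (by rw [← ht]; exact_mod_cast hTb) (by rw [← hd]; push_cast; linarith)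
      rw [search_five] at this; simp at this
    · have e1 : n1 = 7 := h.hn1
      subst e1
      have hP : ((n2 : ℤ) * n3) ≤ 1089 := by
        nlinarith [sq_nonneg ((n2 : ℤ) - n3), mul_le_mul (show (n2 : ℤ) + n3 ≤ 66 by linarith)
          (show (n2 : ℤ) + n3 ≤ 66 by linarith) (by positivity) (by norm_num : (0 : ℤ) ≤ 66)]
      have hcb : (c : ℤ) ≤ 4668 := by
        have h2 := pow_le_pow_left₀ hP0 hP 2
        by_contra hc'
        have h4 := mul_le_mul_of_nonneg_left (show (8 : ℤ) ≤ (3 : ℕ) + m2 + m3 by push_cast; linarith)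
          (sq_nonneg (c : ℤ))
        have h5 := pow_le_pow_left₀ (by norm_num : (0 : ℤ) ≤ 4669) (show (4669 : ℤ) ≤ c by omega) 2
        push_cast at hsq h4
        linarith
      have hlb' : 22 * T ^ 2 + 54 * T + 36 ≤ (c : ℤ) := by push_cast at hlb; linarith
      have hTb : t ≤ 15 := by
        by_contra hc'
        nlinarith [mul_le_mul_of_nonneg_right (show (16 : ℤ) ≤ t by omega) ht0]
      have hDb : d < 28 * 9 := by
        by_contra hc'
        have h1 : d - 15 ≤ u := by linarith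
        have h2 := pow_le_pow_left₀ (by omega) h1 2
        have h3 := mul_le_mul_of_nonneg_right (show (8 : ℤ) ≤ (3 : ℕ) + m2 + m3 by push_cast; linarith)
          (sq_nonneg (D - T))
        push_cast at hdiff h3
        nlinarith [mul_le_mul_of_nonneg_right (show (252 : ℤ) ≤ d by omega) hd0]
      have := search_false h 1 (fun T => 22 * T ^ 2 + 54 * T + 36)
        (by nlinarith [sq_nonneg (22 * T + 27)]) (by push_cast; linarith) 15 27 hS
        (by rw [← ht]; exact_mod_cast hTb) (by rw [← hd]; push_cast; linarith)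
      rw [search_seven] at this; simp at this
  · -- large parameters
    have hS' : (20 : ℤ) ≤ (m1 : ℤ) + m2 + m3 := by exact_mod_cast (show 20 ≤ m1 + m2 + m3 by omega)
    have hP2 : 2 * ((n2 : ℤ) * n3) ≤ D * (D + 1) := by
      obtain ⟨q, hq⟩ := h.prod_dvd
      have hev : Even (D * (D + 1)) := Int.even_mul_succ_self D
      have hodd : Odd ((n2 : ℤ) * n3) :=
        Odd.mul ⟨2 * m2, by rw [en2]; ring⟩ ⟨2 * m3, by rw [en3]; ring⟩
      obtain ⟨r, rfl⟩ : Even q :=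
        (Int.even_mul.1 (hq ▸ hev)).resolve_left (Int.not_even_iff_odd.2 hodd)
      have : 1 ≤ r := by
        by_contra hc'
        have h1 := mul_nonneg (show (0 : ℤ) ≤ (n2 : ℤ) * n3 by positivity)
          (show (0 : ℤ) ≤ -r by omega)
        linarith
      have h1 := mul_le_mul_of_nonneg_left this (show (0 : ℤ) ≤ (n2 : ℤ) * n3 by positivity)
      linarith
    have hd34 : 34 ≤ d := by
      have h1 : (n2 : ℤ) ≤ d := by
        rw [hd]
        exact Int.le_of_dvd (abs_pos.2 h.hD0) ((dvd_abs _ _).2 h.hD2)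
      have h2 : (n3 : ℤ) ≤ d + 1 := by
        have := Int.le_of_dvd (abs_pos.2 h.hDn) ((dvd_abs _ _).2 h.hD3)
        have h3 : |D + 1| ≤ |D| + 1 := (abs_add_le D 1).trans (by simp)
        rw [hd]; linarith
      rcases h.hm1 with rfl | rfl <;> omega
    have hX : 34 * (D * (D + 1)) ≤ 35 * d ^ 2 := by
      have h1 := mul_le_mul_of_nonneg_right hd34 hd0
      linarith
    have hdiff' : 20 * u ^ 2 ≤ n1 * (D * (D + 1)) := by
      rw [← hu2]
      exact (mul_le_mul_of_nonneg_right hS' (sq_nonneg _)).trans hdiff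
    have hcc : 80 * (c : ℤ) ^ 2 ≤ 3 * (n1 : ℤ) ^ 2 * (D * (D + 1)) ^ 2 := by
      have h1 := mul_le_mul_of_nonneg_left hS' (sq_nonneg (c : ℤ))
      have h2 := pow_le_pow_left₀ (by positivity) hP2 2
      have h3 := mul_le_mul_of_nonneg_left h2 (show (0 : ℤ) ≤ 3 * (n1 : ℤ) ^ 2 by positivity)
      linarith [show (2 * ((n2 : ℤ) * n3)) ^ 2 = 4 * ((n2 : ℤ) * n3) ^ 2 by ring]
    rcases h.hm1 with rfl | rfl
    · have e1 : n1 = 5 := h.hn1
      subst e1
      have hlb' : 17 * T ^ 2 + 36 * T + 27 ≤ 3 * (c : ℤ) := by push_cast at hlb; linarith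
      have hcX : (c : ℤ) ≤ D * (D + 1) := by
        refine (pow_le_pow_iff_left₀ hc0 hXp.le two_ne_zero).1 ?_
        push_cast at hcc; linarith [sq_nonneg (D * (D + 1))]
      have hu' : 100 * u ≤ 51 * d := by
        refine (pow_le_pow_iff_left₀ (by positivity) (by positivity) two_ne_zero).1 ?_
        push_cast at hdiff'; linarith [sq_nonneg d]
      have ht' : 49 * d ≤ 100 * t := by linarith
      have h17 : 0 ≤ (100 * t - 49 * d) * (100 * t + 49 * d) := mul_nonneg (by linarith) (by linarith)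
      nlinarith [mul_le_mul_of_nonneg_right (show (1666 : ℤ) ≤ 100 * t by linarith) ht0,
        mul_le_mul_of_nonneg_right hd34 hd0]
    · have e1 : n1 = 7 := h.hn1
      subst e1
      have hlb' : 22 * T ^ 2 + 54 * T + 36 ≤ (c : ℤ) := by push_cast at hlb; linarith
      have hcX : (c : ℤ) * 5 ≤ 7 * (D * (D + 1)) := by
        refine (pow_le_pow_iff_left₀ (by linarith) (by linarith) two_ne_zero).1 ?_
        push_cast at hcc
        linarith [sq_nonneg (D * (D + 1)), show ((c : ℤ) * 5) ^ 2 = 25 * (c : ℤ) ^ 2 by ring,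
          show (7 * (D * (D + 1))) ^ 2 = 49 * (D * (D + 1)) ^ 2 by ring]
      have hu' : 1000 * u ≤ 601 * d := by
        refine (pow_le_pow_iff_left₀ (by positivity) (by positivity) two_ne_zero).1 ?_
        push_cast at hdiff'; linarith [sq_nonneg d]
      have ht' : 399 * d ≤ 1000 * t := by linarith
      have h17 : 0 ≤ (1000 * t - 399 * d) * (1000 * t + 399 * d) :=
        mul_nonneg (by linarith) (by linarith)
      nlinarith [mul_le_mul_of_nonneg_right (show (13566 : ℤ) ≤ 1000 * t by linarith) ht0,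
        mul_le_mul_of_nonneg_right hd34 hd0]

end Cfsg.Agent.SSCSuzuki
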