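import Cfsg.Agent.SSCSuzuki.Config
import Cfsg.Agent.CIT.Basic

/-!
# The two character cases; the centralizers of involutions are 2-groups
-/

set_option autoImplicit false
set_option maxHeartbeats 1000000

namespace Cfsg.Agent.SSCSuzuki

open scoped ComplexConjugate
open Subgroup Cfsg

universe u

variable {G : Type u} [Group G] [Fintype G]

theorem add_sq_bound {a b A X B Y : ℤ} (hA : 0 ≤ A) (hX : 0 ≤ X) (hB : 0 ≤ B) (hY : 0 ≤ Y)
    (ha : a ^ 2 ≤ A * X) (hb : b ^ 2 ≤ B * Y) : (a + b) ^ 2 ≤ (A + B) * (X + Y) := by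
  have h1 : (2 * a * b) ^ 2 ≤ (A * Y + B * X) ^ 2 := by
    have := mul_le_mul ha hb (sq_nonneg b) (mul_nonneg hA hX)
    nlinarith [sq_nonneg (A * Y - B * X)]
  have h2 := abs_le_of_sq_le_sq h1 (by positivity)
  nlinarith [le_abs_self (2 * a * b)]

theorem sq_shift_nonneg {m : ℕ} (hm : 2 ≤ m) {ε : ℤ} (hε : ε = 1 ∨ ε = -1) (x : ℤ) :
    0 ≤ (m : ℤ) * x ^ 2 - 2 * ε * x := by
  have h2 : (2 : ℤ) ≤ m := by exact_mod_cast hm
  have h3 := mul_le_mul_of_nonneg_right h2 (sq_nonneg x)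
  have he : x ≤ x ^ 2 := Int.le_self_sq x
  have he' : -x ≤ x ^ 2 := by simpa using Int.le_self_sq (-x)
  rcases hε with rfl | rfl <;> linarith

variable {A₁ A₂ A₃ : Subgroup G} {m₁ m₂ m₃ : ℕ}
  {fam : Finset (IrrCharacter G)} {ε : ℤ} {c₁ : IrrCharacter G → ℤ} {χ₁ : IrrCharacter G} {δ : ℤ}
  {fam₂ : Finset (IrrCharacter G)} {ε₂ e₂ : ℤ} {c₂ : IrrCharacter G → ℤ}
  {fam₃ : Finset (IrrCharacter G)} {ε₃ e₃ : ℤ} {c₃ : IrrCharacter G → ℤ}

open Classical in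
/-- The characters outside the three families, the trivial one and the distinguished one. -/
noncomputable def rest (fam fam₂ fam₃ : Finset (IrrCharacter G)) (χ₁ : IrrCharacter G) :
    Finset (IrrCharacter G) :=
  (((famᶜ.erase (Char.trivialIrr G)).erase χ₁) \ fam₂) \ fam₃

section Config

variable (H : Hyp A₁ A₂ A₃ m₁ m₂ m₃) (O : One A₁ m₁ fam ε c₁ χ₁ δ)
  (F₂ : Fam A₂ 4 m₂ fam₂ ε₂ e₂ c₂) (F₃ : Fam A₃ 4 m₃ fam₃ ε₃ e₃ c₃)

include H F₂ F₃ in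
theorem const_on_other :
    ∃ g : ℤ, ∀ X ∈ fam₃, c₂ X = g := by
  obtain ⟨X, hX⟩ : fam₃.Nonempty :=
    Finset.card_pos.mp (by rw [F₃.card]; exact lt_of_lt_of_le two_pos F₃.m2)
  refine ⟨c₂ X, fun Y hY => ?_⟩
  obtain ⟨b, hb, h1⟩ := H.s₂.exists_ne_one
  have hd := Finset.disjoint_right.mp (F₂.disjoint F₃ H.s₂ H.s₃ H.c₂₃)
  have e := F₃.same Y hY X hX b fun hm => SSC.disjoint H.c₂₃ H.s₂ H.s₃ (meets_self hb h1) hm
  rw [F₂.nonfam Y (hd hY) b hb h1, F₂.nonfam X (hd hX) b hb h1] at e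
  exact_mod_cast e

include H O F₂ F₃ in
theorem compl_split {M : Type*} [AddCommMonoid M] (g : IrrCharacter G → M) :
    ∑ χ ∈ fam₂ᶜ, g χ = g (Char.trivialIrr G) + g χ₁ + ∑ χ ∈ fam, g χ + ∑ χ ∈ fam₃, g χ +
      ∑ χ ∈ rest fam fam₂ fam₃ χ₁, g χ := by
  classical
  have d12 := Finset.disjoint_left.mp (O.F.disjoint F₂ H.s₁ H.s₂ H.c₁₂)
  have d13 := Finset.disjoint_left.mp (O.F.disjoint F₃ H.s₁ H.s₃ H.c₁₃)
  have d32 := Finset.disjoint_right.mp (F₂.disjoint F₃ H.s₂ H.s₃ H.c₂₃)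
  have n2 := O.notMem_other F₂ H.s₁ H.s₂ H.c₁₂
  have n3 := O.notMem_other F₃ H.s₁ H.s₃ H.c₁₃
  have h1 : fam₂ᶜ = insert (Char.trivialIrr G) (insert χ₁
      ((fam ∪ fam₃) ∪ rest fam fam₂ fam₃ χ₁)) := by
    ext χ
    simp only [rest, Finset.mem_compl, Finset.mem_insert, Finset.mem_union, Finset.mem_sdiff,
      Finset.mem_erase]
    constructor
    · tauto
    · rintro (rfl | rfl | (hX | hX) | hX)
      · exact F₂.triv_notMem
      · exact n2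
      · exact d12 hX
      · exact d32 hX
      · exact hX.1.2
  rw [h1, Finset.sum_insert (by simp [rest, O.ne_triv.symm, O.triv_notMem, F₃.triv_notMem]),
    Finset.sum_insert (by simp [rest, O.notMem, n3]), Finset.sum_union (by
      refine Finset.disjoint_left.mpr fun χ hχ hχ' => ?_
      simp only [rest, Finset.mem_sdiff, Finset.mem_erase, Finset.mem_compl] at hχ'
      rcases Finset.mem_union.mp hχ with h | h <;> tauto),
    Finset.sum_union (Finset.disjoint_left.mpr fun χ hχ => d13 hχ)]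
  simp only [add_assoc]

include H O F₂ F₃ in
theorem norm₂ {g : ℤ} (hg : ∀ X ∈ fam₃, c₂ X = g) :
    1 + (δ * c₂ χ₁) ^ 2 + (m₁ : ℤ) * (1 + δ * c₂ χ₁) ^ 2 + (m₃ : ℤ) * g ^ 2 +
      ∑ χ ∈ rest fam fam₂ fam₃ χ₁, c₂ χ ^ 2 + ((m₂ : ℤ) * e₂ ^ 2 - 2 * ε₂ * e₂) = 4 := by
  classical
  have hn := F₂.norm
  have hδsq : δ ^ 2 = 1 := by rcases O.unit with h | h <;> simp [h]
  have hεsq : ε ^ 2 = 1 := by rcases O.F.eps with h | h <;> simp [h]
  rw [compl_split H O F₂ F₃, F₂.c_triv H.s₂, Finset.sum_congr rfl (fun X hX => by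
    rw [O.c_other F₂ H.s₁ H.s₂ H.c₁₂ hX]), Finset.sum_const, O.F.card,
    Finset.sum_congr rfl (fun X hX => by rw [hg X hX]), Finset.sum_const, F₃.card,
    nsmul_eq_mul, nsmul_eq_mul] at hn
  push_cast at hn
  linear_combination hn + (c₂ χ₁) ^ 2 * hδsq - ((m₁ : ℤ) * (1 + δ * c₂ χ₁) ^ 2) * hεsq

include H O F₂ F₃ in
theorem cross {g h' : ℤ} (hg : ∀ X ∈ fam₃, c₂ X = g) (hh : ∀ X ∈ fam₂, c₃ X = h') :
    1 + (δ * c₂ χ₁) * (δ * c₃ χ₁) + (m₁ : ℤ) * ((1 + δ * c₂ χ₁) * (1 + δ * c₃ χ₁)) +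
      g * ((m₃ : ℤ) * e₃ - ε₃) + ∑ χ ∈ rest fam fam₂ fam₃ χ₁, c₂ χ * c₃ χ +
      ((m₂ : ℤ) * e₂ - ε₂) * h' = 0 := by
  classical
  obtain ⟨b, hb, h1⟩ := H.s₃.exists_ne_one
  have hnm : ¬ Meets A₂ b := fun hm => SSC.disjoint H.c₂₃ H.s₂ H.s₃ hm (meets_self hb h1)
  have d13 := Finset.disjoint_left.mp (O.F.disjoint F₃ H.s₁ H.s₃ H.c₁₃)
  have d23 := Finset.disjoint_left.mp (F₂.disjoint F₃ H.s₂ H.s₃ H.c₂₃)
  have horth := F₂.orth H.s₂ hnm (v := (h' : ℂ)) fun X hX => by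
    rw [F₃.nonfam X (d23 hX) b hb h1, hh X hX]
  have e1 : ∑ χ ∈ fam, (c₂ χ : ℂ) * (χ : G → ℂ) b =
      ∑ _χ ∈ fam, (((ε * (1 + δ * c₂ χ₁)) * (ε * (1 + δ * c₃ χ₁)) : ℤ) : ℂ) := by
    refine Finset.sum_congr rfl fun X hX => ?_
    rw [F₃.nonfam X (d13 hX) b hb h1, O.c_other F₂ H.s₁ H.s₂ H.c₁₂ hX,
      O.c_other F₃ H.s₁ H.s₃ H.c₁₃ hX]
    push_cast; rfl
  have e2 : ∑ χ ∈ fam₃, (c₂ χ : ℂ) * (χ : G → ℂ) b = ((g * ((m₃ : ℤ) * e₃ - ε₃) : ℤ) : ℂ) := by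
    rw [Finset.sum_congr rfl (fun X hX => by rw [hg X hX]), ← Finset.mul_sum, F₃.sum b hb h1]
    push_cast; rfl
  have e3 : ∑ χ ∈ rest fam fam₂ fam₃ χ₁, (c₂ χ : ℂ) * (χ : G → ℂ) b =
      ((∑ χ ∈ rest fam fam₂ fam₃ χ₁, c₂ χ * c₃ χ : ℤ) : ℂ) := by
    push_cast
    refine Finset.sum_congr rfl fun X hX => ?_
    simp only [rest, Finset.mem_sdiff] at hX
    rw [F₃.nonfam X hX.2 b hb h1]
  rw [compl_split H O F₂ F₃, e1, e2, e3, F₂.c_triv H.s₂,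
    F₃.nonfam χ₁ (O.notMem_other F₃ H.s₁ H.s₃ H.c₁₃) b hb h1, Finset.sum_const, O.F.card,
    nsmul_eq_mul] at horth
  simp only [Char.trivialIrr] at horth
  have hδsq : (δ : ℂ) * δ = 1 := by rcases O.unit with h | h <;> simp [h]
  have hεsq : (ε : ℂ) * ε = 1 := by rcases O.F.eps with h | h <;> simp [h]
  apply Int.cast_injective (α := ℂ)
  push_cast at horth ⊢
  linear_combination horth + (c₂ χ₁ : ℂ) * c₃ χ₁ * hδsq -
    (m₁ : ℂ) * ((1 + (δ : ℂ) * c₂ χ₁) * (1 + (δ : ℂ) * c₃ χ₁)) * hεsq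

include H O F₂ F₃ in
/-- The two subgroups of index four are not both in the second case. -/
theorem not_both_two (h2 : δ * c₂ χ₁ = 0) (h3 : δ * c₃ χ₁ = 0) : False := by
  classical
  obtain ⟨g, hg⟩ := const_on_other H F₂ F₃
  obtain ⟨h', hh⟩ := const_on_other H.swap F₃ F₂
  have a2 := norm₂ H O F₂ F₃ hg
  have a3 := norm₂ H.swap O F₃ F₂ hh
  have hr : rest fam fam₃ fam₂ χ₁ = rest fam fam₂ fam₃ χ₁ := by
    ext χ; simp only [rest, Finset.mem_sdiff]; tauto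
  rw [hr] at a3
  have ac := cross H O F₂ F₃ hg hh
  rw [h2] at a2 ac
  rw [h3] at a3 ac
  have hS : ∑ χ ∈ rest fam fam₂ fam₃ χ₁, (c₂ χ + c₃ χ) ^ 2 =
      ∑ χ ∈ rest fam fam₂ fam₃ χ₁, c₂ χ ^ 2 + ∑ χ ∈ rest fam fam₂ fam₃ χ₁, c₃ χ ^ 2 +
        2 * ∑ χ ∈ rest fam fam₂ fam₃ χ₁, c₂ χ * c₃ χ := by
    rw [Finset.mul_sum, ← Finset.sum_add_distrib, ← Finset.sum_add_distrib]
    exact Finset.sum_congr rfl fun χ _ => by ring
  have hS0 : (0 : ℤ) ≤ ∑ χ ∈ rest fam fam₂ fam₃ χ₁, (c₂ χ + c₃ χ) ^ 2 :=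
    Finset.sum_nonneg fun _ _ => sq_nonneg _
  have q2 := sq_shift_nonneg F₂.m2 F₂.eps (e₂ + h')
  have q3 := sq_shift_nonneg F₃.m2 F₃.eps (e₃ + g)
  have hm : (2 : ℤ) ≤ m₁ := by exact_mod_cast H.h₁
  linarith [show (m₂ : ℤ) * (e₂ + h') ^ 2 - 2 * ε₂ * (e₂ + h') =
      ((m₂ : ℤ) * e₂ ^ 2 - 2 * ε₂ * e₂) + 2 * (((m₂ : ℤ) * e₂ - ε₂) * h') + (m₂ : ℤ) * h' ^ 2 by ring,
    show (m₃ : ℤ) * (e₃ + g) ^ 2 - 2 * ε₃ * (e₃ + g) =
      ((m₃ : ℤ) * e₃ ^ 2 - 2 * ε₃ * e₃) + 2 * (g * ((m₃ : ℤ) * e₃ - ε₃)) + (m₃ : ℤ) * g ^ 2 by ring]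

include H O F₂ F₃ in
/-- In the first case few characters are non-exceptional, apart from those vanishing on all three
subgroups. -/
theorem card_rest_le (h2 : δ * c₂ χ₁ = -1) (h3 : δ * c₃ χ₁ = -1) :
    ∃ Z ⊆ rest fam fam₂ fam₃ χ₁, (rest fam fam₂ fam₃ χ₁).card ≤ Z.card + 2 ∧
      ∀ χ ∈ Z, Nat.card A₁ * (Nat.card A₂ * Nat.card A₃) ∣ deg χ := by
  classical
  obtain ⟨g, hg⟩ := const_on_other H F₂ F₃
  obtain ⟨h', hh⟩ := const_on_other H.swap F₃ F₂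
  have a2 := norm₂ H O F₂ F₃ hg
  have a3 := norm₂ H.swap O F₃ F₂ hh
  have hr : rest fam fam₃ fam₂ χ₁ = rest fam fam₂ fam₃ χ₁ := by
    ext χ; simp only [rest, Finset.mem_sdiff]; tauto
  rw [hr] at a3
  have ac := cross H O F₂ F₃ hg hh
  rw [h2] at a2 ac
  rw [h3] at a3 ac
  set R := rest fam fam₂ fam₃ χ₁ with hR
  have hS : ∑ χ ∈ R, (c₂ χ + c₃ χ) ^ 2 =
      ∑ χ ∈ R, c₂ χ ^ 2 + ∑ χ ∈ R, c₃ χ ^ 2 + 2 * ∑ χ ∈ R, c₂ χ * c₃ χ := by
    rw [Finset.mul_sum, ← Finset.sum_add_distrib, ← Finset.sum_add_distrib]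
    exact Finset.sum_congr rfl fun χ _ => by ring
  have hS0 : (0 : ℤ) ≤ ∑ χ ∈ R, (c₂ χ + c₃ χ) ^ 2 := Finset.sum_nonneg fun _ _ => sq_nonneg _
  have q2 := sq_shift_nonneg F₂.m2 F₂.eps (e₂ + h')
  have q3 := sq_shift_nonneg F₃.m2 F₃.eps (e₃ + g)
  have hzero : ∑ χ ∈ R, (c₂ χ + c₃ χ) ^ 2 = 0 := by
    linarith [show (m₂ : ℤ) * (e₂ + h') ^ 2 - 2 * ε₂ * (e₂ + h') =
      ((m₂ : ℤ) * e₂ ^ 2 - 2 * ε₂ * e₂) + 2 * (((m₂ : ℤ) * e₂ - ε₂) * h') + (m₂ : ℤ) * h' ^ 2 by ring,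
    show (m₃ : ℤ) * (e₃ + g) ^ 2 - 2 * ε₃ * (e₃ + g) =
      ((m₃ : ℤ) * e₃ ^ 2 - 2 * ε₃ * e₃) + 2 * (g * ((m₃ : ℤ) * e₃ - ε₃)) + (m₃ : ℤ) * g ^ 2 by ring]
  have hneg : ∀ χ ∈ R, c₂ χ = 0 → c₃ χ = 0 := fun χ hχ h0 => by
    have := (Finset.sum_eq_zero_iff_of_nonneg fun _ _ => sq_nonneg _).mp hzero χ hχ
    rw [h0, zero_add] at this
    exact sq_eq_zero_iff.mp this
  refine ⟨R.filter fun χ => c₂ χ = 0, Finset.filter_subset _ _, ?_, fun χ hχ => ?_⟩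
  · have h1 : ((R.filter fun χ => ¬ c₂ χ = 0).card : ℤ) ≤ ∑ χ ∈ R, c₂ χ ^ 2 := by
      refine le_trans ?_ (Finset.sum_le_sum_of_subset_of_nonneg (Finset.filter_subset (fun χ => ¬ c₂ χ = 0) R)
        fun _ _ _ => sq_nonneg _)
      rw [← nsmul_one, ← Finset.sum_const]
      refine Finset.sum_le_sum fun χ hχ => ?_
      have := sq_pos_of_ne_zero (Finset.mem_filter.mp hχ).2
      omega
    have h0 := F₂.Q_nonneg
    have h0' : (0 : ℤ) ≤ (m₃ : ℤ) * g ^ 2 := by positivity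
    have := Finset.card_filter_add_card_filter_not (s := R) (p := fun χ => c₂ χ = 0)
    omega
  · obtain ⟨hχR, h0⟩ := Finset.mem_filter.mp hχ
    have h03 := hneg χ hχR h0
    simp only [hR, rest, Finset.mem_sdiff, Finset.mem_erase, Finset.mem_compl] at hχR
    obtain ⟨⟨⟨hn1, hn2, hn⟩, hn2'⟩, hn3⟩ := hχR
    have key : ∀ {A : Subgroup G} {w m : ℕ} {f : Finset (IrrCharacter G)} {ε e : ℤ}
        {c : IrrCharacter G → ℤ}, SSC A w → Fam A w m f ε e c → χ ∉ f → c χ = 0 →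
          Nat.card A ∣ deg χ := by
      intro A w m f ε e c h F hm hc
      have := dvd_deg_sub h χ (v := 0) fun a ha h1 => by rw [F.nonfam χ hm a ha h1, hc]
      rw [sub_zero] at this
      exact Int.natCast_dvd_natCast.mp this
    exact Nat.Coprime.mul_dvd_of_dvd_of_dvd (Nat.Coprime.mul_right H.c₁₂ H.c₁₃)
      (key H.s₁ O.F hn (O.others χ hn hn1 hn2))
      (Nat.Coprime.mul_dvd_of_dvd_of_dvd H.c₂₃ (key H.s₂ F₂ hn2' h0) (key H.s₃ F₃ hn3 h03))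

include H O F₂ in
/-- The second case is impossible if the other subgroup is in the first one. -/
theorem not_mixed [IsSimpleGroup G] (h2 : δ * c₂ χ₁ = 0) (hm1 : m₁ ≤ 3)
    (hD3 : (Nat.card A₃ : ℤ) ∣ δ * deg χ₁ + 1) : False := by
  classical
  obtain ⟨t, T, c, w, ht, hT, hc, hI, hM, hN⟩ := H.exists_num O
  obtain ⟨hD0, hDn, hD1, -, -⟩ := O.degree_facts H.s₁
  have hD2 := O.dvd_other F₂ H.s₁ H.s₂ H.c₁₂
  rw [h2, sub_zero] at hD2
  have hsq : c ^ 2 * (m₁ + m₂ + m₃) ≤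
      Nat.card A₁ * (Nat.card A₂ * Nat.card A₃) * (c * w) := by
    have h1 := Nat.mul_le_mul_right (c ^ 2)
      (pairs_le H.s₁ H.s₂ H.s₃ H.z₁ H.z₂ H.z₃ H.c₁₂ H.c₁₃ H.c₂₃)
    rw [← mul_pow, hI] at h1
    rw [← hM]
    refine Nat.le_of_mul_le_mul_left ?_ (Nat.card_pos (α := G))
    linarith
  -- the bound for `c`
  obtain ⟨v, hv, hvsum, hv0, hv1, hvX⟩ := O.col_invol H.s₁ ht hT
  rw [hc t ht] at hvsum
  obtain ⟨X₂, hX₂⟩ : fam₂.Nonempty :=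
    Finset.card_pos.mp (by rw [F₂.card]; exact lt_of_lt_of_le two_pos F₂.m2)
  obtain ⟨hns, -⟩ := O.norm_split F₂ H.s₁ H.s₂ H.c₁₂
  rw [h2] at hns
  set O' := ((famᶜ.erase (Char.trivialIrr G)).erase χ₁) \ fam₂ with hO'
  have d12 := Finset.disjoint_left.mp (O.F.disjoint F₂ H.s₁ H.s₂ H.c₁₂)
  have n2 := O.notMem_other F₂ H.s₁ H.s₂ H.c₁₂
  have hsplit : ∀ f : IrrCharacter G → ℤ, ∑ χ ∈ fam₂ᶜ, f χ =
      f (Char.trivialIrr G) + f χ₁ + ∑ χ ∈ fam, f χ + ∑ χ ∈ O', f χ := by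
    intro f
    have e : fam₂ᶜ = insert (Char.trivialIrr G) (insert χ₁ (fam ∪ O')) := by
      ext χ
      simp only [hO', Finset.mem_compl, Finset.mem_insert, Finset.mem_union, Finset.mem_sdiff,
        Finset.mem_erase]
      constructor
      · tauto
      · rintro (rfl | rfl | hX | hX)
        · exact F₂.triv_notMem
        · exact n2
        · exact d12 hX
        · exact hX.2
    rw [e, Finset.sum_insert (by simp [hO', O.ne_triv.symm, O.triv_notMem]),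
      Finset.sum_insert (by simp [hO', O.notMem]), Finset.sum_union (by
        refine Finset.disjoint_left.mpr fun χ hχ hχ' => ?_
        simp only [hO', Finset.mem_sdiff, Finset.mem_erase, Finset.mem_compl] at hχ'
        tauto)]
    simp only [add_assoc]
  have hsame : ∀ χ ∈ fam₂, v χ = v X₂ := fun χ hχ => by
    have := F₂.same χ hχ X₂ hX₂ t (not_meets_invol H.s₂ ht)
    rw [hv, hv] at this; exact_mod_cast this
  have horth : ∑ χ ∈ fam₂ᶜ, c₂ χ * v χ + ((m₂ : ℤ) * e₂ - ε₂) * v X₂ = 0 := by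
    have h' := F₂.orth H.s₂ (not_meets_invol H.s₂ ht) (v := (v X₂ : ℂ)) fun χ hχ => by
      rw [hv, hsame χ hχ]
    simp only [hv] at h'
    exact_mod_cast h'
  have hcol : ∑ χ ∈ fam₂ᶜ, v χ ^ 2 + (m₂ : ℤ) * v X₂ ^ 2 = c := by
    rw [← hvsum, ← Finset.sum_compl_add_sum fam₂, Finset.sum_congr rfl (s₁ := fam₂)
      (fun χ hχ => by rw [hsame χ hχ]), Finset.sum_const, F₂.card, nsmul_eq_mul]
  have hc0 : c₂ χ₁ = 0 := by
    rcases O.unit with h | h <;> rw [h] at h2 <;> omega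
  have hεsq : ε ^ 2 = 1 := by rcases O.F.eps with h | h <;> simp [h]
  have hδsq : δ ^ 2 = 1 := by rcases O.unit with h | h <;> simp [h]
  rw [hsplit, F₂.c_triv H.s₂, hv0, hc0, Finset.sum_congr rfl (s₁ := fam) (fun X hX => by
    rw [O.c_other F₂ H.s₁ H.s₂ H.c₁₂ hX, h2, hvX X hX]), Finset.sum_const, O.F.card,
    nsmul_eq_mul] at horth
  rw [hsplit, hv0, hv1, Finset.sum_congr rfl (s₁ := fam) (fun X hX => by rw [hvX X hX]),
    Finset.sum_const, O.F.card, nsmul_eq_mul] at hcol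
  set S := ∑ χ ∈ O', c₂ χ * v χ
  set A := ∑ χ ∈ O', c₂ χ ^ 2
  set X := ∑ χ ∈ O', v χ ^ 2
  have hL : S + ((m₂ : ℤ) * e₂ - ε₂) * v X₂ = -(1 + (m₁ : ℤ) * (1 + T)) := by
    push_cast at horth
    linear_combination horth - (m₁ : ℤ) * (1 + T) * hεsq
  have hK : X + (m₂ : ℤ) * v X₂ ^ 2 = (c : ℤ) - 1 - T ^ 2 - (m₁ : ℤ) * (1 + T) ^ 2 := by
    push_cast at hcol
    linear_combination hcol - T ^ 2 * hδsq - (m₁ : ℤ) * (1 + T) ^ 2 * hεsq
  have hA0 : 0 ≤ A := Finset.sum_nonneg fun _ _ => sq_nonneg _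
  have hX0 : 0 ≤ X := Finset.sum_nonneg fun _ _ => sq_nonneg _
  have hcs : S ^ 2 ≤ A * X := Finset.sum_mul_sq_le_sq_mul_sq O' c₂ v
  have hQ := F₂.Q_nonneg
  have hm2 : (2 : ℤ) ≤ m₂ := by exact_mod_cast F₂.m2
  have heps : ε₂ ^ 2 = 1 := by rcases F₂.eps with h | h <;> simp [h]
  have hb : (2 * (((m₂ : ℤ) * e₂ - ε₂) * v X₂)) ^ 2 ≤
      (2 * ((m₂ : ℤ) * e₂ ^ 2 - 2 * ε₂ * e₂) + 1) * (2 * ((m₂ : ℤ) * v X₂ ^ 2)) := by
    have h1 : 2 * ((m₂ : ℤ) * e₂ - ε₂) ^ 2 ≤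
        (m₂ : ℤ) * (2 * ((m₂ : ℤ) * e₂ ^ 2 - 2 * ε₂ * e₂) + 1) := by
      linarith [show 2 * ((m₂ : ℤ) * e₂ - ε₂) ^ 2 =
        (m₂ : ℤ) * (2 * ((m₂ : ℤ) * e₂ ^ 2 - 2 * ε₂ * e₂)) + 2 * ε₂ ^ 2 by ring]
    have h2' := mul_le_mul_of_nonneg_left h1 (show (0 : ℤ) ≤ 2 * v X₂ ^ 2 by positivity)
    linarith
  have hcs' : (2 * S) ^ 2 ≤ (2 * A) * (2 * X) := by linarith
  have hfin := add_sq_bound (by linarith) (by linarith) (by linarith) (by positivity) hcs' hb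
  have hA : A + ((m₂ : ℤ) * e₂ ^ 2 - 2 * ε₂ * e₂) = 3 - (m₁ : ℤ) := by linarith
  have hlb : 2 * (1 + (m₁ : ℤ) * (1 + T)) ^ 2 ≤
      (2 * (3 - (m₁ : ℤ)) + 1) * ((c : ℤ) - 1 - T ^ 2 - m₁ * (1 + T) ^ 2) := by
    rw [show 2 * S + 2 * (((m₂ : ℤ) * e₂ - ε₂) * v X₂) = -(2 * (1 + (m₁ : ℤ) * (1 + T))) by
      linear_combination 2 * hL,
      show 2 * A + (2 * ((m₂ : ℤ) * e₂ ^ 2 - 2 * ε₂ * e₂) + 1) = 2 * (3 - (m₁ : ℤ)) + 1 by
        linear_combination 2 * hA,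
      show 2 * X + 2 * ((m₂ : ℤ) * v X₂ ^ 2) =
        2 * ((c : ℤ) - 1 - T ^ 2 - (m₁ : ℤ) * (1 + T) ^ 2) by linear_combination 2 * hK] at hfin
    linarith [show (2 * (3 - (m₁ : ℤ)) + 1) * (2 * ((c : ℤ) - 1 - T ^ 2 - (m₁ : ℤ) * (1 + T) ^ 2)) =
      2 * ((2 * (3 - (m₁ : ℤ)) + 1) * ((c : ℤ) - 1 - T ^ 2 - (m₁ : ℤ) * (1 + T) ^ 2)) by ring,
      show (-(2 * (1 + (m₁ : ℤ) * (1 + T)))) ^ 2 = 4 * (1 + (m₁ : ℤ) * (1 + T)) ^ 2 by ring]
  have hkey := hN.key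
  push_cast at hkey
  have h1 := H.h₁
  exact case_two (n1 := Nat.card A₁) (m1 := m₁) (n2 := Nat.card A₂) (m2 := m₂) (n3 := Nat.card A₃)
    (m3 := m₃) (D := δ * deg χ₁) (T := T) (c := c) (w := w)
    { hn1 := H.z₁, hm1 := by omega, hn2 := H.z₂, hm2 := H.h₂, hn3 := H.z₃, hm3 := H.h₃
      hD1 := hD1, hD2 := hD2, hD3 := hD3, hD0 := hD0, hDn := hDn, key := hkey
      hw := hN.odd, hc0 := hN.pos, hcop := hN.cop, hle := hN.le, hsq := hsq, hlb := hlb }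

include H O F₂ F₃ in
/-- The first case holds for both. -/
theorem both_one [IsSimpleGroup G] : δ * c₂ χ₁ = -1 ∧ δ * c₃ χ₁ = -1 := by
  obtain ⟨-, h2 | ⟨h2, hm⟩⟩ := O.norm_split F₂ H.s₁ H.s₂ H.c₁₂
  · obtain ⟨-, h3 | ⟨h3, hm⟩⟩ := O.norm_split F₃ H.s₁ H.s₃ H.c₁₃
    · exact ⟨h2, h3⟩
    · have := O.dvd_other F₂ H.s₁ H.s₂ H.c₁₂
      rw [h2, sub_neg_eq_add] at this
      exact (not_mixed H.swap O F₃ h3 hm this).elim
  · obtain ⟨-, h3 | ⟨h3, -⟩⟩ := O.norm_split F₃ H.s₁ H.s₃ H.c₁₃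
    · have := O.dvd_other F₃ H.s₁ H.s₃ H.c₁₃
      rw [h3, sub_neg_eq_add] at this
      exact (not_mixed H O F₂ h2 hm this).elim
    · exact (not_both_two H O F₂ F₃ h2 h3).elim

end Config

/-- Every involution centralizer is a 2-group. -/
theorem isCIT [IsSimpleGroup G] (H : Hyp A₁ A₂ A₃ m₁ m₂ m₃) : CIT.IsCIT G := by
  classical
  obtain ⟨fam, ε, c₁, χ₁, δ, O⟩ := exists_one H.s₁ H.z₁ H.h₁
  obtain ⟨m₂', fam₂, ε₂, e₂, c₂, F₂⟩ := exists_fam H.s₂ (by have := H.z₂; have := H.h₂; omega)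
  obtain rfl : m₂' = m₂ := by have := F₂.size; have := H.z₂; omega
  obtain ⟨m₃', fam₃, ε₃, e₃, c₃, F₃⟩ := exists_fam H.s₃ (by have := H.z₃; have := H.h₃; omega)
  obtain rfl : m₃' = m₃ := by have := F₃.size; have := H.z₃; omega
  obtain ⟨h2, h3⟩ := both_one H O F₂ F₃
  obtain ⟨t, T, c, w, ht, hT, hc, -, hM, hN⟩ := H.exists_num O
  obtain ⟨hD0, hDn, hD1, hDG, hD1G⟩ := O.degree_facts H.s₁
  intro u hu
  refine IsPGroup.of_card (n := c.primeFactorsList.length) ?_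
  rw [hc u hu]
  refine Nat.eq_prime_pow_of_unique_prime_dvd hN.pos.ne' fun {p} hp hpc => ?_
  by_contra hp2
  haveI : Fact p.Prime := ⟨hp⟩
  -- five classes outside the three subgroups
  have hpN : ¬ p ∣ Nat.card A₁ * (Nat.card A₂ * Nat.card A₃) := fun hd =>
    hp.one_lt.ne' (Nat.eq_one_of_dvd_coprimes hN.cop (hpc.trans (dvd_mul_right c w)) hd)
  obtain ⟨y, hy⟩ := exists_prime_orderOf_dvd_card' (G := centralizer ({t} : Set G)) p
    (hc t ht ▸ hpc)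
  have hyo : orderOf (y : G) = p := by rw [orderOf_coe, hy]
  have hcomm : Commute t (y : G) := (mem_centralizer_singleton_iff.mp y.2).symm
  have hty : orderOf (t * (y : G)) = 2 * p := by
    rw [hcomm.orderOf_mul_eq_mul_orderOf_of_coprime, ht, hyo]
    rw [ht, hyo]; exact (Nat.coprime_primes Nat.prime_two hp).mpr (Ne.symm hp2)
  obtain ⟨x, hx⟩ := H.s₂.exists_orderOf_four
  have hsafe : ∀ g : G, (g = 1 ∨ 2 ∣ orderOf g ∨ ∃ q, q.Prime ∧ q ∣ orderOf g ∧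
      ¬ q ∣ Nat.card A₁ * (Nat.card A₂ * Nat.card A₃)) →
      ¬ Meets A₁ g ∧ ¬ Meets A₂ g ∧ ¬ Meets A₃ g := by
    intro g hg
    have key : ∀ {A : Subgroup G} {v : ℕ}, SSC A v →
        Nat.card A ∣ Nat.card A₁ * (Nat.card A₂ * Nat.card A₃) → ¬ Meets A g := by
      intro A v h hd hm
      obtain ⟨hm1, hg1⟩ := orderOf_dvd_of_meets hm
      rcases hg with hg | hg | ⟨q, -, hq, hqn⟩
      · exact hg1 hg
      · exact (Nat.not_even_iff_odd.mpr h.odd) (even_iff_two_dvd.mpr (hg.trans hm1))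
      · exact hqn ((hq.trans hm1).trans hd)
    exact ⟨key H.s₁ (dvd_mul_right _ _), key H.s₂ ((dvd_mul_right _ _).trans (dvd_mul_left _ _)),
      key H.s₃ ((dvd_mul_left _ _).trans (dvd_mul_left _ _))⟩
  -- the count
  obtain ⟨Z, hZR, hZc, hZd⟩ := card_rest_le H O F₂ F₃ h2 h3
  have d12 := O.F.disjoint F₂ H.s₁ H.s₂ H.c₁₂
  have d13 := O.F.disjoint F₃ H.s₁ H.s₃ H.c₁₃
  have hcardI : Fintype.card (IrrCharacter G) ≤
      2 + m₁ + m₂' + m₃' + (rest fam fam₂ fam₃ χ₁).card := by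
    have := compl_split H O F₂ F₃ (fun _ => (1 : ℕ))
    simp only [Finset.sum_const, smul_eq_mul, mul_one, O.F.card, F₃.card] at this
    rw [← Finset.card_compl_add_card fam₂, F₂.card, this]
    omega
  have hcount : ∀ L : Finset G, (∀ g ∈ L, g = 1 ∨ 2 ∣ orderOf g ∨ ∃ q, q.Prime ∧ q ∣ orderOf g ∧
      ¬ q ∣ Nat.card A₁ * (Nat.card A₂ * Nat.card A₃)) → Set.InjOn orderOf (L : Set G) →
      L.card ≤ Z.card + 4 := by
    intro L hL hinj
    have := classes_le H.s₁ H.s₂ H.s₃ H.z₁ H.z₂ H.z₃ H.c₁₂ H.c₁₃ H.c₂₃ L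
      (fun g hg => hsafe g (hL g hg)) hinj
    omega
  have hp3 : 3 ≤ p := by have := hp.two_le; omega
  have hp4 : p ≠ 4 := fun e => by rw [e] at hp; norm_num at hp
  have h5 : ({1, t, x, (y : G), t * (y : G)} : Finset G).card = 5 ∧
      1 ≤ Z.card := by
    have hinj : Set.InjOn orderOf (({1, t, x, (y : G), t * (y : G)} : Finset G) : Set G) := by
      intro a ha b hb e
      simp only [Finset.coe_insert, Finset.coe_singleton, Set.mem_insert_iff,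
        Set.mem_singleton_iff] at ha hb
      rcases ha with rfl | rfl | rfl | rfl | rfl <;> rcases hb with rfl | rfl | rfl | rfl | rfl <;>
        simp only [orderOf_one, ht, hx, hyo, hty] at e <;> first | rfl | omega
    have hcard : ({1, t, x, (y : G), t * (y : G)} : Finset G).card = 5 := by
      rw [← Finset.card_image_of_injOn hinj]
      simp only [Finset.image_insert, Finset.image_singleton, orderOf_one, ht, hx, hyo, hty]
      rw [Finset.card_insert_of_notMem (by simp; omega), Finset.card_insert_of_notMem (by simp; omega),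
        Finset.card_insert_of_notMem (by simp; omega), Finset.card_insert_of_notMem (by simp; omega),
        Finset.card_singleton]
    refine ⟨hcard, ?_⟩
    have := hcount _ ?_ hinj
    · omega
    intro g hg
    simp only [Finset.mem_insert, Finset.mem_singleton] at hg
    rcases hg with rfl | rfl | rfl | rfl | rfl
    · exact Or.inl rfl
    · exact Or.inr (Or.inl (by rw [ht]))
    · exact Or.inr (Or.inl (by rw [hx]; norm_num))
    · exact Or.inr (Or.inr ⟨p, hp, by rw [hyo], hpN⟩)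
    · exact Or.inr (Or.inl (by rw [hty]; exact dvd_mul_right 2 p))
  -- the degree sum
  set n := Nat.card A₁ * (Nat.card A₂ * Nat.card A₃)
  have hdeg : Z.card * n ^ 2 + deg χ₁ ^ 2 + ∑ X ∈ fam, deg X ^ 2 ≤ n * (c * w) := by
    have hd : ∀ χ ∈ Z, χ ∉ fam ∧ χ ≠ χ₁ := fun χ hχ => by
      have := hZR hχ
      simp only [rest, Finset.mem_sdiff, Finset.mem_erase, Finset.mem_compl] at this
      exact ⟨this.1.1.2.2, this.1.1.1⟩
    have h1 := sum_deg_sq_le (insert χ₁ (fam ∪ Z))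
    rw [Finset.sum_insert (by
      simp only [Finset.mem_union, O.notMem, false_or]; exact fun e => (hd _ e).2 rfl),
      Finset.sum_union (Finset.disjoint_right.mpr fun χ hχ => (hd χ hχ).1), hM] at h1
    have hZs : Z.card * n ^ 2 ≤ ∑ χ ∈ Z, deg χ ^ 2 := by
      rw [← smul_eq_mul, ← Finset.sum_const]
      exact Finset.sum_le_sum fun χ hχ =>
        Nat.pow_le_pow_left (Nat.le_of_dvd (deg_spec χ).1 (hZd χ hχ)) 2
    linarith
  have hn0 : 0 < n := Nat.mul_pos Nat.card_pos (Nat.mul_pos Nat.card_pos Nat.card_pos)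
  have hgt : n < c * w := by
    have h1 : 1 ≤ deg χ₁ ^ 2 := Nat.one_le_pow _ _ (deg_spec χ₁).1
    have h2' : 1 * n ^ 2 ≤ Z.card * n ^ 2 := Nat.mul_le_mul_right _ h5.2
    by_contra hle
    have h3' := Nat.mul_le_mul_left n (Nat.le_of_not_lt hle)
    linarith [sq n, Nat.zero_le (∑ X ∈ fam, deg X ^ 2)]
  set D : ℤ := δ * deg χ₁ with hD
  have hD2 := O.dvd_other F₂ H.s₁ H.s₂ H.c₁₂
  have hD3 := O.dvd_other F₃ H.s₁ H.s₃ H.c₁₃
  rw [h2, sub_neg_eq_add, ← hD] at hD2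
  rw [h3, sub_neg_eq_add, ← hD] at hD3
  have hDP : ((Nat.card A₂ * Nat.card A₃ : ℕ) : ℤ) ∣ D + 1 := by
    push_cast
    exact (Int.isCoprime_iff_nat_coprime.mpr (by simpa using H.c₂₃)).mul_dvd hD2 hD3
  have hcopDn : D.natAbs.Coprime n := by
    have k1 : ∀ (k : ℕ) (s : ℤ), (s = 1 ∨ s = -1) → (k : ℤ) ∣ D - s → D.natAbs.Coprime k := by
      rintro k s hs ⟨q, hq⟩
      rw [← Int.natAbs_natCast k, ← Int.isCoprime_iff_nat_coprime]
      exact ⟨s, -(s * q), by rcases hs with rfl | rfl <;> linarith [hq]⟩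
    refine Nat.Coprime.mul_right (k1 _ 1 (Or.inl rfl) hD1) (k1 _ (-1) (Or.inr rfl) ?_)
    rw [sub_neg_eq_add]; exact hDP
  have hdD : D ∣ ((c * w : ℕ) : ℤ) := by
    rw [← Int.natAbs_dvd, Int.natCast_dvd_natCast]
    refine hcopDn.dvd_of_dvd_mul_left ?_
    rw [← hM, ← Int.natCast_dvd_natCast, Int.natAbs_dvd]
    exact hDG
  have hlb : 1 + T ^ 2 + (m₁ : ℤ) * (1 + T) ^ 2 ≤ c := by
    obtain ⟨v, -, hvsum, hv0, hv1, hvX⟩ := O.col_invol H.s₁ ht hT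
    rw [hc t ht] at hvsum
    rw [← hvsum]
    refine le_trans ?_ (Finset.sum_le_sum_of_subset_of_nonneg
      (Finset.subset_univ (insert (Char.trivialIrr G) (insert χ₁ fam))) fun _ _ _ => sq_nonneg _)
    rw [Finset.sum_insert (by simp [O.ne_triv.symm, O.triv_notMem]), Finset.sum_insert O.notMem,
      hv0, hv1, Finset.sum_congr rfl (fun X hX => by rw [hvX X hX]), Finset.sum_const, O.F.card,
      nsmul_eq_mul]
    have hεsq : ε ^ 2 = 1 := by rcases O.F.eps with h | h <;> simp [h]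
    have hδsq : δ ^ 2 = 1 := by rcases O.unit with h | h <;> simp [h]
    rw [mul_pow, mul_pow, hεsq, hδsq]
    ring_nf
    exact le_refl _
  have hP : 117 ≤ Nat.card A₂ * Nat.card A₃ := by
    have := H.z₂; have := H.z₃; have := H.h₂; have := H.h₃
    have hne : Nat.card A₂ ≠ Nat.card A₃ := fun e => by
      have := H.c₂₃; rw [e, Nat.coprime_self] at this; omega
    rcases Nat.lt_or_gt_of_ne hne with h | h
    · exact le_trans (by norm_num) (Nat.mul_le_mul (show 9 ≤ Nat.card A₂ by omega)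
        (show 13 ≤ Nat.card A₃ by omega))
    · exact le_trans (by norm_num) (Nat.mul_le_mul (show 13 ≤ Nat.card A₂ by omega)
        (show 9 ≤ Nat.card A₃ by omega))
  have hData : MainData (Nat.card A₁) m₁ (Nat.card A₂ * Nat.card A₃) D T c w :=
    { hn1 := H.s₁.five, hm1 := H.z₁, hP := hP, hPo := H.s₂.odd.mul H.s₃.odd
      hD1 := hD1, hDP := hDP, hD0 := hD0, hD2 := hDn, key := hN.key, hw := hN.odd, hc := hN.two
      hc0 := hN.pos, hcop := hN.cop, hdD := hdD, hdF := by rw [← hM]; exact hD1G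
      hle := hN.le, hgt := hgt, hlb := hlb, hsyl := hN.syl }
  obtain ⟨hw1, hcw, -, -, -⟩ := main_case hData
  -- a sixth class
  obtain ⟨r, hr, hrw⟩ := Nat.exists_prime_and_dvd (n := w) (by omega)
  haveI : Fact r.Prime := ⟨hr⟩
  obtain ⟨y', hy'⟩ := exists_prime_orderOf_dvd_card' (G := G) r
    (hM ▸ (hrw.trans (dvd_mul_left w c)).trans (dvd_mul_left _ _))
  have hrp : r ≠ p := by
    rintro rfl
    exact hr.one_lt.ne' (Nat.eq_one_of_dvd_coprimes hcw hpc hrw)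
  have hr2 : r ≠ 2 := by
    rintro rfl
    exact (Nat.not_even_iff_odd.mpr hN.odd) (even_iff_two_dvd.mpr hrw)
  have hr3 : 3 ≤ r := by have := hr.two_le; omega
  have hr4 : r ≠ 4 := fun e => by rw [e] at hr; norm_num at hr
  have hrt : r ≠ 2 * p := fun e => by
    have := hr.eq_one_or_self_of_dvd 2 ⟨p, e⟩; omega
  have hrN : ¬ r ∣ n := fun hd =>
    hr.one_lt.ne' (Nat.eq_one_of_dvd_coprimes hN.cop (hrw.trans (dvd_mul_left w c)) hd)
  have hz2 : 2 ≤ Z.card := by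
    have hinj : Set.InjOn orderOf
        (({y', 1, t, x, (y : G), t * (y : G)} : Finset G) : Set G) := by
      intro a ha b hb e
      simp only [Finset.coe_insert, Finset.coe_singleton, Set.mem_insert_iff,
        Set.mem_singleton_iff] at ha hb
      rcases ha with rfl | rfl | rfl | rfl | rfl | rfl <;>
        rcases hb with rfl | rfl | rfl | rfl | rfl | rfl <;>
        simp only [orderOf_one, ht, hx, hyo, hty, hy'] at e <;> first | rfl | omega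
    have := hcount _ ?_ hinj
    · rw [Finset.card_insert_of_notMem ?_, h5.1] at this
      · omega
      simp only [Finset.mem_insert, Finset.mem_singleton]
      rintro (e | e | e | e | e) <;> rw [e] at hy' <;>
        simp only [orderOf_one, ht, hx, hyo, hty] at hy' <;> omega
    intro g hg
    simp only [Finset.mem_insert, Finset.mem_singleton] at hg
    rcases hg with rfl | rfl | rfl | rfl | rfl | rfl
    · exact Or.inr (Or.inr ⟨r, hr, by rw [hy'], hrN⟩)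
    · exact Or.inl rfl
    · exact Or.inr (Or.inl (by rw [ht]))
    · exact Or.inr (Or.inl (by rw [hx]; norm_num))
    · exact Or.inr (Or.inr ⟨p, hp, by rw [hyo], hpN⟩)
    · exact Or.inr (Or.inl (by rw [hty]; exact dvd_mul_right 2 p))
  refine main_case_degrees hData ?_
  have hfd : ∀ X ∈ fam, (deg X : ℤ) ^ 2 = (D + 1) ^ 2 := fun X hX => by
    rw [O.deg_eq H.s₁ hX, hD]
    rcases O.F.eps with h | h <;> rw [h] <;> ring
  have h2z : 2 * n ^ 2 ≤ Z.card * n ^ 2 := Nat.mul_le_mul_right _ hz2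
  have hd1 : (deg χ₁ : ℤ) ^ 2 = D ^ 2 := by
    rw [hD]; rcases O.unit with h | h <;> rw [h] <;> ring
  have h1 : (2 : ℤ) * (n : ℤ) ^ 2 + (deg χ₁ : ℤ) ^ 2 + ∑ X ∈ fam, (deg X : ℤ) ^ 2 ≤
      (n : ℤ) * (c * w) := by
    have : 2 * n ^ 2 + deg χ₁ ^ 2 + ∑ X ∈ fam, deg X ^ 2 ≤ n * (c * w) := by linarith
    exact_mod_cast this
  rw [Finset.sum_congr rfl hfd, Finset.sum_const, O.F.card, nsmul_eq_mul, hd1] at h1
  simp only [n] at h1
  push_cast at h1 ⊢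
  exact h1

end Cfsg.Agent.SSCSuzuki
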