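import Cfsg.Agent.SSCSuzuki.Local
import Cfsg.Agent.S0840
import Cfsg.Agent.Char.Orthogonality
import Cfsg.Agent.Char.Center
import Cfsg.Agent.Char.Virtual
import Cfsg.Agent.Char.Kernel

/-!
# Classes, pairs of involutions and the class formula
-/

set_option autoImplicit false

namespace Cfsg.Agent.SSCSuzuki

open scoped ComplexConjugate
open Subgroup Cfsg

universe u

variable {G : Type u} [Group G] [Fintype G]

theorem class_card_mul (g : G) :
    Nat.card {x : G // IsConj g x} * Nat.card (centralizer ({g} : Set G)) = Nat.card G := by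
  classical
  rw [Nat.card_eq_fintype_card, Fintype.card_subtype]
  convert Char.card_isConj_mul_card_centralizer g

/-- A non-trivial character of a non-abelian simple group is not scalar at a non-identity element. -/
theorem norm_ne_degree [IsSimpleGroup G] (hG : ¬ IsMulCommutative G) {χ : IrrCharacter G}
    (hχ : χ ≠ Char.trivialIrr G) {t : G} (ht : t ≠ 1) :
    ‖(χ : G → ℂ) t‖ ≠ ((χ : G → ℂ) 1).re := by
  intro hn
  obtain ⟨Z, hZn, hZ, hcomm⟩ := Char.isCharacter_exists_center (Char.isCharacter_of_irr χ.2)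
  have htZ : t ∈ Z := (hZ t).mpr hn
  have hZtop : Z = ⊤ := hZn.eq_bot_or_eq_top.resolve_left fun e => ht (by
    rw [e, mem_bot] at htZ; exact htZ)
  obtain ⟨K, hKn, hK⟩ := Char.isCharacter_exists_kernel (Char.isCharacter_of_irr χ.2)
  rcases hKn.eq_bot_or_eq_top with hK' | hK'
  · refine hG ⟨⟨fun a b => ?_⟩⟩
    have hm : a * b * a⁻¹ * b⁻¹ ∈ K := (hK _).mpr (hcomm a (hZtop ▸ mem_top a) b)
    rw [hK', mem_bot, mul_inv_eq_one, mul_inv_eq_iff_eq_mul] at hm
    exact hm
  · have hconst : ∀ g : G, (χ : G → ℂ) g = (χ : G → ℂ) 1 := fun g => (hK g).mp (hK' ▸ mem_top g)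
    have h1 : (χ : G → ℂ) ≠ fun _ => 1 := fun e => hχ (Subtype.ext e)
    have h2 := Char.irr_sum_eq_zero χ.2 h1
    rw [Finset.sum_congr rfl (fun g _ => hconst g), Finset.sum_const, nsmul_eq_mul] at h2
    rcases mul_eq_zero.mp h2 with h3 | h3
    · exact Fintype.card_ne_zero (Nat.cast_eq_zero.mp h3)
    · exact Char.irr_one_ne_zero χ.2 h3

/-- The class formula for two involution classes at an element of `A`. -/
theorem formula {A : Subgroup G} {w : ℕ} (h : SSC A w) {z t t' a : G} (hz : orderOf z = 2)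
    (hzi : ∀ a ∈ A, z * a * z⁻¹ = a⁻¹) (ha : a ∈ A) (h1 : a ≠ 1) (ht : orderOf t = 2)
    (ht' : orderOf t' = 2) [Decidable (IsConj t z ∧ IsConj t' z)] :
    (((if IsConj t z ∧ IsConj t' z then Nat.card A else 0) : ℕ) : ℂ) *
        ((Nat.card (centralizer ({t} : Set G)) : ℂ) * Nat.card (centralizer ({t'} : Set G))) =
      (Nat.card G : ℂ) * ∑ χ : IrrCharacter G,
        (χ : G → ℂ) t * (χ : G → ℂ) t' * conj ((χ : G → ℂ) a) / (χ : G → ℂ) 1 := by
  classical
  have hinv : ∀ u v : G, IsConj t u → IsConj t' v → u * v = a →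
      orderOf u = 2 ∧ u * a * u⁻¹ = a⁻¹ := by
    intro u v hu hv he
    have ho : ∀ {x y : G}, IsConj x y → orderOf x = 2 → orderOf y = 2 := by
      intro x y hc hx
      obtain ⟨g, rfl⟩ := isConj_iff.mp hc
      rwa [← MulAut.conj_apply,
        show orderOf ((MulAut.conj g) x) = orderOf x from
          orderOf_injective (MulAut.conj g).toMonoidHom (MulAut.conj g).injective x]
    refine ⟨ho hu ht, ?_⟩
    rw [← he, mul_inv_rev, sq_one_inv (ho hu ht), sq_one_inv (ho hv ht')]
    rw [← mul_assoc u u v, ← pow_two u, ← ho hu ht, pow_orderOf_eq_one, one_mul]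
  have hcnt : Nat.card {p : G × G // IsConj t p.1 ∧ IsConj t' p.2 ∧ p.1 * p.2 = a} =
      if IsConj t z ∧ IsConj t' z then Nat.card A else 0 := by
    have hz' : ∀ u : G, orderOf u = 2 ∧ u * a * u⁻¹ = a⁻¹ →
        IsConj z u ∧ IsConj z (u * a) := by
      intro u hu
      have hb := (h.inverts_iff hz hzi ha h1).mp hu
      have e : u = z * (z * u) := by rw [← mul_assoc, ← pow_two, ← hz, pow_orderOf_eq_one, one_mul]
      refine ⟨e ▸ h.conj_flip hz hzi hb, ?_⟩
      have := h.conj_flip hz hzi (A.mul_mem hb ha)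
      rwa [← mul_assoc, ← e] at this
    split_ifs with hc
    · rw [← h.card_inverting hz hzi ha h1]
      exact Nat.card_congr
        { toFun := fun p => ⟨p.1.1, hinv _ _ p.2.1 p.2.2.1 p.2.2.2⟩
          invFun := fun u => ⟨(u.1, u.1 * a), hc.1.trans (hz' _ u.2).1, hc.2.trans (hz' _ u.2).2, by
            show u.1 * (u.1 * a) = a
            have e := pow_orderOf_eq_one u.1
            rw [u.2.1, pow_two] at e
            rw [← mul_assoc, e, one_mul]⟩
          left_inv := fun p => by
            obtain ⟨⟨x, y⟩, hx, hy, he⟩ := p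
            refine Subtype.ext (Prod.ext rfl ?_)
            show x * a = y
            simp only at he hx hy
            rw [← he, ← mul_assoc, ← pow_two, ← (hinv x y hx hy he).1, pow_orderOf_eq_one, one_mul]
          right_inv := fun u => rfl }
    · rw [Nat.card_eq_zero]
      left
      refine ⟨fun ⟨⟨x, y⟩, hx, hy, he⟩ => hc ?_⟩
      simp only at he hx hy
      have hi := hinv x y hx hy he
      have e : x * a = y := by
        rw [← he, ← mul_assoc, ← pow_two, ← hi.1, pow_orderOf_eq_one, one_mul]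
      exact ⟨hx.trans (hz' _ hi).1.symm, hy.trans (e ▸ (hz' _ hi).2.symm)⟩
  have h2 := S0840.result t t' a
  rw [hcnt, finsum_eq_sum_of_fintype] at h2
  have hG : (Nat.card G : ℂ) ≠ 0 := Nat.cast_ne_zero.mpr Nat.card_pos.ne'
  have e1 : (Nat.card {x : G // IsConj t x} : ℂ) * (Nat.card (centralizer ({t} : Set G)) : ℂ) =
      (Nat.card G : ℂ) := by exact_mod_cast class_card_mul t
  have e2 : (Nat.card {x : G // IsConj t' x} : ℂ) * (Nat.card (centralizer ({t'} : Set G)) : ℂ) =
      (Nat.card G : ℂ) := by exact_mod_cast class_card_mul t'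
  rw [h2]
  field_simp
  linear_combination ((Nat.card {x : G // IsConj t' x} : ℂ) *
      (Nat.card (centralizer ({t'} : Set G)) : ℂ) *
        ∑ χ : IrrCharacter G, (χ : G → ℂ) t * (χ : G → ℂ) t' * conj ((χ : G → ℂ) a) / (χ : G → ℂ) 1) * e1
    + ((Nat.card G : ℂ) *
        ∑ χ : IrrCharacter G, (χ : G → ℂ) t * (χ : G → ℂ) t' * conj ((χ : G → ℂ) a) / (χ : G → ℂ) 1) * e2

open Classical in
/-- The classes meeting `A`. -/
noncomputable def classSet (A : Subgroup G) : Finset (ConjClasses G) :=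
  ((Finset.univ : Finset A).erase 1).image fun a : A => ConjClasses.mk (a : G)

theorem mem_classSet {A : Subgroup G} {g : G} :
    ConjClasses.mk g ∈ classSet A ↔ Meets A g := by
  classical
  simp only [classSet, Finset.mem_image, Finset.mem_erase, Finset.mem_univ, and_true]
  constructor
  · rintro ⟨a, ha, he⟩
    exact ⟨a, a.2, fun e => ha (Subtype.ext e), ConjClasses.mk_eq_mk_iff_isConj.mp he⟩
  · rintro ⟨a, ha, h1, hc⟩
    exact ⟨⟨a, ha⟩, fun e => h1 (congrArg Subtype.val e), ConjClasses.mk_eq_mk_iff_isConj.mpr hc⟩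

theorem le_card_classSet {A : Subgroup G} {w m : ℕ} (h : SSC A w) (hsize : Nat.card A = w * m + 1) :
    m ≤ (classSet A).card := by
  classical
  set N := normalizer (A : Set G)
  haveI : (A.subgroupOf N).Normal := normal_in_normalizer
  have hmaps : ∀ a ∈ (Finset.univ : Finset A).erase 1, ConjClasses.mk (a : G) ∈ classSet A :=
    fun a ha => Finset.mem_image_of_mem (fun a : A => ConjClasses.mk (a : G)) ha
  have hle := Finset.card_le_mul_card_image ((Finset.univ : Finset A).erase 1)
    (f := fun a : A => ConjClasses.mk (a : G)) w ?_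
  · rw [Finset.card_erase_of_mem (Finset.mem_univ _), Finset.card_univ, ← Nat.card_eq_fintype_card,
      hsize, Nat.add_sub_cancel] at hle
    refine Nat.le_of_mul_le_mul_left hle ?_
    rcases h.w24 with rfl | rfl <;> norm_num
  · intro C hC
    obtain ⟨a₁, ha₁, rfl⟩ := Finset.mem_image.mp hC
    have ha1 : (a₁ : G) ≠ 1 := fun e => (Finset.mem_erase.mp ha₁).1 (Subtype.ext e)
    have hval : ∀ g : N, (g : G) * a₁ * (g : G)⁻¹ ∈ A := fun g =>
      (Subgroup.mem_normalizer_iff.mp g.2 a₁).mp a₁.2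
    let φ : N ⧸ A.subgroupOf N → A := Quotient.lift (fun g : N => (⟨(g : G) * a₁ * (g : G)⁻¹, hval g⟩ : A))
      (by
        intro g g' hgg
        have hm : (g⁻¹ * g' : N) ∈ A.subgroupOf N := QuotientGroup.leftRel_apply.mp hgg
        rw [mem_subgroupOf] at hm
        have hcm : ((g⁻¹ * g' : N) : G) * a₁ = a₁ * ((g⁻¹ * g' : N) : G) := h.comm hm a₁.2
        refine Subtype.ext ?_
        show (g : G) * a₁ * (g : G)⁻¹ = (g' : G) * a₁ * (g' : G)⁻¹
        calc (g : G) * a₁ * (g : G)⁻¹
            = (g : G) * (a₁ * ((g⁻¹ * g' : N) : G)) * (g' : G)⁻¹ := by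
              simp only [Subgroup.coe_mul, Subgroup.coe_inv]; group
          _ = _ := by rw [← hcm]; simp only [Subgroup.coe_mul, Subgroup.coe_inv]; group)
    calc (((Finset.univ : Finset A).erase 1).filter
          fun a : A => ConjClasses.mk (a : G) = ConjClasses.mk (a₁ : G)).card
        ≤ (Finset.univ.image φ).card := by
          refine Finset.card_le_card fun a ha => ?_
          obtain ⟨-, he⟩ := Finset.mem_filter.mp ha
          obtain ⟨g, hg⟩ := isConj_iff.mp (ConjClasses.mk_eq_mk_iff_isConj.mp he).symm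
          have hgN : g ∈ N := h.mem_normalizer a₁.2 ha1 (hg ▸ a.2)
          exact Finset.mem_image.mpr ⟨((⟨g, hgN⟩ : N) : N ⧸ A.subgroupOf N), Finset.mem_univ _,
            Subtype.ext hg⟩
      _ ≤ Fintype.card (N ⧸ A.subgroupOf N) := Finset.card_image_le.trans_eq Finset.card_univ
      _ = w := by rw [← Nat.card_eq_fintype_card]; exact h.index

section Three

variable {A₁ A₂ A₃ : Subgroup G} {w₁ w₂ w₃ m₁ m₂ m₃ : ℕ}
  (h₁ : SSC A₁ w₁) (h₂ : SSC A₂ w₂) (h₃ : SSC A₃ w₃)
  (hn₁ : Nat.card A₁ = w₁ * m₁ + 1) (hn₂ : Nat.card A₂ = w₂ * m₂ + 1)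
  (hn₃ : Nat.card A₃ = w₃ * m₃ + 1)
  (c₁₂ : (Nat.card A₁).Coprime (Nat.card A₂)) (c₁₃ : (Nat.card A₁).Coprime (Nat.card A₃))
  (c₂₃ : (Nat.card A₂).Coprime (Nat.card A₃))

include h₁ h₂ h₃ c₁₂ c₁₃ c₂₃ in
theorem classSet_disjoint :
    Disjoint (classSet A₁) (classSet A₂) ∧ Disjoint (classSet A₁) (classSet A₃) ∧
      Disjoint (classSet A₂) (classSet A₃) := by
  refine ⟨?_, ?_, ?_⟩ <;> refine Finset.disjoint_left.mpr fun C hC hC' => ?_ <;>
    obtain ⟨g, rfl⟩ := ConjClasses.mk_surjective C
  · exact SSC.disjoint c₁₂ h₁ h₂ (mem_classSet.mp hC) (mem_classSet.mp hC')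
  · exact SSC.disjoint c₁₃ h₁ h₃ (mem_classSet.mp hC) (mem_classSet.mp hC')
  · exact SSC.disjoint c₂₃ h₂ h₃ (mem_classSet.mp hC) (mem_classSet.mp hC')

include h₁ h₂ h₃ hn₁ hn₂ hn₃ c₁₂ c₁₃ c₂₃ in
/-- Classes outside the three subgroups add to the three families. -/
theorem classes_le (L : Finset G) (hout : ∀ g ∈ L, ¬ Meets A₁ g ∧ ¬ Meets A₂ g ∧ ¬ Meets A₃ g)
    (hord : Set.InjOn orderOf (L : Set G)) :
    m₁ + m₂ + m₃ + L.card ≤ Fintype.card (IrrCharacter G) := by
  classical
  obtain ⟨d12, d13, d23⟩ := classSet_disjoint h₁ h₂ h₃ c₁₂ c₁₃ c₂₃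
  haveI : Finite (ConjClasses G) := Finite.of_surjective _ ConjClasses.mk_surjective
  haveI : Fintype (ConjClasses G) := Fintype.ofFinite _
  have hL : (L.image ConjClasses.mk).card = L.card := by
    refine Finset.card_image_of_injOn fun x hx y hy he => hord hx hy ?_
    obtain ⟨g, rfl⟩ := isConj_iff.mp (ConjClasses.mk_eq_mk_iff_isConj.mp he)
    exact (orderOf_injective (MulAut.conj g).toMonoidHom (MulAut.conj g).injective x).symm
  have dL : ∀ C ∈ classSet A₁ ∪ classSet A₂ ∪ classSet A₃, C ∉ L.image ConjClasses.mk := by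
    intro C hC hC'
    obtain ⟨g, hg, rfl⟩ := Finset.mem_image.mp hC'
    simp only [Finset.mem_union, mem_classSet] at hC
    obtain ⟨o1, o2, o3⟩ := hout g hg
    tauto
  have hu : (classSet A₁ ∪ classSet A₂ ∪ classSet A₃ ∪ L.image ConjClasses.mk).card ≤
      Fintype.card (ConjClasses G) := Finset.card_le_univ _
  rw [Finset.card_union_of_disjoint (Finset.disjoint_left.mpr dL),
    Finset.card_union_of_disjoint (Finset.disjoint_union_left.mpr ⟨d13, d23⟩),
    Finset.card_union_of_disjoint d12, hL] at hu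
  have := le_card_classSet h₁ hn₁
  have := le_card_classSet h₂ hn₂
  have := le_card_classSet h₃ hn₃
  rw [← Nat.card_eq_fintype_card (α := IrrCharacter G), Char.card_irr_eq_card_conjClasses,
    Nat.card_eq_fintype_card]
  omega

open Classical in
omit hn₁ in
theorem card_le_fibre {A : Subgroup G} {w : ℕ} (h : SSC A w) {C : ConjClasses G}
    (hC : C ∈ classSet A) :
    Nat.card G ≤ ((Finset.univ.filter fun p : G × G => orderOf p.1 = 2 ∧ orderOf p.2 = 2).filter
      fun p => ConjClasses.mk (p.1 * p.2) = C).card := by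
  obtain ⟨g₀, rfl⟩ := ConjClasses.mk_surjective C
  obtain ⟨a, ha, h1, hc⟩ := mem_classSet.mp hC
  rw [← ConjClasses.mk_eq_mk_iff_isConj.mpr hc]
  obtain ⟨z, hz, hzi⟩ := h.exists_inverting
  set P := (Finset.univ.filter fun p : G × G => orderOf p.1 = 2 ∧ orderOf p.2 = 2).filter
      fun p => ConjClasses.mk (p.1 * p.2) = ConjClasses.mk a
  have hle : ∀ y ∈ Finset.univ.filter (fun x : G => IsConj a x),
      Nat.card A ≤ (P.filter fun p => p.1 * p.2 = y).card := by
    intro y hy
    obtain ⟨g, hg⟩ := isConj_iff.mp (Finset.mem_filter.mp hy).2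
    rw [← h.card_inverting hz hzi ha h1, ← Fintype.card_coe, ← Nat.card_eq_fintype_card]
    have hua : ∀ u : G, orderOf u = 2 ∧ u * a * u⁻¹ = a⁻¹ → orderOf (u * a) = 2 := by
      intro u hu
      refine orderOf_eq_prime ?_ fun e => ?_
      · rw [pow_two]
        calc u * a * (u * a) = u * a * u⁻¹ * (u * u) * a := by group
          _ = 1 := by rw [hu.2, ← pow_two, ← hu.1, pow_orderOf_eq_one]; group
      · have e2 : a = u := by rw [eq_inv_of_mul_eq_one_right e, sq_one_inv hu.1]
        have := h.odd.of_dvd_nat (Subgroup.orderOf_dvd_natCard A ha)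
        rw [e2, hu.1] at this; exact absurd this (by decide)
    refine Nat.card_le_card_of_injective (fun u => ⟨(g * u.1 * g⁻¹, g * (u.1 * a) * g⁻¹), ?_⟩) ?_
    · simp only [P, Finset.mem_filter, Finset.mem_univ, true_and]
      have e : g * u.1 * g⁻¹ * (g * (u.1 * a) * g⁻¹) = y := by
        rw [← hg]
        calc g * u.1 * g⁻¹ * (g * (u.1 * a) * g⁻¹) = g * (u.1 * u.1) * a * g⁻¹ := by group
          _ = _ := by
            have e := pow_orderOf_eq_one u.1
            rw [u.2.1, pow_two] at e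
            rw [e, mul_one]
      refine ⟨⟨⟨?_, ?_⟩, ?_⟩, e⟩
      · rw [← MulAut.conj_apply]
        exact (orderOf_injective (MulAut.conj g).toMonoidHom (MulAut.conj g).injective u.1).trans u.2.1
      · rw [← MulAut.conj_apply]
        exact (orderOf_injective (MulAut.conj g).toMonoidHom (MulAut.conj g).injective _).trans
          (hua _ u.2)
      · rw [e, ConjClasses.mk_eq_mk_iff_isConj]
        exact (Finset.mem_filter.mp hy).2.symm
    · intro u u' he
      have := congrArg (fun p => (p.1 : G × G).1) he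
      simp only [mul_left_inj, mul_right_inj] at this
      exact Subtype.ext this
  have hmaps : ∀ p ∈ P, p.1 * p.2 ∈ Finset.univ.filter (fun x : G => IsConj a x) := by
    intro p hp
    exact Finset.mem_filter.mpr ⟨Finset.mem_univ _,
      (ConjClasses.mk_eq_mk_iff_isConj.mp (Finset.mem_filter.mp hp).2).symm⟩
  rw [Finset.card_eq_sum_card_fiberwise hmaps]
  calc Nat.card G = (Finset.univ.filter fun x : G => IsConj a x).card * Nat.card A := by
        rw [← h.centralizer_card ha h1]
        convert (Char.card_isConj_mul_card_centralizer a).symm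
    _ = ∑ _y ∈ Finset.univ.filter (fun x : G => IsConj a x), Nat.card A := by
        rw [Finset.sum_const, smul_eq_mul]
    _ ≤ _ := Finset.sum_le_sum hle

include h₁ h₂ h₃ hn₁ hn₂ hn₃ c₁₂ c₁₃ c₂₃ in
/-- Each class meeting a subgroup receives at least `|G|` pairs of involutions. -/
theorem pairs_le :
    (m₁ + m₂ + m₃) * Nat.card G ≤ Nat.card {u : G // orderOf u = 2} ^ 2 := by
  classical
  obtain ⟨d12, d13, d23⟩ := classSet_disjoint h₁ h₂ h₃ c₁₂ c₁₃ c₂₃
  set P := Finset.univ.filter fun p : G × G => orderOf p.1 = 2 ∧ orderOf p.2 = 2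
  set S := classSet A₁ ∪ classSet A₂ ∪ classSet A₃
  have hP : P.card = Nat.card {u : G // orderOf u = 2} ^ 2 := by
    rw [pow_two, Nat.card_eq_fintype_card, Fintype.card_subtype, ← Finset.card_product]
    congr 1
    ext p
    simp [P]
  have hle : ∀ C ∈ S, Nat.card G ≤ (P.filter fun p => ConjClasses.mk (p.1 * p.2) = C).card := by
    intro C hC
    simp only [S, Finset.mem_union] at hC
    rcases hC with (hC | hC) | hC
    · exact card_le_fibre h₁ hC
    · exact card_le_fibre h₂ hC
    · exact card_le_fibre h₃ hC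
  have hS : m₁ + m₂ + m₃ ≤ S.card := by
    rw [Finset.card_union_of_disjoint (Finset.disjoint_union_left.mpr ⟨d13, d23⟩),
      Finset.card_union_of_disjoint d12]
    have := le_card_classSet h₁ hn₁
    have := le_card_classSet h₂ hn₂
    have := le_card_classSet h₃ hn₃
    omega
  rw [← hP]
  calc (m₁ + m₂ + m₃) * Nat.card G ≤ S.card * Nat.card G := Nat.mul_le_mul_right _ hS
    _ = ∑ _C ∈ S, Nat.card G := by rw [Finset.sum_const, smul_eq_mul]
    _ ≤ ∑ C ∈ S, (P.filter fun p => ConjClasses.mk (p.1 * p.2) = C).card := Finset.sum_le_sum hle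
    _ ≤ P.card := by
        rw [← Finset.card_biUnion]
        · exact Finset.card_le_card (Finset.biUnion_subset.mpr fun C _ => Finset.filter_subset _ _)
        · intro C _ C' _ hne
          exact Finset.disjoint_filter.mpr fun p _ e e' => hne (e.symm.trans e')

end Three

end Cfsg.Agent.SSCSuzuki
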