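import Cfsg.Agent.SSCSuzuki.Family
import Cfsg.Agent.SSCSuzuki.Count
import Cfsg.Agent.SmallGroups.Involution

/-!
# The character table pattern of three strongly self-centralizing subgroups
-/

set_option autoImplicit false

namespace Cfsg.Agent.SSCSuzuki

open scoped ComplexConjugate
open Subgroup Cfsg

universe u

variable {G : Type u} [Group G] [Fintype G]

/-- The setting: three subgroups with indices 2, 4, 4. -/
structure Hyp (A₁ A₂ A₃ : Subgroup G) (m₁ m₂ m₃ : ℕ) : Prop where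
  s₁ : SSC A₁ 2
  s₂ : SSC A₂ 4
  s₃ : SSC A₃ 4
  z₁ : Nat.card A₁ = 2 * m₁ + 1
  z₂ : Nat.card A₂ = 4 * m₂ + 1
  z₃ : Nat.card A₃ = 4 * m₃ + 1
  h₁ : 2 ≤ m₁
  h₂ : 2 ≤ m₂
  h₃ : 2 ≤ m₃
  c₁₂ : (Nat.card A₁).Coprime (Nat.card A₂)
  c₁₃ : (Nat.card A₁).Coprime (Nat.card A₃)
  c₂₃ : (Nat.card A₂).Coprime (Nat.card A₃)
  hord : Nat.card G ≤ 3 * (Nat.card A₁ * (Nat.card A₂ * Nat.card A₃)) ^ 2
  nonab : ¬ IsMulCommutative G

theorem Hyp.swap {A₁ A₂ A₃ : Subgroup G} {m₁ m₂ m₃ : ℕ} (H : Hyp A₁ A₂ A₃ m₁ m₂ m₃) :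
    Hyp A₁ A₃ A₂ m₁ m₃ m₂ where
  s₁ := H.s₁
  s₂ := H.s₃
  s₃ := H.s₂
  z₁ := H.z₁
  z₂ := H.z₃
  z₃ := H.z₂
  h₁ := H.h₁
  h₂ := H.h₃
  h₃ := H.h₂
  c₁₂ := H.c₁₃
  c₁₃ := H.c₁₂
  c₂₃ := H.c₂₃.symm
  hord := by rw [mul_comm (Nat.card A₃)]; exact H.hord
  nonab := H.nonab

/-- The normalised data of the first subgroup. -/
structure One (A : Subgroup G) (m : ℕ) (fam : Finset (IrrCharacter G)) (ε : ℤ)
    (c : IrrCharacter G → ℤ) (χ₁ : IrrCharacter G) (δ : ℤ) : Prop where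
  F : Fam A 2 m fam ε 0 c
  triv_notMem : Char.trivialIrr G ∉ fam
  c_triv : c (Char.trivialIrr G) = 1
  notMem : χ₁ ∉ fam
  ne_triv : χ₁ ≠ Char.trivialIrr G
  val : c χ₁ = δ
  unit : δ = 1 ∨ δ = -1
  others : ∀ χ, χ ∉ fam → χ ≠ χ₁ → χ ≠ Char.trivialIrr G → c χ = 0

section Fam

variable {A : Subgroup G} {w m : ℕ} {fam : Finset (IrrCharacter G)} {ε e : ℤ}
  {c : IrrCharacter G → ℤ}

theorem Fam.triv_notMem (F : Fam A w m fam ε e c) : Char.trivialIrr G ∉ fam := fun hm =>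
  F.nonconst _ hm ⟨1, fun a _ _ => by simp [Char.trivialIrr]⟩

theorem Fam.c_triv (F : Fam A w m fam ε e c) (h : SSC A w) : c (Char.trivialIrr G) = 1 := by
  obtain ⟨a, ha, h1⟩ := h.exists_ne_one
  have e := F.nonfam _ F.triv_notMem a ha h1
  simp only [Char.trivialIrr] at e
  exact_mod_cast e.symm

theorem Fam.two_members (F : Fam A w m fam ε e c) {X : IrrCharacter G} (hX : X ∈ fam) :
    ∃ Y ∈ fam, Y ≠ X := by
  have h2 := F.m2
  rw [← F.card] at h2
  exact Finset.exists_mem_ne (by omega) X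

/-- Families of subgroups of coprime order have no common member. -/
theorem Fam.disjoint {B : Subgroup G} {w' m' : ℕ} {fam' : Finset (IrrCharacter G)} {ε' e' : ℤ}
    {c' : IrrCharacter G → ℤ} (F : Fam A w m fam ε e c) (F' : Fam B w' m' fam' ε' e' c')
    (h : SSC A w) (h' : SSC B w') (hcop : (Nat.card A).Coprime (Nat.card B)) :
    Disjoint fam fam' := by
  refine Finset.disjoint_left.mpr fun X hX hX' => ?_
  obtain ⟨Y, hY, hne⟩ := F.two_members hX
  have hnm : ∀ b, b ∈ B → b ≠ 1 → ¬ Meets A b := fun b hb h1 hm =>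
    SSC.disjoint hcop h h' hm (meets_self hb h1)
  by_cases hY' : Y ∈ fam'
  · refine hne (Subtype.ext (funext fun y => ?_))
    by_cases hy : Meets A y
    · exact F'.same Y hY' X hX' y fun hy' => SSC.disjoint hcop h h' hy hy'
    · exact F.same Y hY X hX y hy
  · refine F'.nonconst X hX' ⟨c' Y, fun b hb h1 => ?_⟩
    rw [F.same X hX Y hY b (hnm b hb h1), F'.nonfam Y hY' b hb h1]

end Fam

/-- Relabelling in the case of two exceptional characters. -/
theorem Fam.relabel {A : Subgroup G} {w : ℕ} {fam : Finset (IrrCharacter G)} {ε : ℤ}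
    {c : IrrCharacter G → ℤ} (F : Fam A w 2 fam ε ε c) : Fam A w 2 fam (-ε) 0 c := by
  refine ⟨by rcases F.eps with h | h <;> omega, F.card, F.size, F.m2, F.nonfam,
    fun a ha h1 => ?_, ?_, F.same, F.nonconst⟩
  · rw [F.sum a ha h1]; push_cast; ring
  · rw [← F.norm]
    rcases F.eps with rfl | rfl <;> norm_num

theorem exists_one {A : Subgroup G} {m : ℕ} (h : SSC A 2) (hsz : Nat.card A = 2 * m + 1)
    (hm : 2 ≤ m) :
    ∃ (fam : Finset (IrrCharacter G)) (ε : ℤ) (c : IrrCharacter G → ℤ) (χ₁ : IrrCharacter G) (δ : ℤ),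
      One A m fam ε c χ₁ δ := by
  classical
  obtain ⟨m', fam, ε, e, c, F⟩ := exists_fam h (by omega)
  obtain rfl : m' = m := by have := F.size; omega
  have hmem : Char.trivialIrr G ∈ famᶜ := Finset.mem_compl.mpr F.triv_notMem
  have hnorm := F.norm
  rw [← Finset.add_sum_erase _ _ hmem, F.c_triv h] at hnorm
  have hS0 : (0 : ℤ) ≤ ∑ χ ∈ famᶜ.erase (Char.trivialIrr G), c χ ^ 2 :=
    Finset.sum_nonneg fun _ _ => sq_nonneg _
  have hQ0 := F.Q_nonneg
  have hm2 : (2 : ℤ) ≤ m' := by exact_mod_cast hm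
  -- `Q = 0` or `S = 0`
  have hcases : ((m' : ℤ) * e ^ 2 - 2 * ε * e = 0 ∧ ∑ χ ∈ famᶜ.erase (Char.trivialIrr G), c χ ^ 2 = 1)
      ∨ ((m' : ℤ) * e ^ 2 - 2 * ε * e = 1 ∧
          ∑ χ ∈ famᶜ.erase (Char.trivialIrr G), c χ ^ 2 = 0) := by
    push_cast at hnorm; omega
  rcases hcases with ⟨hQ, hS⟩ | ⟨hQ, hS⟩
  · obtain ⟨χ₁, hχ₁, hne⟩ : ∃ χ ∈ famᶜ.erase (Char.trivialIrr G), c χ ≠ 0 := by
      by_contra hcon
      push Not at hcon
      rw [Finset.sum_eq_zero fun χ hχ => by rw [hcon χ hχ]; ring] at hS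
      norm_num at hS
    rw [← Finset.add_sum_erase _ _ hχ₁] at hS
    have h0 : (0 : ℤ) ≤ ∑ χ ∈ (famᶜ.erase (Char.trivialIrr G)).erase χ₁, c χ ^ 2 :=
      Finset.sum_nonneg fun _ _ => sq_nonneg _
    have h1 : 1 ≤ c χ₁ ^ 2 := by
      have := sq_pos_of_ne_zero hne; omega
    have hother : ∑ χ ∈ (famᶜ.erase (Char.trivialIrr G)).erase χ₁, c χ ^ 2 = 0 := by omega
    have hoth : ∀ χ, χ ∉ fam → χ ≠ χ₁ → χ ≠ Char.trivialIrr G → c χ = 0 := fun χ a b d =>
      sq_eq_zero_iff.mp ((Finset.sum_eq_zero_iff_of_nonneg fun _ _ => sq_nonneg _).mp hother χ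
        (by simp [a, b, d]))
    have hunit : c χ₁ = 1 ∨ c χ₁ = -1 := sq_eq_one_iff.mp (by omega)
    have hnm : χ₁ ∉ fam := Finset.mem_compl.mp (Finset.mem_of_mem_erase hχ₁)
    have hnt : χ₁ ≠ Char.trivialIrr G := Finset.ne_of_mem_erase hχ₁
    have he : e = 0 ∨ (m' = 2 ∧ e = ε) := by
      by_cases he0 : e = 0
      · exact Or.inl he0
      right
      have h2 : (m' : ℤ) * e = 2 * ε := mul_right_cancel₀ he0 (by linear_combination hQ)
      rcases F.eps with rfl | rfl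
      · have : (m' : ℤ) ∣ 2 := ⟨e, by linarith⟩
        have := Int.le_of_dvd (by norm_num) this
        have hm' : m' = 2 := by omega
        subst hm'; push_cast at h2; exact ⟨rfl, by omega⟩
      · have : (m' : ℤ) ∣ 2 := ⟨-e, by linarith⟩
        have := Int.le_of_dvd (by norm_num) this
        have hm' : m' = 2 := by omega
        subst hm'; push_cast at h2; exact ⟨rfl, by omega⟩
    rcases he with rfl | ⟨hm', rfl⟩
    · exact ⟨fam, ε, c, χ₁, c χ₁, F, F.triv_notMem, F.c_triv h, hnm, hnt, rfl, hunit, hoth⟩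
    · subst hm'
      exact ⟨fam, -_, c, χ₁, c χ₁, F.relabel, F.triv_notMem, F.c_triv h, hnm, hnt, rfl, hunit, hoth⟩
  · exfalso
    have hz : ∀ χ ∈ famᶜ.erase (Char.trivialIrr G), c χ = 0 := fun χ hχ =>
      sq_eq_zero_iff.mp ((Finset.sum_eq_zero_iff_of_nonneg fun _ _ => sq_nonneg _).mp hS χ hχ)
    -- `e` divides one
    have he : e = 1 ∨ e = -1 := Int.isUnit_iff.mp (isUnit_of_dvd_one
      ⟨(m' : ℤ) * e - 2 * ε, by linear_combination -hQ⟩)
    have hme : (m' : ℤ) * e - ε = 2 * ε ∧ e = ε := by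
      rcases he with rfl | rfl <;> rcases F.eps with rfl | rfl <;> constructor <;> linarith
    obtain ⟨X, hX⟩ : fam.Nonempty := Finset.card_pos.mp (by rw [F.card]; omega)
    have horth := F.orth h (not_meets_one A) (v := (deg X : ℂ)) fun χ hχ => by
      rw [F.same χ hχ X hX 1 (not_meets_one A), (deg_spec X).2]
    rw [← Finset.add_sum_erase _ _ hmem, F.c_triv h, Finset.sum_eq_zero fun χ hχ => by
      rw [hz χ hχ]; simp, hme.1] at horth
    simp only [Char.trivialIrr] at horth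
    have h4 : 1 + 2 * ε * (deg X : ℤ) = 0 := by
      apply Int.cast_injective (α := ℂ)
      push_cast
      push_cast at horth
      linear_combination horth
    rcases F.eps with rfl | rfl <;> omega

section One

variable {A : Subgroup G} {m : ℕ} {fam : Finset (IrrCharacter G)} {ε : ℤ}
  {c : IrrCharacter G → ℤ} {χ₁ : IrrCharacter G} {δ : ℤ}

open Classical in
theorem One.sum_compl (O : One A m fam ε c χ₁ δ) {M : Type*} [AddCommMonoid M]
    (g : IrrCharacter G → M) (hg : ∀ χ, χ ∉ fam → χ ≠ χ₁ → χ ≠ Char.trivialIrr G → g χ = 0) :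
    ∑ χ ∈ famᶜ, g χ = g (Char.trivialIrr G) + g χ₁ := by
  rw [← Finset.sum_pair O.ne_triv.symm]
  refine (Finset.sum_subset ?_ fun χ hχ hn => ?_).symm
  · intro χ hχ
    simp only [Finset.mem_insert, Finset.mem_singleton] at hχ
    rcases hχ with rfl | rfl <;> simp [O.triv_notMem, O.notMem]
  · simp only [Finset.mem_insert, Finset.mem_singleton, not_or] at hn
    exact hg χ (Finset.mem_compl.mp hχ) hn.2 hn.1

/-- The values of the exceptional characters away from `A`. -/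
theorem One.value (O : One A m fam ε c χ₁ δ) (h : SSC A 2) {X : IrrCharacter G} (hX : X ∈ fam)
    {y : G} (hy : ¬ Meets A y) :
    (X : G → ℂ) y = (ε : ℂ) * (1 + (δ : ℂ) * (χ₁ : G → ℂ) y) := by
  classical
  have := O.F.orth h hy (v := (X : G → ℂ) y) fun χ hχ => O.F.same χ hχ X hX y hy
  rw [O.sum_compl _ fun χ a b d => by rw [O.others χ a b d]; simp, O.c_triv, O.val] at this
  simp only [Char.trivialIrr] at this
  have hsq : (ε : ℂ) * ε = 1 := by rcases O.F.eps with h | h <;> simp [h]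
  push_cast at this
  linear_combination -(ε : ℂ) * this - (X : G → ℂ) y * hsq

end One

/-- The integer value of a character at an involution. -/
theorem exists_int_invol (χ : IrrCharacter G) {t : G} (ht : orderOf t = 2) :
    ∃ v : ℤ, (χ : G → ℂ) t = v := by
  obtain ⟨v, hv, -⟩ := SmallGroups.Exceptional.exists_involution_value (Char.isCharacter_of_irr χ.2)
    (deg_spec χ).2 ht
  exact ⟨v, hv⟩

section Two

variable {A B : Subgroup G} {m : ℕ} {fam : Finset (IrrCharacter G)} {ε : ℤ}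
  {c : IrrCharacter G → ℤ} {χ₁ : IrrCharacter G} {δ : ℤ} {m' : ℕ}
  {fam' : Finset (IrrCharacter G)} {ε' e' : ℤ} {c' : IrrCharacter G → ℤ}

/-- The non-exceptional character is not exceptional for another subgroup. -/
theorem One.notMem_other (O : One A m fam ε c χ₁ δ) (F' : Fam B 4 m' fam' ε' e' c') (h : SSC A 2)
    (h' : SSC B 4) (hcop : (Nat.card A).Coprime (Nat.card B)) : χ₁ ∉ fam' := by
  intro hm
  obtain ⟨X, hX⟩ : fam.Nonempty := Finset.card_pos.mp (by rw [O.F.card]; exact lt_of_lt_of_le two_pos O.F.m2)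
  have hX' : X ∉ fam' := Finset.disjoint_left.mp (O.F.disjoint F' h h' hcop) hX
  refine F'.nonconst χ₁ hm ⟨δ * (ε * c' X - 1), fun b hb h1 => ?_⟩
  have e := O.value h hX (y := b) fun hmb => SSC.disjoint hcop h h' hmb (meets_self hb h1)
  rw [F'.nonfam X hX' b hb h1] at e
  have hεsq : (ε : ℂ) * ε = 1 := by rcases O.F.eps with h | h <;> simp [h]
  have hδsq : (δ : ℂ) * δ = 1 := by rcases O.unit with h | h <;> simp [h]
  push_cast
  linear_combination (-(δ : ℂ) * ε) * e - (δ : ℂ) * (1 + (δ : ℂ) * (χ₁ : G → ℂ) b) * hεsq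
    - (χ₁ : G → ℂ) b * hδsq

/-- The value of the first family on another subgroup. -/
theorem One.c_other (O : One A m fam ε c χ₁ δ) (F' : Fam B 4 m' fam' ε' e' c') (h : SSC A 2)
    (h' : SSC B 4) (hcop : (Nat.card A).Coprime (Nat.card B)) {X : IrrCharacter G} (hX : X ∈ fam) :
    c' X = ε * (1 + δ * c' χ₁) := by
  obtain ⟨b, hb, h1⟩ := h'.exists_ne_one
  have e := O.value h hX (y := b) fun hmb => SSC.disjoint hcop h h' hmb (meets_self hb h1)
  rw [F'.nonfam X (Finset.disjoint_left.mp (O.F.disjoint F' h h' hcop) hX) b hb h1,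
    F'.nonfam χ₁ (O.notMem_other F' h h' hcop) b hb h1] at e
  exact_mod_cast e

open Classical in
/-- The parts of the column norm and the two cases. -/
theorem One.norm_split (O : One A m fam ε c χ₁ δ) (F' : Fam B 4 m' fam' ε' e' c') (h : SSC A 2)
    (h' : SSC B 4) (hcop : (Nat.card A).Coprime (Nat.card B)) :
    1 + (δ * c' χ₁) ^ 2 + (m : ℤ) * (1 + δ * c' χ₁) ^ 2 +
      ∑ χ ∈ ((famᶜ.erase (Char.trivialIrr G)).erase χ₁) \ fam', c' χ ^ 2 +
      ((m' : ℤ) * e' ^ 2 - 2 * ε' * e') = 4 ∧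
    (δ * c' χ₁ = -1 ∨ (δ * c' χ₁ = 0 ∧ m ≤ 3)) := by
  have hn := F'.norm
  have hδsq : δ ^ 2 = 1 := by rcases O.unit with h | h <;> simp [h]
  have hεsq : ε ^ 2 = 1 := by rcases O.F.eps with h | h <;> simp [h]
  have hd := Finset.disjoint_left.mp (O.F.disjoint F' h h' hcop)
  have h1 : fam'ᶜ = insert (Char.trivialIrr G) (insert χ₁
      (fam ∪ (((famᶜ.erase (Char.trivialIrr G)).erase χ₁) \ fam'))) := by
    ext χ
    simp only [Finset.mem_compl, Finset.mem_insert, Finset.mem_union, Finset.mem_sdiff,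
      Finset.mem_erase]
    constructor
    · tauto
    · rintro (rfl | rfl | hX | hX)
      · exact F'.triv_notMem
      · exact O.notMem_other F' h h' hcop
      · exact hd hX
      · exact hX.2
  rw [h1, Finset.sum_insert (by simp [O.ne_triv.symm, O.triv_notMem]),
    Finset.sum_insert (by simp [O.notMem]), Finset.sum_union (by
      refine Finset.disjoint_left.mpr fun χ hχ hχ' => ?_
      simp only [Finset.mem_sdiff, Finset.mem_erase, Finset.mem_compl] at hχ'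
      tauto),
    Finset.sum_congr rfl (fun X hX => by rw [O.c_other F' h h' hcop hX]), Finset.sum_const,
    O.F.card, F'.c_triv h', nsmul_eq_mul] at hn
  have key : 1 + (δ * c' χ₁) ^ 2 + (m : ℤ) * (1 + δ * c' χ₁) ^ 2 +
      ∑ χ ∈ ((famᶜ.erase (Char.trivialIrr G)).erase χ₁) \ fam', c' χ ^ 2 +
      ((m' : ℤ) * e' ^ 2 - 2 * ε' * e') = 4 := by
    push_cast at hn
    linear_combination hn + (c' χ₁) ^ 2 * hδsq - ((m : ℤ) * (1 + δ * c' χ₁) ^ 2) * hεsq
  refine ⟨key, ?_⟩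
  obtain ⟨u, hu⟩ : ∃ u, u = δ * c' χ₁ := ⟨_, rfl⟩
  rw [← hu] at key ⊢
  have hS : (0 : ℤ) ≤ ∑ χ ∈ ((famᶜ.erase (Char.trivialIrr G)).erase χ₁) \ fam', c' χ ^ 2 :=
    Finset.sum_nonneg fun _ _ => sq_nonneg _
  have hQ := F'.Q_nonneg
  have hm : (2 : ℤ) ≤ m := by exact_mod_cast O.F.m2
  have h2 := mul_le_mul_of_nonneg_right hm (sq_nonneg (1 + u))
  have hu1 : -1 ≤ u ∧ u ≤ 0 := by constructor <;> nlinarith
  rcases (show u = -1 ∨ u = 0 by omega) with rfl | rfl
  · exact Or.inl rfl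
  · refine Or.inr ⟨rfl, ?_⟩
    push_cast at key
    omega

/-- The congruence of the degree. -/
theorem One.dvd_other (O : One A m fam ε c χ₁ δ) (F' : Fam B 4 m' fam' ε' e' c') (h : SSC A 2)
    (h' : SSC B 4) (hcop : (Nat.card A).Coprime (Nat.card B)) :
    (Nat.card B : ℤ) ∣ δ * deg χ₁ - δ * c' χ₁ := by
  rw [← mul_sub]
  exact Dvd.dvd.mul_left (dvd_deg_sub h' χ₁ fun b hb h1 =>
    F'.nonfam χ₁ (O.notMem_other F' h h' hcop) b hb h1) δ

end Two

end Cfsg.Agent.SSCSuzuki
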