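import Cfsg.Agent.SSCSuzuki.Chars
import Cfsg.Agent.SSCSuzuki.Arith
import Cfsg.Agent.SSCSuzuki.CaseTwo

/-!
# The numerical invariants of the configuration
-/

set_option autoImplicit false

namespace Cfsg.Agent.SSCSuzuki

open scoped ComplexConjugate
open Subgroup Cfsg

universe u

variable {G : Type u} [Group G] [Fintype G]

theorem not_meets_invol {A : Subgroup G} {w : ℕ} (h : SSC A w) {t : G} (ht : orderOf t = 2) :
    ¬ Meets A t := by
  intro hm
  have := h.odd.of_dvd_nat (orderOf_dvd_of_meets hm).1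
  rw [ht] at this
  exact absurd this (by decide)

theorem deg_dvd_card (χ : IrrCharacter G) : deg χ ∣ Nat.card G := by
  obtain ⟨d, -, hd, hdvd⟩ := Char.irr_degree_dvd_card χ.2
  have : deg χ = d := by exact_mod_cast (deg_spec χ).2.symm.trans hd
  exact this ▸ hdvd

theorem deg_triv : deg (Char.trivialIrr G) = 1 := by
  have h := (deg_spec (Char.trivialIrr G)).2
  simp only [Char.trivialIrr] at h
  exact_mod_cast h.symm

/-- A partial sum of squared degrees is at most the group order. -/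
theorem sum_deg_sq_le (S : Finset (IrrCharacter G)) : ∑ χ ∈ S, deg χ ^ 2 ≤ Nat.card G := by
  classical
  have e : ∑ χ : IrrCharacter G, deg χ ^ 2 = Nat.card G := by
    apply Nat.cast_injective (R := ℂ)
    rw [← Char.sum_irr_degree_sq, Nat.cast_sum]
    exact Finset.sum_congr rfl fun χ _ => by rw [(deg_spec χ).2]; push_cast; rfl
  exact e ▸ Finset.sum_le_sum_of_subset (Finset.subset_univ S)

section One

variable {A : Subgroup G} {m : ℕ} {fam : Finset (IrrCharacter G)} {ε : ℤ}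
  {c : IrrCharacter G → ℤ} {χ₁ : IrrCharacter G} {δ : ℤ}

theorem One.deg_eq (O : One A m fam ε c χ₁ δ) (h : SSC A 2) {X : IrrCharacter G} (hX : X ∈ fam) :
    (deg X : ℤ) = ε * (1 + δ * deg χ₁) := by
  have e := O.value h hX (not_meets_one A)
  rw [(deg_spec X).2, (deg_spec χ₁).2] at e
  exact_mod_cast e

theorem One.exists_mem (O : One A m fam ε c χ₁ δ) : ∃ X, X ∈ fam :=
  Finset.card_pos.mp (by rw [O.F.card]; exact lt_of_lt_of_le two_pos O.F.m2)

theorem One.degree_facts (O : One A m fam ε c χ₁ δ) (h : SSC A 2) :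
    δ * (deg χ₁ : ℤ) ≠ 0 ∧ δ * (deg χ₁ : ℤ) + 1 ≠ 0 ∧
      (Nat.card A : ℤ) ∣ δ * deg χ₁ - 1 ∧ δ * (deg χ₁ : ℤ) ∣ (Nat.card G : ℤ) ∧
        δ * (deg χ₁ : ℤ) + 1 ∣ (Nat.card G : ℤ) := by
  obtain ⟨X, hX⟩ := O.exists_mem
  have e := O.deg_eq h hX
  have h1 := (deg_spec χ₁).1
  have hXp := (deg_spec X).1
  have hδ : δ * δ = 1 := by rcases O.unit with h | h <;> simp [h]
  refine ⟨?_, ?_, ?_, ?_, ?_⟩
  · rcases O.unit with rfl | rfl <;> omega
  · rcases O.F.eps with rfl | rfl <;> omega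
  · rw [show δ * (deg χ₁ : ℤ) - 1 = δ * (deg χ₁ - δ) by linear_combination hδ]
    refine Dvd.dvd.mul_left (dvd_deg_sub h χ₁ fun a ha h1' => ?_) δ
    rw [O.F.nonfam χ₁ O.notMem a ha h1', O.val]
  · have h2 := Int.natCast_dvd_natCast.mpr (deg_dvd_card χ₁)
    rcases O.unit with rfl | rfl
    · simpa using h2
    · simpa using h2
  · have h2 := Int.natCast_dvd_natCast.mpr (deg_dvd_card X)
    rw [e] at h2
    rw [add_comm]
    exact (dvd_mul_left _ ε).trans h2

theorem One.value_invol (O : One A m fam ε c χ₁ δ) (h : SSC A 2) {t : G} (ht : orderOf t = 2)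
    {T : ℤ} (hT : (δ : ℂ) * (χ₁ : G → ℂ) t = T) {X : IrrCharacter G} (hX : X ∈ fam) :
    (X : G → ℂ) t = ((ε * (1 + T) : ℤ) : ℂ) := by
  rw [O.value h hX (not_meets_invol h ht), hT]; push_cast; rfl

theorem One.formula_value (O : One A m fam ε c χ₁ δ) (h : SSC A 2) {t t' : G} (ht : orderOf t = 2)
    (ht' : orderOf t' = 2) {T T' : ℤ} (hT : (δ : ℂ) * (χ₁ : G → ℂ) t = T)
    (hT' : (δ : ℂ) * (χ₁ : G → ℂ) t' = T') {z : G} (hz : orderOf z = 2)
    (hzi : ∀ a ∈ A, z * a * z⁻¹ = a⁻¹) [Decidable (IsConj t z ∧ IsConj t' z)] :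
    (((if IsConj t z ∧ IsConj t' z then Nat.card A else 0) : ℕ) : ℤ) *
        ((Nat.card (centralizer ({t} : Set G)) : ℤ) * Nat.card (centralizer ({t'} : Set G))) *
          ((δ * deg χ₁) * (δ * deg χ₁ + 1)) =
      (Nat.card G : ℤ) * ((δ * deg χ₁ - T) * (δ * deg χ₁ - T')) := by
  classical
  obtain ⟨a, ha, h1⟩ := h.exists_ne_one
  obtain ⟨X, hX⟩ := O.exists_mem
  have hf := formula h hz hzi ha h1 ht ht'
  have hd0 : (deg χ₁ : ℂ) ≠ 0 := Nat.cast_ne_zero.mpr (deg_spec χ₁).1.ne'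
  have hX0 : (deg X : ℂ) ≠ 0 := Nat.cast_ne_zero.mpr (deg_spec X).1.ne'
  have hεsq : (ε : ℂ) * ε = 1 := by rcases O.F.eps with h | h <;> simp [h]
  have hδsq : (δ : ℂ) * δ = 1 := by rcases O.unit with h | h <;> simp [h]
  rw [← Finset.sum_compl_add_sum fam, O.sum_compl _ fun χ a' b d => by
    rw [O.F.nonfam χ a' a ha h1, O.others χ a' b d]; simp] at hf
  have hsum : ∑ χ ∈ fam, (χ : G → ℂ) t * (χ : G → ℂ) t' * conj ((χ : G → ℂ) a) / (χ : G → ℂ) 1 =
      ((ε * (1 + T) : ℤ) : ℂ) * ((ε * (1 + T') : ℤ) : ℂ) * (-(ε : ℂ)) / (deg X : ℂ) := by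
    rw [Finset.sum_congr rfl (fun χ hχ => by
      rw [O.value_invol h ht hT hχ, O.value_invol h ht' hT' hχ,
        O.F.same χ hχ X hX 1 (not_meets_one A), (deg_spec X).2]), ← Finset.sum_div, ← Finset.mul_sum,
      ← map_sum, O.F.sum a ha h1]
    congr 2
    simp
  rw [hsum, O.F.nonfam χ₁ O.notMem a ha h1, O.val, map_intCast, (deg_spec χ₁).2] at hf
  simp only [Char.trivialIrr, map_one, mul_one, div_one] at hf
  have eX : (deg X : ℂ) = ((ε * (1 + δ * deg χ₁) : ℤ) : ℂ) := by exact_mod_cast O.deg_eq h hX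
  apply Int.cast_injective (α := ℂ)
  push_cast at hf eX ⊢
  rw [hf]
  field_simp
  rw [eX, ← hT, ← hT']
  ring_nf
  have e2 : (ε : ℂ) ^ 2 = 1 := by rw [sq]; exact hεsq
  have e3 : (ε : ℂ) ^ 3 = ε := by linear_combination (ε : ℂ) * hεsq
  have e4 : (δ : ℂ) ^ 2 = 1 := by rw [sq]; exact hδsq
  have e5 : (δ : ℂ) ^ 3 = δ := by linear_combination (δ : ℂ) * hδsq
  have e6 : (δ : ℂ) ^ 4 = 1 := by linear_combination ((δ : ℂ) * δ + 1) * hδsq
  simp only [e3, e4, e5, e6]
  ring_nf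

theorem One.T_ne (O : One A m fam ε c χ₁ δ) [IsSimpleGroup G] (hG : ¬ IsMulCommutative G) {t : G}
    (ht : orderOf t = 2) {T : ℤ} (hT : (δ : ℂ) * (χ₁ : G → ℂ) t = T) : δ * (deg χ₁ : ℤ) - T ≠ 0 := by
  intro e
  refine norm_ne_degree hG O.ne_triv (t := t) (fun e1 => by simp [e1] at ht) ?_
  have hv : (χ₁ : G → ℂ) t = (deg χ₁ : ℂ) := by
    have hδ : (δ : ℂ) ≠ 0 := by rcases O.unit with h | h <;> simp [h]
    apply mul_left_cancel₀ hδ
    rw [hT, show T = δ * (deg χ₁ : ℤ) by linarith]; push_cast; rfl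
  rw [hv, (deg_spec χ₁).2, Complex.norm_natCast, Complex.natCast_re]

/-- The lower bound for the order of the centralizer of an involution. -/
theorem One.col_invol (O : One A m fam ε c χ₁ δ) (h : SSC A 2) {t : G} (ht : orderOf t = 2)
    {T : ℤ} (hT : (δ : ℂ) * (χ₁ : G → ℂ) t = T) :
    ∃ v : IrrCharacter G → ℤ, (∀ χ : IrrCharacter G, (χ : G → ℂ) t = v χ) ∧
      ∑ χ, v χ ^ 2 = (Nat.card (centralizer ({t} : Set G)) : ℤ) ∧
      v (Char.trivialIrr G) = 1 ∧ v χ₁ = δ * T ∧ ∀ X ∈ fam, v X = ε * (1 + T) := by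
  classical
  choose v hv using fun χ : IrrCharacter G => exists_int_invol χ ht
  refine ⟨v, hv, ?_, ?_, ?_, fun X hX => ?_⟩
  · apply Int.cast_injective (α := ℂ)
    push_cast
    have hs := Char.sum_irr_mul_conj t t
    rw [if_pos (IsConj.refl t)] at hs
    rw [← hs]
    exact Finset.sum_congr rfl fun χ _ => by rw [hv χ, map_intCast, sq]
  · have := hv (Char.trivialIrr G)
    simp only [Char.trivialIrr] at this
    exact_mod_cast this.symm
  · have e := hv χ₁
    have hδsq : (δ : ℂ) * δ = 1 := by rcases O.unit with h | h <;> simp [h]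
    apply Int.cast_injective (α := ℂ)
    push_cast
    rw [← e, ← hT]
    linear_combination -(χ₁ : G → ℂ) t * hδsq
  · exact_mod_cast (hv X).symm.trans (O.value_invol h ht hT hX)

end One

/-- Numerical data common to both cases. -/
structure Num (N M n₁ m₁ : ℕ) (D T : ℤ) (c w : ℕ) (P : ℕ) : Prop where
  hN : N = n₁ * P
  hM : M = c * w
  odd : Odd w
  two : 2 ∣ c
  pos : 0 < c
  cop : (c * w).Coprime N
  le : c * w ≤ 3 * n₁ * P
  key : (w : ℤ) * P * (D - T) ^ 2 = c * D * (D + 1)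
  syl : (n₁ : ℤ) ∣ ((c * w * P : ℕ) : ℤ) - 2

variable {A₁ A₂ A₃ : Subgroup G} {m₁ m₂ m₃ : ℕ}

theorem Hyp.exists_M (H : Hyp A₁ A₂ A₃ m₁ m₂ m₃) :
    ∃ M : ℕ, Nat.card G = Nat.card A₁ * (Nat.card A₂ * Nat.card A₃) * M ∧
      M.Coprime (Nat.card A₁ * (Nat.card A₂ * Nat.card A₃)) ∧
      M ≤ 3 * Nat.card A₁ * (Nat.card A₂ * Nat.card A₃) := by
  obtain ⟨M, hM⟩ : Nat.card A₁ * (Nat.card A₂ * Nat.card A₃) ∣ Nat.card G :=
    Nat.Coprime.mul_dvd_of_dvd_of_dvd (Nat.Coprime.mul_right H.c₁₂ H.c₁₃) (card_subgroup_dvd_card A₁)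
      (Nat.Coprime.mul_dvd_of_dvd_of_dvd H.c₂₃ (card_subgroup_dvd_card A₂) (card_subgroup_dvd_card A₃))
  have p1 : 0 < Nat.card A₁ := Nat.card_pos
  have p2 : 0 < Nat.card A₂ := Nat.card_pos
  have p3 : 0 < Nat.card A₃ := Nat.card_pos
  refine ⟨M, hM, ?_, ?_⟩
  · have key : ∀ {A : Subgroup G} {w : ℕ}, SSC A w → ∀ r, Nat.card G = Nat.card A * (r * M) →
        M.Coprime (Nat.card A) := by
      intro A w h r e
      have : A.index = r * M := Nat.eq_of_mul_eq_mul_left Nat.card_pos (A.card_mul_index.trans e)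
      exact ((this ▸ h.coprime_index).coprime_mul_left_right).symm
    refine Nat.Coprime.mul_right (key H.s₁ (Nat.card A₂ * Nat.card A₃) (by rw [hM]; ring))
      (Nat.Coprime.mul_right (key H.s₂ (Nat.card A₁ * Nat.card A₃) (by rw [hM]; ring))
        (key H.s₃ (Nat.card A₁ * Nat.card A₂) (by rw [hM]; ring)))
  · have h1 := H.hord
    rw [hM, pow_two, ← mul_assoc 3, mul_comm (3 * (_ : ℕ))] at h1
    have := Nat.le_of_mul_le_mul_left h1 (Nat.mul_pos p1 (Nat.mul_pos p2 p3))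
    linarith

theorem Hyp.exists_num [IsSimpleGroup G] (H : Hyp A₁ A₂ A₃ m₁ m₂ m₃)
    {fam : Finset (IrrCharacter G)} {ε : ℤ} {c₁ : IrrCharacter G → ℤ} {χ₁ : IrrCharacter G} {δ : ℤ}
    (O : One A₁ m₁ fam ε c₁ χ₁ δ) :
    ∃ (t : G) (T : ℤ) (c w : ℕ), orderOf t = 2 ∧ (δ : ℂ) * (χ₁ : G → ℂ) t = T ∧
      (∀ u : G, orderOf u = 2 → Nat.card (centralizer ({u} : Set G)) = c) ∧
      Nat.card {u : G // orderOf u = 2} * c = Nat.card G ∧
      Nat.card G = Nat.card A₁ * (Nat.card A₂ * Nat.card A₃) * (c * w) ∧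
      Num (Nat.card A₁ * (Nat.card A₂ * Nat.card A₃)) (c * w) (Nat.card A₁) m₁ (δ * deg χ₁) T c w
        (Nat.card A₂ * Nat.card A₃) := by
  classical
  obtain ⟨hD0, hD1, -, -, -⟩ := O.degree_facts H.s₁
  obtain ⟨z, hz, hzi⟩ := H.s₁.exists_inverting
  have hTex : ∀ u : G, orderOf u = 2 → ∃ T : ℤ, (δ : ℂ) * (χ₁ : G → ℂ) u = T := by
    intro u hu
    obtain ⟨v, hv⟩ := exists_int_invol χ₁ hu
    exact ⟨δ * v, by rw [hv]; push_cast; rfl⟩
  obtain ⟨T, hT⟩ := hTex z hz
  have hconj : ∀ u : G, orderOf u = 2 → IsConj z u := by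
    intro u hu
    by_contra hne
    obtain ⟨U, hU⟩ := hTex u hu
    have e := O.formula_value H.s₁ hz hu hT hU hz hzi
    rw [if_neg fun hc => hne hc.2.symm, Nat.cast_zero, zero_mul, zero_mul] at e
    rcases mul_eq_zero.mp e.symm with h0 | h0
    · have := Nat.card_pos (α := G); omega
    · rcases mul_eq_zero.mp h0 with h0 | h0
      · exact O.T_ne H.nonab hz hT h0
      · exact O.T_ne H.nonab hu hU h0
  set c := Nat.card (centralizer ({z} : Set G)) with hc
  have hcall : ∀ u : G, orderOf u = 2 → Nat.card (centralizer ({u} : Set G)) = c := by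
    intro u hu
    obtain ⟨g, rfl⟩ := isConj_iff.mp (hconj u hu)
    refine Nat.card_congr ((MulAut.conj g⁻¹).toEquiv.subtypeEquiv fun x => ?_)
    rw [mem_centralizer_singleton_iff, mem_centralizer_singleton_iff]
    simp only [MulEquiv.toEquiv_eq_coe, EquivLike.coe_coe, MulAut.conj_apply, inv_inv]
    constructor <;> intro e
    · calc g⁻¹ * x * g * z = g⁻¹ * (x * (g * z * g⁻¹)) * g := by group
        _ = g⁻¹ * (g * z * g⁻¹ * x) * g := by rw [e]
        _ = _ := by group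
    · calc x * (g * z * g⁻¹) = g * (g⁻¹ * x * g * z) * g⁻¹ := by group
        _ = g * (z * (g⁻¹ * x * g)) * g⁻¹ := by rw [e]
        _ = _ := by group
  have hI : Nat.card {u : G // orderOf u = 2} * c = Nat.card G := by
    rw [← class_card_mul z, Nat.card_congr (Equiv.subtypeEquivRight fun u => ?_)]
    constructor
    · exact hconj u
    · intro hzu
      obtain ⟨g, rfl⟩ := isConj_iff.mp hzu
      rw [← MulAut.conj_apply]
      exact (orderOf_injective (MulAut.conj g).toMonoidHom (MulAut.conj g).injective z).trans hz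
  obtain ⟨M, hM, hMc, hMle⟩ := H.exists_M
  have hcN : c.Coprime (Nat.card A₁ * (Nat.card A₂ * Nat.card A₃)) :=
    Nat.Coprime.mul_right (H.s₁.coprime_centralizer hz)
      (Nat.Coprime.mul_right (H.s₂.coprime_centralizer hz) (H.s₃.coprime_centralizer hz))
  obtain ⟨w, rfl⟩ : c ∣ M := hcN.dvd_of_dvd_mul_left (hM ▸ card_subgroup_dvd_card _)
  have htwo : 2 ∣ c := by
    rw [← hz, ← orderOf_mk z (mem_centralizer_singleton_iff.mpr rfl : z ∈ centralizer ({z} : Set G))]
    exact orderOf_dvd_natCard _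
  have hodd : Odd w := by
    haveI : Fact (Nat.Prime 2) := ⟨Nat.prime_two⟩
    let S : Sylow 2 G := default
    have hS2 : 2 ∣ Nat.card G := hz ▸ orderOf_dvd_natCard z
    haveI : Nontrivial (S : Subgroup G) := by
      rw [← Finite.one_lt_card_iff_nontrivial, S.card_eq_multiplicity]
      exact Nat.one_lt_pow (Nat.prime_two.factorization_pos_of_dvd Nat.card_pos.ne' hS2).ne' one_lt_two
    haveI := S.isPGroup'.center_nontrivial
    obtain ⟨k, hk0, hk⟩ := (S.isPGroup'.to_subgroup (center (S : Subgroup G))).nontrivial_iff_card.mp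
      inferInstance
    obtain ⟨t, ht⟩ := exists_prime_orderOf_dvd_card' (G := center (S : Subgroup G)) 2
      (by rw [hk]; exact dvd_pow_self 2 hk0.ne')
    have ht2 : orderOf ((t : S) : G) = 2 := by rw [orderOf_coe, orderOf_coe, ht]
    have hle : (S : Subgroup G) ≤ centralizer ({((t : S) : G)} : Set G) := fun g hg =>
      mem_centralizer_singleton_iff.mpr (congrArg Subtype.val (mem_center_iff.mp t.2 ⟨g, hg⟩))
    have hd := card_dvd_of_le hle
    rw [hcall _ ht2, S.card_eq_multiplicity] at hd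
    by_contra hev
    rw [Nat.not_odd_iff_even] at hev
    have h1 : 2 ^ ((Nat.card G).factorization 2 + 1) ∣ Nat.card G := by
      rw [pow_succ]
      exact (Nat.mul_dvd_mul hd hev.two_dvd).trans (hM ▸ dvd_mul_left _ _)
    exact Nat.pow_succ_factorization_not_dvd Nat.card_pos.ne' Nat.prime_two h1
  refine ⟨z, T, c, w, hz, hT, hcall, hI, hM, rfl, rfl, hodd, htwo, Nat.card_pos, hMc, hMle, ?_, ?_⟩
  · have e := O.formula_value H.s₁ hz hz hT hT hz hzi
    rw [if_pos ⟨IsConj.refl z, IsConj.refl z⟩, hM] at e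
    push_cast at e ⊢
    have hne : (Nat.card A₁ : ℤ) * c ≠ 0 :=
      mul_ne_zero (by exact_mod_cast Nat.card_pos.ne') (by exact_mod_cast Nat.card_pos.ne')
    apply mul_left_cancel₀ hne
    linear_combination -e
  · have h1 := H.s₁.card_index_modEq
    have h2 : 2 * (normalizer (A₁ : Set G)).index = c * w * (Nat.card A₂ * Nat.card A₃) := by
      apply Nat.eq_of_mul_eq_mul_left (show 0 < Nat.card A₁ from Nat.card_pos)
      have h3 : Nat.card A₁ * 2 = Nat.card (normalizer (A₁ : Set G)) := by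
        conv_lhs => arg 2; rw [← H.s₁.index]
        rw [← Nat.card_congr (subgroupOfEquivOfLe (le_normalizer (H := A₁))).toEquiv]
        exact card_mul_index _
      rw [← mul_assoc, h3, card_mul_index, hM]; ring
    rw [← h2]
    have h4 := (Nat.modEq_iff_dvd.mp h1.symm)
    push_cast at h4 ⊢
    have := Dvd.dvd.mul_left h4 (2 : ℤ)
    rw [show (2 : ℤ) * ((normalizer (A₁ : Set G)).index - 1) =
      2 * ((normalizer (A₁ : Set G)).index : ℤ) - 2 by ring] at this
    exact this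

end Cfsg.Agent.SSCSuzuki
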