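import Cfsg.Agent.SSCSuzuki.Local
import Cfsg.Agent.CharExt.AbelianTI
import Cfsg.Agent.Char.Orthogonality
import Cfsg.Agent.Char.Kernel
import Cfsg.Agent.Char.Virtual

/-!
# The exceptional family of a strongly self-centralizing subgroup
-/

set_option autoImplicit false

namespace Cfsg.Agent.SSCSuzuki

open scoped ComplexConjugate
open Subgroup Cfsg

universe u

variable {G : Type u} [Group G] [Fintype G]

/-- The degree as a natural number. -/
noncomputable def deg (χ : IrrCharacter G) : ℕ := (Char.irr_one_pos χ.2).choose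

omit [Fintype G] in
theorem deg_spec (χ : IrrCharacter G) : 0 < deg χ ∧ (χ : G → ℂ) 1 = deg χ :=
  (Char.irr_one_pos χ.2).choose_spec

/-- The data of the exceptional family of `A`. -/
structure Fam (A : Subgroup G) (w m : ℕ) (fam : Finset (IrrCharacter G)) (ε e : ℤ)
    (c : IrrCharacter G → ℤ) : Prop where
  eps : ε = 1 ∨ ε = -1
  card : fam.card = m
  size : Nat.card A = w * m + 1
  m2 : 2 ≤ m
  nonfam : ∀ χ, χ ∉ fam → ∀ a ∈ A, a ≠ 1 → (χ : G → ℂ) a = c χ
  sum : ∀ a ∈ A, a ≠ 1 → ∑ χ ∈ fam, (χ : G → ℂ) a = (((m : ℤ) * e - ε : ℤ) : ℂ)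
  norm : ∑ χ ∈ famᶜ, c χ ^ 2 + ((m : ℤ) * e ^ 2 - 2 * ε * e) = (w : ℤ)
  same : ∀ χ ∈ fam, ∀ ξ ∈ fam, ∀ y, ¬ Meets A y → (χ : G → ℂ) y = (ξ : G → ℂ) y
  nonconst : ∀ χ ∈ fam, ¬ ∃ v : ℤ, ∀ a ∈ A, a ≠ 1 → (χ : G → ℂ) a = v

theorem sum_column (g h : G) (hgh : ¬ IsConj g h) :
    ∑ χ : IrrCharacter G, (χ : G → ℂ) g * conj ((χ : G → ℂ) h) = 0 := by
  classical
  rw [Char.sum_irr_mul_conj, if_neg hgh]

variable {A : Subgroup G} {w m : ℕ} {fam : Finset (IrrCharacter G)} {ε e : ℤ}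
  {c : IrrCharacter G → ℤ}

theorem Fam.Q_nonneg (F : Fam A w m fam ε e c) : 0 ≤ (m : ℤ) * e ^ 2 - 2 * ε * e := by
  have h2 : (2 : ℤ) ≤ m := by exact_mod_cast F.m2
  have h3 := mul_le_mul_of_nonneg_right h2 (sq_nonneg e)
  have he : e ≤ e ^ 2 := Int.le_self_sq e
  have he' : -e ≤ e ^ 2 := by simpa using Int.le_self_sq (-e)
  rcases F.eps with rfl | rfl <;> linarith

/-- Orthogonality of the column of `A` with a column not meeting `A`. -/
theorem Fam.orth (F : Fam A w m fam ε e c) (h : SSC A w) {y : G} (hy : ¬ Meets A y) {v : ℂ}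
    (hv : ∀ χ ∈ fam, (χ : G → ℂ) y = v) :
    ∑ χ ∈ famᶜ, (c χ : ℂ) * (χ : G → ℂ) y + (((m : ℤ) * e - ε : ℤ) : ℂ) * v = 0 := by
  classical
  obtain ⟨a, ha, h1⟩ := h.exists_ne_one
  have h0 := sum_column y a fun hc => hy ((meets_self ha h1).conj hc.symm)
  rw [← Finset.sum_compl_add_sum fam] at h0
  rw [← h0]
  congr 1
  · refine Finset.sum_congr rfl fun χ hχ => ?_
    rw [F.nonfam χ (Finset.mem_compl.mp hχ) a ha h1, map_intCast, mul_comm]
  · have e1 : conj (∑ χ ∈ fam, (χ : G → ℂ) a) = (((m : ℤ) * e - ε : ℤ) : ℂ) := by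
      rw [F.sum a ha h1, map_intCast]
    rw [← e1, map_sum, Finset.sum_mul]
    exact Finset.sum_congr rfl fun χ hχ => by rw [hv χ hχ, mul_comm]

theorem dvd_deg_sub (h : SSC A w) (χ : IrrCharacter G) {v : ℤ}
    (hv : ∀ a ∈ A, a ≠ 1 → (χ : G → ℂ) a = v) : (Nat.card A : ℤ) ∣ (deg χ : ℤ) - v := by
  classical
  obtain ⟨k, hk⟩ := Char.isCharacter_classInner_nat
    (CharInd.isCharacter_res A (Char.isCharacter_of_irr χ.2)) (Char.trivialIrr A)
  have hA : (Nat.card A : ℂ) ≠ 0 := Nat.cast_ne_zero.mpr Nat.card_pos.ne'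
  have hsum : ∑ a : A, (χ : G → ℂ) (a : G) = (deg χ : ℂ) + ((Nat.card A : ℂ) - 1) * v := by
    rw [← Finset.add_sum_erase _ _ (Finset.mem_univ (1 : A)), OneMemClass.coe_one, (deg_spec χ).2]
    congr 1
    have e1 : ∀ a ∈ (Finset.univ : Finset A).erase 1, (χ : G → ℂ) (a : G) = (v : ℂ) := fun a ha =>
      hv a a.2 fun e => (Finset.mem_erase.mp ha).1 (Subtype.ext e)
    rw [Finset.sum_congr rfl e1, Finset.sum_const, Finset.card_erase_of_mem (Finset.mem_univ _), nsmul_eq_mul, Finset.card_univ,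
      Nat.card_eq_fintype_card, Nat.cast_sub Fintype.card_pos, Nat.cast_one]
  simp only [Cfsg.classInner, Char.trivialIrr, map_one, mul_one, hsum] at hk
  rw [inv_mul_eq_iff_eq_mul₀ hA] at hk
  refine ⟨(k : ℤ) - v, ?_⟩
  apply Int.cast_injective (α := ℂ)
  push_cast
  linear_combination hk

theorem exists_fam (h : SSC A w) (hm : w + 1 < Nat.card A) :
    ∃ (m : ℕ) (fam : Finset (IrrCharacter G)) (ε e : ℤ) (c : IrrCharacter G → ℤ),
      Fam A w m fam ε e c := by
  classical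
  set N : Subgroup G := normalizer (A : Set G)
  have hAN : A ≤ N := le_normalizer
  set L : Subgroup N := A.subgroupOf N
  haveI : L.Normal := normal_in_normalizer
  have hTI : ∀ g : G, g ∉ N → ∀ k : N, k ∈ L → ∀ k' : N, k' ∈ L →
      g * (k : G) * g⁻¹ = k' → k = 1 := by
    intro g hg k hk k' hk' e
    by_contra h1
    exact hg (h.mem_normalizer hk (fun e1 => h1 (Subtype.ext e1)) (e ▸ hk'))
  have hC : ∀ k ∈ L, k ≠ 1 → centralizer ({k} : Set N) ≤ L := by
    intro k hk h1 x hx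
    rw [mem_centralizer_singleton_iff] at hx
    exact h.commute_mem hk (fun e => h1 (Subtype.ext e)) (congrArg Subtype.val hx)
  have hab : ∀ a ∈ L, ∀ b ∈ L, a * b = b * a := fun a ha b hb => Subtype.ext (h.comm ha hb)
  have hidx : L.index = w := h.index
  have hcardL : Nat.card L = Nat.card A := Nat.card_congr (subgroupOfEquivOfLe hAN).toEquiv
  set E := Finset.univ.filter (fun η : IrrCharacter N => ¬ CharExt.KTriv L η) with hE
  have hsize := CharExt.card_excSet N L hC hab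
  rw [← hE, hidx, hcardL] at hsize
  have hm2 : 2 ≤ E.card := by
    by_contra hc
    have : E.card * w ≤ 1 * w := Nat.mul_le_mul_right w (by omega)
    omega
  have hw0 : 0 < w := by rcases h.w24 with rfl | rfl <;> norm_num
  have hwC : (w : ℂ) ≠ 0 := Nat.cast_ne_zero.mpr hw0.ne'
  have hdegw : ∀ η : IrrCharacter N, ¬ CharExt.KTriv L η → (η : N → ℂ) 1 = (w : ℂ) := fun η hη => by
    rw [CharExt.degree_eq_index N L hC hab hη, hidx]
  obtain ⟨εc, f, hf1 | ⟨hε, hinj, hdiff⟩⟩ := CharExt.exists_exceptional N L hTI hC hab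
  · rw [← hE] at hf1; omega
  obtain ⟨ε, hε', rfl⟩ : ∃ ε : ℤ, (ε = 1 ∨ ε = -1) ∧ (ε : ℂ) = εc := by
    rcases hε with rfl | rfl
    · exact ⟨1, Or.inl rfl, by simp⟩
    · exact ⟨-1, Or.inr rfl, by simp⟩
  have hεsq : (ε : ℂ) * ε = 1 := by rcases hε' with rfl | rfl <;> simp
  obtain ⟨η₀, hη₀⟩ : E.Nonempty := Finset.card_pos.mp (by omega)
  set η0 : {η : IrrCharacter N // ¬ CharExt.KTriv L η} := ⟨η₀, (Finset.mem_filter.mp hη₀).2⟩
  -- the coefficient function of an irreducible character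
  let cf : IrrCharacter G → IrrCharacter N → ℤ := fun χ η =>
    if hη : ¬ CharExt.KTriv L η then (if f ⟨η, hη⟩ = χ then ε else 0) else 0
  have hval : ∀ χ : IrrCharacter G, ∃ v : ℤ, ∀ k : N, k ∈ L → k ≠ 1 →
      (χ : G → ℂ) k = (∑ η ∈ E, (cf χ η : ℂ) * (η : N → ℂ) k) + v := by
    intro χ
    have hF : Cfsg.IsClassFunction N (fun x : N => (χ : G → ℂ) x) := fun g g' =>
      Char.irr_isClassFunction χ.2 g g'
    choose n hn using Char.isCharacter_classInner_nat
      (CharInd.isCharacter_res N (Char.isCharacter_of_irr χ.2))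
    have hcoef : ∀ η : IrrCharacter N, ¬ CharExt.KTriv L η →
        Cfsg.classInner (fun x : N => (χ : G → ℂ) x) (η : N → ℂ) = (cf χ η : ℂ) +
          (((n η₀ : ℂ) - (cf χ η₀ : ℂ)) / w) * (η : N → ℂ) 1 := by
      intro η hη
      rw [hdegw η hη, div_mul_cancel₀ _ hwC]
      have h1 := CharInd.classInner_indFun_right N ((η : N → ℂ) - (η₀ : N → ℂ))
        (Char.irr_isClassFunction χ.2)
      rw [hdiff ⟨η, hη⟩ η0, Char.classInner_smul_right, Char.classInner_sub_right,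
        Char.classInner_irrCharacter, Char.classInner_irrCharacter, map_intCast,
        Char.classInner_sub_right, hn η₀] at h1
      have ec : ∀ (η' : IrrCharacter N) (hη' : ¬ CharExt.KTriv L η'),
          (cf χ η' : ℂ) = (ε : ℂ) * (if χ = f ⟨η', hη'⟩ then 1 else 0) := by
        intro η' hη'
        simp only [cf, dif_pos hη', eq_comm (a := χ)]
        split_ifs <;> simp
      rw [ec η hη, ec η₀ η0.2]
      linear_combination -h1
    refine ⟨∑ β ∈ Finset.univ.filter (fun β => CharExt.KTriv L β), (n β : ℤ) * deg β -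
      ((n η₀ : ℤ) - cf χ η₀), fun k hk hk1 => ?_⟩
    have h1 := CharExt.restrict_eq N L hF (fun η => (cf χ η : ℂ)) _ hcoef hk hk1
    rw [h1, hidx, div_mul_cancel₀ _ hwC]
    congr 1
    push_cast
    congr 1
    exact Finset.sum_congr rfl fun β _ => by rw [hn β, (deg_spec β).2]
  choose v hv using hval
  set fam : Finset (IrrCharacter G) := Finset.univ.image f with hfam
  have hnon : ∀ χ, χ ∉ fam → ∀ a ∈ A, a ≠ 1 → (χ : G → ℂ) a = v χ := by
    intro χ hχ a ha h1
    have e := hv χ ⟨a, hAN ha⟩ ha (fun e => h1 (congrArg Subtype.val e))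
    rw [Finset.sum_eq_zero fun η hη => ?_, zero_add] at e
    · exact e
    · simp only [cf, dif_pos (Finset.mem_filter.mp hη).2]
      rw [if_neg fun e' => hχ (by rw [← e']; exact Finset.mem_image_of_mem f (Finset.mem_univ _))]
      simp
  have hmem : ∀ (η : {η : IrrCharacter N // ¬ CharExt.KTriv L η}) (k : N), k ∈ L → k ≠ 1 →
      (f η : G → ℂ) k = (ε : ℂ) * (η.1 : N → ℂ) k + v (f η) := by
    intro η k hk hk1
    rw [hv (f η) k hk hk1]
    congr 1
    rw [Finset.sum_eq_single η.1]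
    · simp only [cf, dif_pos η.2, if_true]
    · intro η' hη' hne
      simp only [cf, dif_pos (Finset.mem_filter.mp hη').2]
      rw [if_neg fun e' => hne (congrArg Subtype.val (hinj e'))]
      simp
    · intro hn'
      exact (hn' (by simp [hE, η.2])).elim
  have hpsi : ∀ (η ξ : {η : IrrCharacter N // ¬ CharExt.KTriv L η}),
      ∀ x : N, (x : G) ∉ Subtype.val '' (L : Set N) →
        ((η.1 : N → ℂ) - (ξ.1 : N → ℂ)) x = 0 := by
    intro η ξ x hx
    have hxL : x ∉ L := fun hL => hx ⟨x, hL, rfl⟩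
    simp [CharExt.eq_zero_of_notMem L hC η.2 hxL, CharExt.eq_zero_of_notMem L hC ξ.2 hxL]
  obtain ⟨a₀, ha₀, ha₀1⟩ := h.exists_ne_one
  have hve : ∀ η : {η : IrrCharacter N // ¬ CharExt.KTriv L η}, v (f η) = v (f η0) := by
    intro η
    have hk : (⟨a₀, hAN ha₀⟩ : N) ∈ L := ha₀
    have hk1 : (⟨a₀, hAN ha₀⟩ : N) ≠ 1 := fun e => ha₀1 (congrArg Subtype.val e)
    have hcl : Cfsg.IsClassFunction N ((η.1 : N → ℂ) - (η0.1 : N → ℂ)) := fun g g' => by
      simp [Char.irr_isClassFunction η.1.2 g g', Char.irr_isClassFunction η0.1.2 g g']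
    have h1 := CharInd.indFun_ti_apply N (Subtype.val '' (L : Set N))
      (by
        rintro g hg _ ⟨a, ha, rfl⟩ ⟨b, hb, hab'⟩
        simpa using hTI g hg a ha b hb hab'.symm)
      hcl (hpsi η η0) ⟨a₀, hAN ha₀⟩ ⟨_, hk, rfl⟩ hk1
    rw [hdiff η η0] at h1
    simp only [Pi.smul_apply, Pi.sub_apply, smul_eq_mul] at h1
    rw [hmem η _ hk hk1, hmem η0 _ hk hk1] at h1
    have : (ε : ℂ) * ((v (f η) : ℂ) - v (f η0)) = 0 := by
      linear_combination h1 - ((η.1 : N → ℂ) ⟨a₀, hAN ha₀⟩ - (η0.1 : N → ℂ) ⟨a₀, hAN ha₀⟩) * hεsq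
    have h2 : ((v (f η) : ℂ) - v (f η0)) = 0 := by linear_combination (ε : ℂ) * this -
      ((v (f η) : ℂ) - v (f η0)) * hεsq
    exact_mod_cast sub_eq_zero.mp h2
  set e : ℤ := v (f η0) with he
  have hfamcard : fam.card = E.card := by
    rw [hfam, Finset.card_image_of_injective _ hinj, Finset.card_univ, Fintype.card_subtype]
  have hfamsum : ∀ g : IrrCharacter G → ℂ, ∑ χ ∈ fam, g χ = ∑ η, g (f η) := fun g => by
    rw [hfam, Finset.sum_image hinj.injOn]
  have hEsum : ∀ g : IrrCharacter N → ℂ,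
      ∑ η ∈ E, g η = ∑ η : {η : IrrCharacter N // ¬ CharExt.KTriv L η}, g η.1 := fun g =>
    Finset.sum_subtype _ (fun x => by simp [hE]) g
  have hSE : ∀ k : N, k ∈ L → k ≠ 1 → ∑ η ∈ E, (η : N → ℂ) k = -1 := by
    intro k hk hk1
    have h1 := CharExt.sum_not_kTriv_mul L k
    rw [if_neg hk1, if_pos hk, ← hE, Finset.sum_congr rfl (fun η hη => by
      rw [hdegw η (Finset.mem_filter.mp hη).2]), ← Finset.mul_sum, hidx, zero_sub] at h1
    exact mul_left_cancel₀ hwC (by rw [h1]; ring)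
  have hsum : ∀ a ∈ A, a ≠ 1 → ∑ χ ∈ fam, (χ : G → ℂ) a = (((E.card : ℤ) * e - ε : ℤ) : ℂ) := by
    intro a ha h1
    have hk1 : (⟨a, hAN ha⟩ : N) ≠ 1 := fun e => h1 (congrArg Subtype.val e)
    rw [hfamsum]
    rw [Finset.sum_congr rfl (fun η _ => by
      rw [show (f η : G → ℂ) a = _ from hmem η ⟨a, hAN ha⟩ ha hk1, hve η]),
      Finset.sum_add_distrib, ← Finset.mul_sum, ← hEsum fun η => (η : N → ℂ) ⟨a, hAN ha⟩,
      hSE _ ha hk1, Finset.sum_const, Finset.card_univ, Fintype.card_subtype, nsmul_eq_mul, ← hE]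
    push_cast
    ring
  refine ⟨E.card, fam, ε, e, v, hε', hfamcard, by rw [← hsize]; ring, hm2, hnon, hsum, ?_, ?_, ?_⟩
  · -- the column norm
    have hk : (⟨a₀, hAN ha₀⟩ : N) ∈ L := ha₀
    have hk1 : (⟨a₀, hAN ha₀⟩ : N) ≠ 1 := fun e => ha₀1 (congrArg Subtype.val e)
    set k0 : N := ⟨a₀, hAN ha₀⟩
    have hT : ∑ η ∈ Finset.univ.filter (fun β => CharExt.KTriv L β),
        (η : N → ℂ) k0 * conj ((η : N → ℂ) k0) = (w : ℂ) := by
      have h1 := Char.sum_irr_degree_mul k0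
      rw [if_neg hk1, ← Finset.sum_filter_add_sum_filter_not Finset.univ
        (fun β => CharExt.KTriv L β)] at h1
      have h2 := CharExt.sum_not_kTriv_mul L k0
      rw [if_neg hk1, if_pos hk, hidx] at h2
      rw [h2] at h1
      refine (Finset.sum_congr rfl fun η hη => ?_).trans
        (show ∑ η ∈ Finset.univ.filter (fun β => CharExt.KTriv L β),
          (η : N → ℂ) 1 * (η : N → ℂ) k0 = (w : ℂ) by linear_combination h1)
      rw [(Finset.mem_filter.mp hη).2 k0 hk, (deg_spec η).2, Complex.conj_natCast]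
    have hN : ∑ η ∈ E, (η : N → ℂ) k0 * conj ((η : N → ℂ) k0) = (Nat.card A : ℂ) - w := by
      have h1 := Char.sum_irr_mul_conj k0 k0
      rw [if_pos (IsConj.refl _), ← Finset.sum_filter_add_sum_filter_not Finset.univ
        (fun β => CharExt.KTriv L β), hT] at h1
      have hcc : Nat.card (centralizer ({k0} : Set N)) = Nat.card A := by
        rw [← hcardL, le_antisymm (hC k0 hk hk1) (fun x hx => mem_centralizer_singleton_iff.mpr
          (hab x hx k0 hk))]
      rw [hcc] at h1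
      linear_combination h1
    have hG := Char.sum_irr_mul_conj (a₀ : G) a₀
    rw [if_pos (IsConj.refl _), h.centralizer_card ha₀ ha₀1, ← Finset.sum_compl_add_sum fam] at hG
    have hfamn : ∑ χ ∈ fam, (χ : G → ℂ) a₀ * conj ((χ : G → ℂ) a₀) =
        (Nat.card A : ℂ) - w + ((E.card : ℂ) * (e : ℂ) ^ 2 - 2 * (ε : ℂ) * e) := by
      rw [hfamsum]
      have hterm : ∀ η : {η : IrrCharacter N // ¬ CharExt.KTriv L η},
          (f η : G → ℂ) a₀ * conj ((f η : G → ℂ) a₀) = (η.1 : N → ℂ) k0 * conj ((η.1 : N → ℂ) k0) +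
            ((ε : ℂ) * e) * (η.1 : N → ℂ) k0 + ((ε : ℂ) * e) * conj ((η.1 : N → ℂ) k0) +
              (e : ℂ) ^ 2 := by
        intro η
        rw [show (f η : G → ℂ) a₀ = _ from hmem η k0 hk hk1, hve η, map_add, map_mul, map_intCast,
          map_intCast]
        linear_combination (η.1 : N → ℂ) k0 * conj ((η.1 : N → ℂ) k0) * hεsq
      rw [Finset.sum_congr rfl (fun η _ => hterm η)]
      rw [Finset.sum_add_distrib, Finset.sum_add_distrib, Finset.sum_add_distrib, ← Finset.mul_sum,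
        ← Finset.mul_sum, ← hEsum fun η => (η : N → ℂ) k0 * conj ((η : N → ℂ) k0),
        ← hEsum fun η => (η : N → ℂ) k0, ← hEsum fun η => conj ((η : N → ℂ) k0), ← map_sum,
        hSE k0 hk hk1, hN, Finset.sum_const, Finset.card_univ, Fintype.card_subtype, nsmul_eq_mul,
        ← hE, map_neg, map_one]
      ring
    have hrest : ∑ χ ∈ famᶜ, (χ : G → ℂ) a₀ * conj ((χ : G → ℂ) a₀) =
        ∑ χ ∈ famᶜ, (v χ : ℂ) ^ 2 := Finset.sum_congr rfl fun χ hχ => by
      rw [hnon χ (Finset.mem_compl.mp hχ) a₀ ha₀ ha₀1, map_intCast, sq]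
    rw [hfamn, hrest] at hG
    apply Int.cast_injective (α := ℂ)
    push_cast
    linear_combination hG
  · intro χ hχ ξ hξ y hy
    obtain ⟨η, -, rfl⟩ := Finset.mem_image.mp hχ
    obtain ⟨ζ, -, rfl⟩ := Finset.mem_image.mp hξ
    have h0 : Cfsg.indFun N ((η.1 : N → ℂ) - (ζ.1 : N → ℂ)) y = 0 := by
      rw [CharInd.indFun_apply, Finset.sum_eq_zero fun x _ => ?_, mul_zero]
      by_cases hx : x⁻¹ * y * x ∈ N
      · rw [CharInd.extendByZero_mem N _ hx]
        by_cases hxL : (⟨x⁻¹ * y * x, hx⟩ : N) ∈ L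
        · by_cases h1 : (⟨x⁻¹ * y * x, hx⟩ : N) = 1
          · rw [h1, Pi.sub_apply, hdegw _ η.2, hdegw _ ζ.2, sub_self]
          · exact absurd ((meets_self (A := A) (a := x⁻¹ * y * x) hxL
              (fun e => h1 (Subtype.ext e))).conj (isConj_iff.mpr ⟨x, by group⟩)) hy
        · simp [CharExt.eq_zero_of_notMem L hC η.2 hxL, CharExt.eq_zero_of_notMem L hC ζ.2 hxL]
      · exact CharInd.extendByZero_notMem N _ hx
    rw [hdiff η ζ] at h0
    simp only [Pi.smul_apply, Pi.sub_apply, smul_eq_mul, mul_eq_zero] at h0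
    rcases h0 with h0 | h0
    · rcases hε' with rfl | rfl <;> simp at h0
    · exact sub_eq_zero.mp h0
  · intro χ hχ
    rintro ⟨u', hu'⟩
    obtain ⟨η, -, rfl⟩ := Finset.mem_image.mp hχ
    have hz : ∀ k : N, k ∈ L → k ≠ 1 → (η.1 : N → ℂ) k = ((ε * (u' - e) : ℤ) : ℂ) := by
      intro k hk hk1
      have h1 := hmem η k hk hk1
      rw [hu' k hk (fun e => hk1 (Subtype.ext e)), hve η] at h1
      push_cast
      linear_combination -(ε : ℂ) * h1 - (η.1 : N → ℂ) k * hεsq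
    have h1 := CharExt.sum_kernel_eq_zero L hC η.2
    have e1 : ∀ k ∈ (Finset.univ : Finset L).erase 1,
        (η.1 : N → ℂ) (k : N) = ((ε * (u' - e) : ℤ) : ℂ) := fun k hk =>
      hz k k.2 fun e => (Finset.mem_erase.mp hk).1 (Subtype.ext e)
    rw [← Finset.add_sum_erase _ _ (Finset.mem_univ (1 : L)), Finset.sum_congr rfl e1,
      OneMemClass.coe_one, hdegw _ η.2, Finset.sum_const,
      Finset.card_erase_of_mem (Finset.mem_univ _), Finset.card_univ, ← Nat.card_eq_fintype_card,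
      hcardL, ← hsize, Nat.add_sub_cancel, nsmul_eq_mul] at h1
    have h2 : (w : ℤ) + (E.card * w : ℕ) * (ε * (u' - e)) = 0 := by
      apply Int.cast_injective (α := ℂ)
      push_cast
      push_cast at h1
      linear_combination h1
    push_cast at h2
    have h3 : (E.card : ℤ) * (ε * (u' - e)) = -1 := by
      apply mul_left_cancel₀ (show (w : ℤ) ≠ 0 by omega)
      linear_combination h2
    have h4 : (E.card : ℤ) ∣ 1 := ⟨-(ε * (u' - e)), by linarith⟩
    have := Int.le_of_dvd one_pos h4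
    omega

end Cfsg.Agent.SSCSuzuki
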