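import Mathlib

/-!
# Strongly self-centralizing subgroups: local facts
-/

set_option autoImplicit false

namespace Cfsg.Agent.SSCSuzuki

open Subgroup

universe u

variable {G : Type u} [Group G]

/-- A strongly self-centralizing subgroup of index 2 or 4 in its normalizer. -/
structure SSC (A : Subgroup G) (w : ℕ) : Prop where
  cent : ∀ a ∈ A, a ≠ 1 → centralizer ({a} : Set G) = A
  index : A.relIndex (normalizer (A : Set G)) = w
  w24 : w = 2 ∨ w = 4
  five : 5 ≤ Nat.card A

/-- `g` is conjugate to a non-identity element of `A`. -/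
def Meets (A : Subgroup G) (g : G) : Prop := ∃ a ∈ A, a ≠ 1 ∧ IsConj a g

theorem meets_self {A : Subgroup G} {a : G} (ha : a ∈ A) (h1 : a ≠ 1) : Meets A a :=
  ⟨a, ha, h1, IsConj.refl a⟩

theorem Meets.conj {A : Subgroup G} {g h : G} (hm : Meets A g) (hc : IsConj g h) : Meets A h := by
  obtain ⟨a, ha, h1, hag⟩ := hm
  exact ⟨a, ha, h1, hag.trans hc⟩

theorem not_meets_one (A : Subgroup G) : ¬ Meets A (1 : G) := by
  rintro ⟨a, -, h1, hc⟩
  exact h1 (isConj_one_left.mp hc)

theorem orderOf_dvd_of_meets {A : Subgroup G} {g : G} (hm : Meets A g) :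
    orderOf g ∣ Nat.card A ∧ g ≠ 1 := by
  obtain ⟨a, ha, h1, hc⟩ := hm
  obtain ⟨c, rfl⟩ := isConj_iff.mp hc
  refine ⟨?_, fun e => h1 (conj_eq_one_iff.mp e)⟩
  rw [← MulAut.conj_apply,
    show orderOf ((MulAut.conj c) a) = orderOf a from
      orderOf_injective (MulAut.conj c).toMonoidHom (MulAut.conj c).injective a,
    ← orderOf_mk a ha]
  exact orderOf_dvd_natCard _

theorem sq_one_inv {z : G} (h : orderOf z = 2) : z⁻¹ = z := by
  rw [inv_eq_iff_mul_eq_one, ← pow_two, ← h, pow_orderOf_eq_one]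

variable {A : Subgroup G} {w : ℕ}

theorem SSC.commute_mem (h : SSC A w) {a x : G} (ha : a ∈ A) (h1 : a ≠ 1) (hx : x * a = a * x) :
    x ∈ A := by
  rw [← h.cent a ha h1, mem_centralizer_singleton_iff]; exact hx

theorem SSC.comm (h : SSC A w) {a b : G} (ha : a ∈ A) (hb : b ∈ A) : a * b = b * a := by
  by_cases h1 : b = 1
  · subst h1; simp
  · rw [← h.cent b hb h1, mem_centralizer_singleton_iff] at ha
    exact ha

theorem SSC.centralizer_card (h : SSC A w) {a : G} (ha : a ∈ A) (h1 : a ≠ 1) :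
    Nat.card (centralizer ({a} : Set G)) = Nat.card A := by rw [h.cent a ha h1]

variable [Finite G]

theorem SSC.mem_normalizer (h : SSC A w) {g a : G} (ha : a ∈ A) (h1 : a ≠ 1)
    (hga : g * a * g⁻¹ ∈ A) : g ∈ normalizer (A : Set G) := by
  refine mem_normalizer_fintype fun n hn => ?_
  refine h.commute_mem hga (fun e => h1 ?_) ?_
  · exact conj_eq_one_iff.mp e
  · have := h.comm hn ha
    calc g * n * g⁻¹ * (g * a * g⁻¹) = g * (n * a) * g⁻¹ := by group
      _ = g * (a * n) * g⁻¹ := by rw [this]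
      _ = g * a * g⁻¹ * (g * n * g⁻¹) := by group

theorem SSC.exists_ne_one (h : SSC A w) : ∃ a ∈ A, a ≠ 1 := by
  by_contra hcon
  push Not at hcon
  have := h.five
  rw [(eq_bot_iff_forall A).mpr hcon, card_bot] at this
  omega

/-- The elementary key: an element of the normalizer outside `A` with square in `A` inverts `A`
and is an involution. -/
theorem SSC.flip (h : SSC A w) {z : G} (hz : z ∈ normalizer (A : Set G)) (hzA : z ∉ A)
    (hz2 : z * z ∈ A) :
    Odd (Nat.card A) ∧ orderOf z = 2 ∧ ∀ a ∈ A, z * a * z⁻¹ = a⁻¹ := by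
  have hmem : ∀ a ∈ A, z * a * z⁻¹ ∈ A := fun a ha => (Subgroup.mem_normalizer_iff.mp hz a).mp ha
  have hfpf : ∀ a ∈ A, z * a * z⁻¹ = a → a = 1 := by
    intro a ha e
    by_contra h1
    exact hzA (h.commute_mem ha h1 (mul_inv_eq_iff_eq_mul.mp e))
  have hinv : ∀ a ∈ A, z * a * z⁻¹ = a⁻¹ := by
    intro a ha
    have e2 : z * (z * a * z⁻¹) * z⁻¹ = a := by
      have := h.comm hz2 ha
      calc z * (z * a * z⁻¹) * z⁻¹ = (z * z * a) * (z * z)⁻¹ := by group
        _ = _ := by rw [this, mul_inv_cancel_right]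
    have h3 : a * (z * a * z⁻¹) = 1 := by
      apply hfpf _ (A.mul_mem ha (hmem a ha))
      calc z * (a * (z * a * z⁻¹)) * z⁻¹ = (z * a * z⁻¹) * (z * (z * a * z⁻¹) * z⁻¹) := by group
        _ = a * (z * a * z⁻¹) := by rw [e2, h.comm (hmem a ha) ha]
    exact eq_inv_of_mul_eq_one_right h3
  refine ⟨?_, ?_, hinv⟩
  · by_contra hev
    rw [Nat.not_odd_iff_even] at hev
    haveI : Fact (Nat.Prime 2) := ⟨Nat.prime_two⟩
    obtain ⟨a, ha⟩ := exists_prime_orderOf_dvd_card' 2 hev.two_dvd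
    have h1 : (a : G) ≠ 1 := fun e => by
      rw [show a = 1 from Subtype.ext e] at ha; simp at ha
    refine h1 (hfpf a a.2 ?_)
    rw [hinv a a.2, sq_one_inv (by rw [orderOf_coe, ha])]
  · have e : z * z = 1 := hfpf _ hz2 (by group)
    exact orderOf_eq_prime (by rw [pow_two, e]) fun e1 => hzA (e1 ▸ A.one_mem)

theorem SSC.flip_unique (h : SSC A w) {z z' : G} (hz : ∀ a ∈ A, z * a * z⁻¹ = a⁻¹)
    (hz' : ∀ a ∈ A, z' * a * z'⁻¹ = a⁻¹) : z⁻¹ * z' ∈ A := by
  obtain ⟨a, ha, h1⟩ := h.exists_ne_one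
  refine h.commute_mem ha h1 (mul_inv_eq_iff_eq_mul.mp ?_)
  calc z⁻¹ * z' * a * (z⁻¹ * z')⁻¹ = z⁻¹ * (z' * a * z'⁻¹) * z := by group
    _ = z⁻¹ * (z * a * z⁻¹) * z := by rw [hz' a ha, hz a ha]
    _ = a := by group

theorem SSC.exists_flip (h : SSC A w) : ∃ z ∈ normalizer (A : Set G), z ∉ A ∧ z * z ∈ A := by
  set N := normalizer (A : Set G)
  haveI : (A.subgroupOf N).Normal := normal_in_normalizer
  have hc : Nat.card (N ⧸ A.subgroupOf N) = w := h.index
  haveI : Fact (Nat.Prime 2) := ⟨Nat.prime_two⟩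
  obtain ⟨q, hq⟩ := exists_prime_orderOf_dvd_card' (G := N ⧸ A.subgroupOf N) 2
    (by rw [hc]; rcases h.w24 with rfl | rfl <;> norm_num)
  obtain ⟨z, rfl⟩ := QuotientGroup.mk_surjective q
  refine ⟨z, z.2, fun hzA => ?_, ?_⟩
  · rw [(QuotientGroup.eq_one_iff z).mpr (mem_subgroupOf.mpr hzA), orderOf_one] at hq
    simp at hq
  · have : ((z * z : N) : N ⧸ A.subgroupOf N) = 1 := by
      rw [QuotientGroup.mk_mul, ← pow_two, ← hq, pow_orderOf_eq_one]
    simpa [mem_subgroupOf] using (QuotientGroup.eq_one_iff _).mp this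

theorem SSC.odd (h : SSC A w) : Odd (Nat.card A) := by
  obtain ⟨z, hz, hzA, hz2⟩ := h.exists_flip
  exact (h.flip hz hzA hz2).1

theorem SSC.exists_inverting (h : SSC A w) :
    ∃ z : G, orderOf z = 2 ∧ ∀ a ∈ A, z * a * z⁻¹ = a⁻¹ := by
  obtain ⟨z, hz, hzA, hz2⟩ := h.exists_flip
  exact ⟨z, (h.flip hz hzA hz2).2⟩

/-- Index four: an element of order four. -/
theorem SSC.exists_orderOf_four (h : SSC A 4) : ∃ x : G, orderOf x = 4 := by
  classical
  set N := normalizer (A : Set G) with hN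
  haveI : (A.subgroupOf N).Normal := normal_in_normalizer
  have hc : Nat.card (N ⧸ A.subgroupOf N) = 4 := h.index
  by_contra hcon
  push Not at hcon
  -- every element of the quotient is an involution, and there is only one
  have hall : ∀ x : N, (x : G) * x ∈ A := by
    intro x
    by_contra hx
    have hx4 : ((x : G) * x) * ((x : G) * x) ∈ A := by
      have : ((x * x * (x * x) : N) : N ⧸ A.subgroupOf N) = 1 := by
        rw [QuotientGroup.mk_mul, QuotientGroup.mk_mul, ← pow_two, ← pow_two, ← pow_mul,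
          show 2 * 2 = Nat.card (N ⧸ A.subgroupOf N) by rw [hc], pow_card_eq_one']
      simpa [mem_subgroupOf] using (QuotientGroup.eq_one_iff _).mp this
    obtain ⟨-, ho, -⟩ := h.flip (mul_mem x.2 x.2) hx hx4
    apply hcon (x : G)
    haveI : Fact (Nat.Prime 2) := ⟨Nat.prime_two⟩
    refine orderOf_eq_prime_pow (p := 2) (n := 1) (x := (x : G)) ?_ ?_
    · rw [pow_one, pow_two]; intro e; rw [e, orderOf_one] at ho; omega
    · rw [show 2 ^ (1 + 1) = 2 * 2 from rfl, pow_mul, pow_two (x : G), ← ho, pow_orderOf_eq_one]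
  obtain ⟨z, hz, hzA, hz2⟩ := h.exists_flip
  have hsub : ∀ q : N ⧸ A.subgroupOf N, q = 1 ∨ q = QuotientGroup.mk ⟨z, hz⟩ := by
    intro q
    obtain ⟨x, rfl⟩ := QuotientGroup.mk_surjective q
    by_cases hx : (x : G) ∈ A
    · exact Or.inl ((QuotientGroup.eq_one_iff x).mpr (mem_subgroupOf.mpr hx))
    · refine Or.inr (QuotientGroup.eq.mpr (mem_subgroupOf.mpr ?_))
      exact h.flip_unique (h.flip x.2 hx (hall x)).2.2 (h.flip hz hzA hz2).2.2
  have : Nat.card (N ⧸ A.subgroupOf N) ≤ Nat.card Bool := by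
    refine Nat.card_le_card_of_surjective
      (fun b : Bool => if b then 1 else QuotientGroup.mk ⟨z, hz⟩) fun q => ?_
    rcases hsub q with rfl | rfl
    · exact ⟨true, rfl⟩
    · exact ⟨false, rfl⟩
  simp [hc] at this

/-- The elements inverting a given non-identity element of `A`. -/
theorem SSC.inverts_iff (h : SSC A w) {z a u : G} (hz : orderOf z = 2)
    (hzi : ∀ a ∈ A, z * a * z⁻¹ = a⁻¹) (ha : a ∈ A) (h1 : a ≠ 1) :
    (orderOf u = 2 ∧ u * a * u⁻¹ = a⁻¹) ↔ z * u ∈ A := by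
  constructor
  · rintro ⟨-, hu⟩
    refine h.commute_mem ha h1 (mul_inv_eq_iff_eq_mul.mp ?_)
    calc z * u * a * (z * u)⁻¹ = z * (u * a * u⁻¹) * z⁻¹ := by group
      _ = a := by rw [hu, hzi _ (A.inv_mem ha), inv_inv]
  · intro hb
    obtain ⟨b, hb', rfl⟩ : ∃ b ∈ A, u = z * b :=
      ⟨z * u, hb, by rw [← mul_assoc, ← pow_two, ← hz, pow_orderOf_eq_one, one_mul]⟩
    refine ⟨orderOf_eq_prime ?_ ?_, ?_⟩
    · calc (z * b) ^ 2 = (z * b * z⁻¹) * (z * z) * b := by rw [pow_two]; group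
        _ = 1 := by rw [hzi b hb', ← pow_two, ← hz, pow_orderOf_eq_one]; group
    · intro e
      have : z ∈ A := by rw [eq_inv_of_mul_eq_one_left e]; exact A.inv_mem hb'
      have h2 := (h.odd).of_dvd_nat (Subgroup.orderOf_dvd_natCard A this)
      rw [hz] at h2; exact absurd h2 (by decide)
    · calc z * b * a * (z * b)⁻¹ = z * (b * a * b⁻¹) * z⁻¹ := by group
        _ = a⁻¹ := by rw [h.comm hb' ha, mul_inv_cancel_right, hzi a ha]

theorem SSC.conj_flip (h : SSC A w) {z b : G} (hz : orderOf z = 2)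
    (hzi : ∀ a ∈ A, z * a * z⁻¹ = a⁻¹) (hb : b ∈ A) : IsConj z (z * b) := by
  obtain ⟨k, hk⟩ := h.odd
  have hc : b ^ (k + 1) * b ^ (k + 1) = b := by
    rw [← pow_add, show k + 1 + (k + 1) = Nat.card A + 1 by omega, pow_succ,
      show b ^ Nat.card A = 1 by
        exact orderOf_dvd_iff_pow_eq_one.mp (Subgroup.orderOf_dvd_natCard A hb), one_mul]
  refine isConj_iff.mpr ⟨(b ^ (k + 1))⁻¹, ?_⟩
  have e := hzi _ (A.pow_mem hb (k + 1))
  rw [inv_inv, ← e]
  calc z * b ^ (k + 1) * z⁻¹ * z * b ^ (k + 1) = z * (b ^ (k + 1) * b ^ (k + 1)) := by group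
    _ = z * b := by rw [hc]

theorem SSC.card_inverting (h : SSC A w) {z a : G} (hz : orderOf z = 2)
    (hzi : ∀ a ∈ A, z * a * z⁻¹ = a⁻¹) (ha : a ∈ A) (h1 : a ≠ 1) :
    Nat.card {u : G // orderOf u = 2 ∧ u * a * u⁻¹ = a⁻¹} = Nat.card A := by
  refine Nat.card_congr ?_
  refine (Equiv.subtypeEquivRight fun u => h.inverts_iff hz hzi ha h1).trans ?_
  exact (Equiv.mulLeft z).subtypeEquiv fun u => Iff.rfl

/-- `A` is a Hall subgroup. -/
theorem SSC.factorization_eq (h : SSC A w) {p : ℕ} (hp : p.Prime) (hpn : p ∣ Nat.card A) :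
    (Nat.card A).factorization p = (Nat.card G).factorization p := by
  haveI : Fact p.Prime := ⟨hp⟩
  obtain ⟨a, ha⟩ := exists_prime_orderOf_dvd_card' p hpn
  have ha1 : (a : G) ≠ 1 := fun e => by
    rw [show a = 1 from Subtype.ext e, orderOf_one] at ha; exact hp.one_lt.ne ha
  obtain ⟨P, hP⟩ := (IsPGroup.of_card (G := zpowers (a : G)) (n := 1) (p := p)
    (by rw [Nat.card_zpowers, orderOf_coe, ha, pow_one])).exists_le_sylow
  have haP : (a : G) ∈ (P : Subgroup G) := hP (mem_zpowers _)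
  haveI : Nontrivial (P : Subgroup G) := ⟨⟨⟨a, haP⟩, 1, fun e => ha1 (congrArg Subtype.val e)⟩⟩
  haveI := P.isPGroup'.center_nontrivial
  obtain ⟨⟨z, hz⟩, hz1⟩ := exists_ne (1 : center (P : Subgroup G))
  have hz1' : (z : G) ≠ 1 := fun e => hz1 (Subtype.ext (Subtype.ext e))
  have hzc := mem_center_iff.mp hz
  have hzA : (z : G) ∈ A :=
    h.commute_mem a.2 ha1 (congrArg Subtype.val (hzc ⟨a, haP⟩)).symm
  have hPA : (P : Subgroup G) ≤ A := fun g hg =>
    h.commute_mem hzA hz1' (congrArg Subtype.val (hzc ⟨g, hg⟩))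
  refine le_antisymm (Nat.factorization_le_iff_dvd Nat.card_pos.ne' Nat.card_pos.ne' |>.mpr
    (card_subgroup_dvd_card A) p) ?_
  refine (hp.pow_dvd_iff_le_factorization Nat.card_pos.ne').mp ?_
  rw [← P.card_eq_multiplicity]
  exact card_dvd_of_le hPA

theorem SSC.coprime_index (h : SSC A w) : (Nat.card A).Coprime A.index := by
  rw [Nat.coprime_iff_gcd_eq_one]
  by_contra hne
  obtain ⟨p, hp, hpd⟩ := Nat.exists_prime_and_dvd hne
  have h1 := hpd.trans (Nat.gcd_dvd_left _ _)
  have h2 := hpd.trans (Nat.gcd_dvd_right _ _)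
  have h3 := h.factorization_eq hp h1
  rw [← A.card_mul_index, Nat.factorization_mul Nat.card_pos.ne' A.index_ne_zero_of_finite,
    Finsupp.add_apply] at h3
  have := hp.factorization_pos_of_dvd A.index_ne_zero_of_finite h2
  omega

/-- Elements of prime order dividing `|A|` are conjugate into `A`. -/
theorem SSC.meets_of_prime (h : SSC A w) {p : ℕ} (hp : p.Prime) (hpn : p ∣ Nat.card A) {y : G}
    (hy : orderOf y = p) : Meets A y := by
  haveI : Fact p.Prime := ⟨hp⟩
  obtain ⟨Q⟩ : Nonempty (Sylow p A) := inferInstance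
  let Q' : Sylow p G := Sylow.ofCard ((Q : Subgroup A).map A.subtype) (by
    rw [card_map_of_injective A.subtype_injective, Q.card_eq_multiplicity,
      h.factorization_eq hp hpn])
  obtain ⟨P, hP⟩ := (IsPGroup.of_card (G := zpowers y) (n := 1) (p := p)
    (by rw [Nat.card_zpowers, hy, pow_one])).exists_le_sylow
  obtain ⟨g, hg⟩ := MulAction.exists_smul_eq G P Q'
  have hmem : g * y * g⁻¹ ∈ (Q' : Subgroup G) := by
    rw [← hg, Sylow.coe_subgroup_smul]
    exact ⟨y, hP (mem_zpowers y), by simp⟩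
  have hA : g * y * g⁻¹ ∈ A := map_subtype_le _ hmem
  refine ⟨g * y * g⁻¹, hA, fun e => ?_, isConj_iff.mpr ⟨g⁻¹, by group⟩⟩
  have : y = 1 := conj_eq_one_iff.mp e
  rw [this, orderOf_one] at hy; exact hp.one_lt.ne hy

theorem SSC.centralizer_of_meets (h : SSC A w) {y : G} (hm : Meets A y) :
    Nat.card (centralizer ({y} : Set G)) = Nat.card A ∧
      ∀ c, c * y = y * c → orderOf c ∣ Nat.card A := by
  obtain ⟨a, ha, h1, hc⟩ := hm
  obtain ⟨g, rfl⟩ := isConj_iff.mp hc
  have hiff : ∀ c, c ∈ centralizer ({g * a * g⁻¹} : Set G) ↔ g⁻¹ * c * g ∈ A := by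
    intro c
    rw [mem_centralizer_singleton_iff, ← h.cent a ha h1, mem_centralizer_singleton_iff]
    constructor <;> intro e
    · calc g⁻¹ * c * g * a = g⁻¹ * (c * (g * a * g⁻¹)) * g := by group
        _ = g⁻¹ * (g * a * g⁻¹ * c) * g := by rw [e]
        _ = _ := by group
    · calc c * (g * a * g⁻¹) = g * (g⁻¹ * c * g * a) * g⁻¹ := by group
        _ = g * (a * (g⁻¹ * c * g)) * g⁻¹ := by rw [e]
        _ = _ := by group
  refine ⟨Nat.card_congr ((MulAut.conj g⁻¹).toEquiv.subtypeEquiv fun c => ?_), fun c hcc => ?_⟩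
  · simpa using hiff c
  · have hm' := (hiff c).mp (mem_centralizer_singleton_iff.mpr hcc)
    have := Subgroup.orderOf_dvd_natCard A hm'
    rwa [show g⁻¹ * c * g = (MulAut.conj g⁻¹).toMonoidHom c by simp,
      orderOf_injective _ (MulAut.conj g⁻¹).injective] at this

/-- Two non-conjugate such subgroups have coprime orders. -/
theorem SSC.coprime {B : Subgroup G} {v : ℕ} (h : SSC A w) (h' : SSC B v)
    (hnc : ∀ g : G, A.map (MulAut.conj g).toMonoidHom ≠ B) : (Nat.card A).Coprime (Nat.card B) := by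
  rw [Nat.coprime_iff_gcd_eq_one]
  by_contra hne
  obtain ⟨p, hp, hpd⟩ := Nat.exists_prime_and_dvd hne
  haveI : Fact p.Prime := ⟨hp⟩
  obtain ⟨b, hb⟩ := exists_prime_orderOf_dvd_card' p (hpd.trans (Nat.gcd_dvd_right (Nat.card A) _))
  have hb1 : (b : G) ≠ 1 := fun e => by
    rw [show b = 1 from Subtype.ext e, orderOf_one] at hb; exact hp.one_lt.ne hb
  obtain ⟨a, ha, h1, hc⟩ := h.meets_of_prime hp (hpd.trans (Nat.gcd_dvd_left _ (Nat.card B)))
    (y := (b : G)) (by rw [orderOf_coe, hb])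
  obtain ⟨g, hg⟩ := isConj_iff.mp hc
  refine hnc g (Subgroup.ext fun x => ?_)
  rw [← h.cent a ha h1, ← h'.cent b b.2 hb1, mem_map_equiv, mem_centralizer_singleton_iff,
    mem_centralizer_singleton_iff, MulAut.conj_symm_apply, ← hg]
  constructor <;> intro e
  · calc x * (g * a * g⁻¹) = g * (g⁻¹ * x * g * a) * g⁻¹ := by group
      _ = g * (a * (g⁻¹ * x * g)) * g⁻¹ := by rw [e]
      _ = _ := by group
  · calc g⁻¹ * x * g * a = g⁻¹ * (x * (g * a * g⁻¹)) * g := by group
      _ = g⁻¹ * (g * a * g⁻¹ * x) * g := by rw [e]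
      _ = _ := by group

theorem SSC.disjoint {B : Subgroup G} {v : ℕ} (hcop : (Nat.card A).Coprime (Nat.card B))
    (_h : SSC A w) (_h' : SSC B v) {g : G} (hA : Meets A g) (hB : Meets B g) : False := by
  obtain ⟨h1, hg⟩ := orderOf_dvd_of_meets hA
  obtain ⟨h2, -⟩ := orderOf_dvd_of_meets hB
  exact hg (orderOf_eq_one_iff.mp (Nat.eq_one_of_dvd_coprimes hcop h1 h2))

/-- An involution has no non-trivial common factor with `|A|` in its centralizer. -/
theorem SSC.coprime_centralizer (h : SSC A w) {t : G} (ht : orderOf t = 2) :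
    (Nat.card (centralizer ({t} : Set G))).Coprime (Nat.card A) := by
  rw [Nat.coprime_iff_gcd_eq_one]
  by_contra hne
  obtain ⟨p, hp, hpd⟩ := Nat.exists_prime_and_dvd hne
  haveI : Fact p.Prime := ⟨hp⟩
  obtain ⟨y, hy⟩ := exists_prime_orderOf_dvd_card' p (hpd.trans (Nat.gcd_dvd_left _ (Nat.card A)))
  have hm := h.meets_of_prime hp (hpd.trans (Nat.gcd_dvd_right _ _)) (y := (y : G))
    (by rw [orderOf_coe, hy])
  have := (h.centralizer_of_meets hm).2 t (mem_centralizer_singleton_iff.mp y.2).symm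
  rw [ht] at this
  exact (Nat.not_even_iff_odd.mpr h.odd) (even_iff_two_dvd.mpr this)

open scoped Classical in
/-- The number of conjugates of `A` is congruent to one. -/
theorem SSC.card_index_modEq (h : SSC A w) :
    (normalizer (A : Set G)).index ≡ 1 [MOD Nat.card A] := by
  haveI := Fintype.ofFinite G
  set N := normalizer (A : Set G) with hN
  have hAN : A ≤ N := le_normalizer
  set x0 : G ⧸ N := ((1 : G) : G ⧸ N)
  have hfix : ∀ a ∈ A, a • x0 = x0 := by
    intro a ha
    show ((a * 1 : G) : G ⧸ N) = x0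
    exact QuotientGroup.eq.mpr (by simpa using hAN ha)
  -- elements of `A` normalizing a conjugate lie in it
  have hfree : ∀ a : A, ∀ x : G ⧸ N, x ≠ x0 → a • x = x → a = 1 := by
    intro a x hx hax
    obtain ⟨g, rfl⟩ := QuotientGroup.mk_surjective x
    by_contra ha
    apply hx
    have hg : g⁻¹ * (a : G) * g ∈ N := by
      have := QuotientGroup.eq.mp (show (((a : G) * g : G) : G ⧸ N) = (g : G ⧸ N) from hax)
      rw [← inv_mem_iff]
      convert this using 1
      group
    haveI : (A.subgroupOf N).Normal := normal_in_normalizer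
    have hA : g⁻¹ * (a : G) * g ∈ A := by
      have ho : orderOf ((⟨g⁻¹ * (a : G) * g, hg⟩ : N) : N ⧸ A.subgroupOf N) = 1 := by
        refine Nat.eq_one_of_dvd_coprimes (a := Nat.card A) (b := w) ?_ ?_ ?_
        · rcases h.w24 with rfl | rfl
          · exact Nat.Coprime.symm h.odd.coprime_two_left
          · exact (show (4 : ℕ) = 2 ^ 2 by norm_num) ▸
              (Nat.Coprime.pow_left 2 h.odd.coprime_two_left).symm
        · refine (orderOf_map_dvd (QuotientGroup.mk' _) _).trans ?_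
          rw [← orderOf_coe]
          show orderOf (g⁻¹ * (a : G) * g) ∣ _
          rw [show g⁻¹ * (a : G) * g = (MulAut.conj g⁻¹).toMonoidHom a by simp,
            orderOf_injective _ (MulAut.conj g⁻¹).injective, orderOf_coe]
          exact orderOf_dvd_natCard a
        · exact h.index ▸ orderOf_dvd_natCard _
      simpa [mem_subgroupOf] using (QuotientGroup.eq_one_iff _).mp (orderOf_eq_one_iff.mp ho)
    have := h.mem_normalizer (g := g⁻¹) a.2 (fun e => ha (Subtype.ext e)) (by simpa using hA)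
    exact QuotientGroup.eq.mpr (by simpa using this)
  -- sum over the orbits
  have hsum : Nat.card (G ⧸ N) = ∑ ω : MulAction.orbitRel.Quotient A (G ⧸ N), Nat.card ω.orbit := by
    rw [Nat.card_congr (MulAction.selfEquivSigmaOrbits' A (G ⧸ N)), Nat.card_sigma]
  have horb : ∀ x : G ⧸ N, x ≠ x0 → Nat.card (MulAction.orbit A x) = Nat.card A := by
    intro x hx
    have hst : MulAction.stabilizer A x = ⊥ :=
      (eq_bot_iff_forall _).mpr fun a ha => hfree a x hx ha
    rw [← MulAction.index_stabilizer A x |>.trans (Nat.card_coe_set_eq _).symm, hst, index_bot]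
  rw [Subgroup.index, hsum]
  set q0 : MulAction.orbitRel.Quotient A (G ⧸ N) := Quotient.mk'' x0
  rw [← Finset.add_sum_erase _ _ (Finset.mem_univ q0)]
  have h0 : Nat.card q0.orbit = 1 := by
    rw [MulAction.orbitRel.Quotient.orbit_mk]
    haveI : Subsingleton (MulAction.orbit A x0) := ⟨by
      rintro ⟨_, a, rfl⟩ ⟨_, b, rfl⟩
      exact Subtype.ext ((hfix a a.2).trans (hfix b b.2).symm)⟩
    exact Nat.card_of_subsingleton ⟨x0, MulAction.mem_orbit_self x0⟩
  rw [h0]
  have : Nat.card A ∣ ∑ ω ∈ Finset.univ.erase q0, Nat.card ω.orbit := by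
    refine Finset.dvd_sum fun ω hω => ?_
    induction ω using Quotient.inductionOn' with
    | _ x =>
      rw [MulAction.orbitRel.Quotient.orbit_mk]
      rw [horb x fun e => (Finset.mem_erase.mp hω).1 (by rw [e])]
  obtain ⟨k, hk⟩ := this
  rw [hk]
  exact (Nat.modEq_iff_dvd' (by omega)).mpr ⟨k, by omega⟩ |>.symm

end Cfsg.Agent.SSCSuzuki
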